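import Mathlib
import Cfsg.Prelude.Def_PLocal
import Cfsg.Prelude.Def_Local

set_option autoImplicit false

/-! Piece statements for S4411 (`q`-automizers of `p`-subgroups are detected on normal subgroups of
a Sylow `p`-subgroup, for `{p,q} ≠ {2,3}` and `p`-solvable automizers), as `Prop`s.

Plan.  `Bad q X R`: some `q`-element of `X ∩ N(R)` does not centralize `R`
(for `X = ⊤` this is `q ∣ |N(R) : C(R)|`: pieces `Aq1`, `Aq2`).
* Local theorem `LA p q n` (Thompson style): a `{p,q}`-subgroup `X` (`|X| ≤ n`) with Sylow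
  `p`-subgroup `T` of an ambient finite group `Γ`, such that `¬ Bad q X K` for every `K ≤ T` with
  `N_Γ(T) ≤ N_Γ(K)`, has `¬ Bad q X R` for all its `p`-subgroups `R`.  Proof by induction on `n`:
  choose `H₀ ≤ T` with `Bad q X H₀` and `|N_T(H₀)|` maximal; then `H₀ ⊴ X` (else induction in
  `N_X(H₀)`), Thompson factorization `X = O_q(X) C_X(Z₁) N_X(J)` (`TFRel`, from the landed
  S0618/S0609), and induction in `N_X(J)`, `N_X(Z₁)`, or in `N_Γ(Z₁)/Z₁` (`QStep`).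
* Global part: choose `H₀ ≤ S` with `Bad q ⊤ H₀`, `|N_S(H₀)|` maximal, then `|H₀|` maximal;
  `T = N_S(H₀)` is Sylow in `N = N(H₀)` (`SylN`), the `p`-elements of `C(H₀)` lie in `H₀` (`GC`),
  `N` is `p`-solvable (`NPS`), a `{p,q}`-subgroup `X ⊇ T` of `N` still has `Bad q X H₀`
  (`HallRel`), and `LA` applied to `X` gives the contradiction when `T ≠ S`. -/

namespace Cfsg.Agent.Lib.Helper64.AutStmt

open Cfsg

universe u

section defs

variable {Γ : Type u} [Group Γ]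

/-- `y` is a `q`-element. -/
def QElt (q : ℕ) (y : Γ) : Prop := ∃ k : ℕ, y ^ (q ^ k) = 1

/-- some `q`-element of `X ∩ N(R)` does not centralize `R`. -/
def Bad (q : ℕ) (X R : Subgroup Γ) : Prop :=
  ∃ y : Γ, y ∈ X ∧ y ∈ Subgroup.normalizer (R : Set Γ) ∧ QElt q y ∧
    y ∉ Subgroup.centralizer (R : Set Γ)

/-- `T` is a Sylow `p`-subgroup of `X`. -/
def IsSyl (p : ℕ) (X T : Subgroup Γ) : Prop :=
  T ≤ X ∧ Nat.card T = p ^ (Nat.card X).factorization p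

/-- `X` is a `{p,q}`-group. -/
def IsPQ (p q : ℕ) (X : Subgroup Γ) : Prop :=
  ∀ r : ℕ, r.Prime → r ∣ Nat.card X → r = p ∨ r = q

/-- `Ω₁(Z(T))`. -/
def Z1 (p : ℕ) (T : Subgroup Γ) : Subgroup Γ :=
  omegaOne p (T ⊓ Subgroup.centralizer (T : Set Γ))

/-- the conjugate `x R x⁻¹`. -/
def cj (x : Γ) (R : Subgroup Γ) : Subgroup Γ := R.map (MulAut.conj x).toMonoidHom

end defs

/-- the local theorem for `{p,q}`-subgroups of order `≤ n`. -/
def LA (p q n : ℕ) : Prop :=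
  ∀ (Γ : Type u) [Group Γ] [Finite Γ] (X T : Subgroup Γ), Nat.card X ≤ n → IsPQ p q X →
    IsSyl p X T →
    (∀ K : Subgroup Γ, K ≤ T →
      Subgroup.normalizer (T : Set Γ) ≤ Subgroup.normalizer (K : Set Γ) → ¬ Bad q X K) →
    ∀ R : Subgroup Γ, R ≤ X → IsPGroup p R → ¬ Bad q X R

/-! ### Sylow basics for `IsSyl` -/

/-- [SYLA] -/
def SylPG : Prop := ∀ (p : ℕ) [Fact p.Prime] (Γ : Type u) [Group Γ] [Finite Γ] (X T : Subgroup Γ),
  IsSyl p X T → IsPGroup p T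

/-- [SYLA] a `p`-subgroup of `X` containing `T` is `T`. -/
def SylMax : Prop := ∀ (p : ℕ) [Fact p.Prime] (Γ : Type u) [Group Γ] [Finite Γ]
  (X T : Subgroup Γ), IsSyl p X T → ∀ P : Subgroup Γ, P ≤ X → IsPGroup p P → T ≤ P → P = T

/-- [SYLA] -/
def SylSub : Prop := ∀ (p : ℕ) [Fact p.Prime] (Γ : Type u) [Group Γ] [Finite Γ]
  (X T : Subgroup Γ), IsSyl p X T → ∀ N : Subgroup Γ, T ≤ N → N ≤ X → IsSyl p N T

/-- [SYLB] every `p`-subgroup of `X` is `X`-conjugate into `T`. -/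
def SylConj : Prop := ∀ (p : ℕ) [Fact p.Prime] (Γ : Type u) [Group Γ] [Finite Γ]
  (X T : Subgroup Γ), IsSyl p X T → ∀ P : Subgroup Γ, P ≤ X → IsPGroup p P →
    ∃ x ∈ X, ∀ g ∈ P, x * g * x⁻¹ ∈ T

/-- [SYLB] a maximal `p`-subgroup of `N` is Sylow. -/
def SylOfMax : Prop := ∀ (p : ℕ) [Fact p.Prime] (Γ : Type u) [Group Γ] [Finite Γ]
  (N T : Subgroup Γ), T ≤ N → IsPGroup p T →
    (∀ P : Subgroup Γ, P ≤ N → IsPGroup p P → T ≤ P → P = T) → IsSyl p N T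

/-- [MAXC] lexicographic maximal choice of `(|N_T(R)|, |R|)`. -/
def MaxC : Prop := ∀ (Γ : Type u) [Group Γ] [Finite Γ] (T : Subgroup Γ)
  (P : Subgroup Γ → Prop), (∃ R : Subgroup Γ, R ≤ T ∧ P R) →
    ∃ H₀ : Subgroup Γ, H₀ ≤ T ∧ P H₀ ∧ ∀ R : Subgroup Γ, R ≤ T → P R →
      Nat.card ↥(T ⊓ Subgroup.normalizer (R : Set Γ)) <
          Nat.card ↥(T ⊓ Subgroup.normalizer (H₀ : Set Γ)) ∨
        (Nat.card ↥(T ⊓ Subgroup.normalizer (R : Set Γ)) =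
          Nat.card ↥(T ⊓ Subgroup.normalizer (H₀ : Set Γ)) ∧ Nat.card R ≤ Nat.card H₀)

/-- [SYLN] if `H₀ ≤ T` has `|N_T(H₀)|` maximal among the subgroups of `T` with the
`X`-conjugation invariant property `P`, then `N_T(H₀)` is Sylow in `N_X(H₀)`. -/
def SylN : Prop := ∀ (p : ℕ) [Fact p.Prime] (Γ : Type u) [Group Γ] [Finite Γ]
  (X T H₀ : Subgroup Γ) (P : Subgroup Γ → Prop), IsSyl p X T → H₀ ≤ T → P H₀ →
    (∀ (R : Subgroup Γ) (x : Γ), x ∈ X → P R → P (cj x R)) →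
    (∀ R : Subgroup Γ, R ≤ T → P R →
      Nat.card ↥(T ⊓ Subgroup.normalizer (R : Set Γ)) ≤
        Nat.card ↥(T ⊓ Subgroup.normalizer (H₀ : Set Γ))) →
    IsSyl p (X ⊓ Subgroup.normalizer (H₀ : Set Γ)) (T ⊓ Subgroup.normalizer (H₀ : Set Γ))

/-- [NGROW] normalizers grow in `p`-groups. -/
def NGrow : Prop := ∀ (p : ℕ) [Fact p.Prime] (Γ : Type u) [Group Γ] [Finite Γ]
  (S T : Subgroup Γ), IsPGroup p S → T ≤ S → T ≠ S →
    ∃ n : Γ, n ∈ S ∧ n ∈ Subgroup.normalizer (T : Set Γ) ∧ n ∉ T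

/-! ### `Bad` -/

/-- [AQ1] -/
def Aq1 : Prop := ∀ (q : ℕ) [Fact q.Prime] (G : Type u) [Group G] [Finite G] (R : Subgroup G),
  q ∣ ((Subgroup.centralizer (R : Set G)).subgroupOf (Subgroup.normalizer (R : Set G))).index →
    Bad q ⊤ R

/-- [AQ2] -/
def Aq2 : Prop := ∀ (q : ℕ) [Fact q.Prime] (G : Type u) [Group G] [Finite G] (R : Subgroup G),
  Bad q ⊤ R →
    q ∣ ((Subgroup.centralizer (R : Set G)).subgroupOf (Subgroup.normalizer (R : Set G))).index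

/-- [BADCONJ] -/
def BadConj : Prop := ∀ (q : ℕ) (Γ : Type u) [Group Γ] (X R : Subgroup Γ) (x : Γ), x ∈ X →
  Bad q X R → Bad q X (cj x R)

/-! ### small group theory -/

/-- [STAB] a `q`-element centralizing the `p`-group `L` and acting trivially on `H` modulo `L`
centralizes `H`. -/
def Stab : Prop := ∀ (p q : ℕ) [Fact p.Prime] [Fact q.Prime], p ≠ q → ∀ (Γ : Type u) [Group Γ]
  (H L : Subgroup Γ) (y : Γ), IsPGroup p L → QElt q y → y ∈ Subgroup.centralizer (L : Set Γ) →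
    (∀ h ∈ H, h⁻¹ * y * h * y⁻¹ ∈ L) → y ∈ Subgroup.centralizer (H : Set Γ)

/-- [WCENT] a normal `q`-subgroup and a normal `p`-subgroup of `X` commute. -/
def WCent : Prop := ∀ (p q : ℕ) [Fact p.Prime] [Fact q.Prime], p ≠ q → ∀ (Γ : Type u) [Group Γ]
  (X W H : Subgroup Γ), IsPGroup q W → IsPGroup p H → W ≤ X → H ≤ X →
    (∀ x ∈ X, x ∈ Subgroup.normalizer (W : Set Γ)) →
    (∀ x ∈ X, x ∈ Subgroup.normalizer (H : Set Γ)) → W ≤ Subgroup.centralizer (H : Set Γ)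

/-- [PGEN] a normal subgroup `D` of the `{p,q}`-group `Y` containing all `q`-elements of `Y`
satisfies `Y = D T`. -/
def PGen : Prop := ∀ (p q : ℕ) [Fact p.Prime] [Fact q.Prime], p ≠ q → ∀ (Γ : Type u) [Group Γ]
  [Finite Γ] (Y T D : Subgroup Γ), IsPQ p q Y → IsSyl p Y T → D ≤ Y →
    (∀ y ∈ Y, y ∈ Subgroup.normalizer (D : Set Γ)) → (∀ y ∈ Y, QElt q y → y ∈ D) →
    ∀ y ∈ Y, ∃ d ∈ D, ∃ t ∈ T, y = d * t

/-- [QIN] a `q`-element of `C₀ T` (`T` a `p`-group normalizing `C₀`) lies in `C₀`. -/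
def QIn : Prop := ∀ (p q : ℕ) [Fact p.Prime] [Fact q.Prime], p ≠ q → ∀ (Γ : Type u) [Group Γ]
  (C₀ T : Subgroup Γ) (c t : Γ), IsPGroup p T →
    (∀ s ∈ T, s ∈ Subgroup.normalizer (C₀ : Set Γ)) → c ∈ C₀ → t ∈ T → QElt q (c * t) →
    c * t ∈ C₀

/-! ### the characteristic subgroups `J(T)` and `Ω₁(Z(T))` -/

/-- [CHARJ] -/
def CharJ : Prop := ∀ (p : ℕ) [Fact p.Prime] (Γ : Type u) [Group Γ] [Finite Γ] (T : Subgroup Γ),
  Subgroup.normalizer (T : Set Γ) ≤ Subgroup.normalizer (thompsonSubgroupOf p T : Set Γ)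

/-- [CHARZ] -/
def CharZ : Prop := ∀ (p : ℕ) (Γ : Type u) [Group Γ] (T : Subgroup Γ),
  Subgroup.normalizer (T : Set Γ) ≤ Subgroup.normalizer (Z1 p T : Set Γ)

/-- [ZLEJ] -/
def ZLeJ : Prop := ∀ (p : ℕ) [Fact p.Prime] (Γ : Type u) [Group Γ] [Finite Γ] (T : Subgroup Γ),
  IsPGroup p T → Z1 p T ≤ thompsonSubgroupOf p T

/-- [ZNE] -/
def ZNe : Prop := ∀ (p : ℕ) [Fact p.Prime] (Γ : Type u) [Group Γ] [Finite Γ] (T : Subgroup Γ),
  IsPGroup p T → T ≠ ⊥ → Z1 p T ≠ ⊥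

/-! ### Thompson factorization of `{p,q}`-groups, `{p,q} ≠ {2,3}` -/

/-- [PQPS] a `{p,q}`-group is `p`-solvable. -/
def PQPS : Prop := ∀ (p q : ℕ) [Fact p.Prime] [Fact q.Prime] (X : Type u) [Group X] [Finite X],
  (∀ r : ℕ, r.Prime → r ∣ Nat.card X → r = p ∨ r = q) → IsPSolvable p X

/-- [TFABS] -/
def TFAbs : Prop := ∀ (p q : ℕ) [Fact p.Prime] [Fact q.Prime], p ≠ q →
  ¬ ((p = 2 ∧ q = 3) ∨ (p = 3 ∧ q = 2)) → ∀ (X : Type u) [Group X] [Finite X],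
    (∀ r : ℕ, r.Prime → r ∣ Nat.card X → r = p ∨ r = q) → IsThompsonFactorizable p X

/-- [TFREL] -/
def TFRel : Prop := ∀ (p q : ℕ) [Fact p.Prime] [Fact q.Prime], p ≠ q →
  ¬ ((p = 2 ∧ q = 3) ∨ (p = 3 ∧ q = 2)) → ∀ (Γ : Type u) [Group Γ] [Finite Γ]
    (X T : Subgroup Γ), IsPQ p q X → IsSyl p X T →
    ∃ W : Subgroup Γ, W ≤ X ∧ IsPGroup q W ∧ (∀ x ∈ X, x ∈ Subgroup.normalizer (W : Set Γ)) ∧
      ∀ g ∈ X, ∃ w ∈ W, ∃ c ∈ X, ∃ n ∈ X, c ∈ Subgroup.centralizer (Z1 p T : Set Γ) ∧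
        n ∈ Subgroup.normalizer (thompsonSubgroupOf p T : Set Γ) ∧ g = w * c * n

/-! ### the quotient step -/

/-- [QSTEP] `L ≤ T` nontrivial, normalized by `X`: passing to `N_Γ(L)/L` and using `LA` for
smaller orders, either some `K` with `L ≤ K ≤ T` (normalized by every element of `N(T) ∩ N(L)`)
is `Bad`, or every `q`-element of `X` acts trivially on `R/L` for the `p`-subgroups
`R ≥ L` of `X` it normalizes. -/
def QStep : Prop := ∀ (p q : ℕ) [Fact p.Prime] [Fact q.Prime], p ≠ q → ∀ (Γ : Type u) [Group Γ]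
  [Finite Γ] (X T L : Subgroup Γ), IsPQ p q X → IsSyl p X T → L ≤ T → L ≠ ⊥ →
    X ≤ Subgroup.normalizer (L : Set Γ) → (∀ m : ℕ, m < Nat.card X → LA.{u} p q m) →
    (∃ K : Subgroup Γ, K ≤ T ∧ L ≤ K ∧
        (∀ n : Γ, n ∈ Subgroup.normalizer (T : Set Γ) → n ∈ Subgroup.normalizer (L : Set Γ) →
          n ∈ Subgroup.normalizer (K : Set Γ)) ∧ Bad q X K) ∨
      (∀ R : Subgroup Γ, R ≤ X → IsPGroup p R → L ≤ R → ∀ y ∈ X,
        y ∈ Subgroup.normalizer (R : Set Γ) → QElt q y → ∀ r ∈ R, r⁻¹ * y * r * y⁻¹ ∈ L)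

/-! ### the global part -/

/-- [GC] the `p`-elements of `C(H₀)` lie in `H₀`. -/
def GC : Prop := ∀ (p q : ℕ) [Fact p.Prime] [Fact q.Prime], p ≠ q → ∀ (G : Type u) [Group G]
  [Finite G] (T H₀ : Subgroup G), IsSyl p (Subgroup.normalizer (H₀ : Set G)) T → H₀ ≤ T →
    Bad q ⊤ H₀ →
    (∀ R : Subgroup G, H₀ ≤ R → R ≤ T → T ≤ Subgroup.normalizer (R : Set G) → Bad q ⊤ R →
      R = H₀) →
    ∀ x ∈ Subgroup.centralizer (H₀ : Set G), QElt p x → x ∈ H₀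

/-- [PSEXT] extensions of `p`-solvable groups are `p`-solvable (same statement as
`Cfsg.Agent.H84.ResStmt.PSExt`, the S5156 piece). -/
def PSExt : Prop :=
  ∀ (p : ℕ) [Fact p.Prime] (G : Type u) [Group G] [Finite G] (N : Subgroup G) [N.Normal],
    IsPSolvable p ↥N → IsPSolvable p (G ⧸ N) → IsPSolvable p G

/-- [BURN] a finite group whose `p`-elements are central is `p`-solvable. -/
def Burn : Prop := ∀ (p : ℕ) [Fact p.Prime] (K : Type u) [Group K] [Finite K],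
  (∀ x : K, QElt p x → ∀ g : K, g * x = x * g) → IsPSolvable p K

/-- [NPS] -/
def NPS : Prop := ∀ (p : ℕ) [Fact p.Prime] (G : Type u) [Group G] [Finite G] (H₀ : Subgroup G),
  (∀ x ∈ Subgroup.centralizer (H₀ : Set G), QElt p x → x ∈ H₀) →
    IsPSolvable p (↥(Subgroup.normalizer (H₀ : Set G)) ⧸
      (Subgroup.centralizer (H₀ : Set G)).subgroupOf (Subgroup.normalizer (H₀ : Set G))) →
    IsPSolvable p ↥(Subgroup.normalizer (H₀ : Set G))

/-- [PSSUB] -/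
def PSSub : Prop := ∀ (p : ℕ) [Fact p.Prime] (G : Type u) [Group G] [Finite G],
  IsPSolvable p G → ∀ H : Subgroup G, IsPSolvable p ↥H

/-- [HALLABS] a Sylow `p`-subgroup of a `p`-solvable group lies in a `{p,q}`-subgroup of index
prime to `q`. -/
def HallAbs : Prop := ∀ (p q : ℕ) [Fact p.Prime] [Fact q.Prime], p ≠ q → ∀ (N : Type u) [Group N]
  [Finite N], IsPSolvable p N → ∀ P : Sylow p N, ∃ Y : Subgroup N, (P : Subgroup N) ≤ Y ∧
    (∀ r : ℕ, r.Prime → r ∣ Nat.card Y → r = p ∨ r = q) ∧ ¬ q ∣ Y.index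

/-- [HALLREL] -/
def HallRel : Prop := ∀ (p q : ℕ) [Fact p.Prime] [Fact q.Prime], p ≠ q → ∀ (G : Type u) [Group G]
  [Finite G] (N T H₀ : Subgroup G), IsSyl p N T → N ≤ Subgroup.normalizer (H₀ : Set G) →
    IsPSolvable p ↥N → Bad q N H₀ →
    ∃ X : Subgroup G, X ≤ N ∧ T ≤ X ∧ IsPQ p q X ∧ Bad q X H₀

/-! ### assemblies -/

/-- [LAIND] -/
def LAAll : Prop := ∀ (p q : ℕ) [Fact p.Prime] [Fact q.Prime], p ≠ q →
  ¬ ((p = 2 ∧ q = 3) ∨ (p = 3 ∧ q = 2)) → ∀ n : ℕ, LA.{u} p q n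

/-- [GLOB] the statement of S4411. -/
def Final : Prop := ∀ (G : Type u) [Group G] [Finite G] (p q : ℕ) [Fact p.Prime] [Fact q.Prime],
  p ≠ q → ¬ ((p = 2 ∧ q = 3) ∨ (p = 3 ∧ q = 2)) →
    (∀ H : Subgroup G, IsPGroup p ↥H →
      Cfsg.IsPSolvable p (↥(Subgroup.normalizer (H : Set G)) ⧸
        (Subgroup.centralizer (H : Set G)).subgroupOf (Subgroup.normalizer (H : Set G)))) →
    ∀ H : Subgroup G, IsPGroup p ↥H →
      q ∣ ((Subgroup.centralizer (H : Set G)).subgroupOf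
        (Subgroup.normalizer (H : Set G))).index →
      ∀ Gp : Sylow p G, ∃ K : Subgroup G, K ≤ (Gp : Subgroup G) ∧
        (Gp : Subgroup G) ≤ Subgroup.normalizer (K : Set G) ∧
        q ∣ ((Subgroup.centralizer (K : Set G)).subgroupOf
          (Subgroup.normalizer (K : Set G))).index

end Cfsg.Agent.Lib.Helper64.AutStmt
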