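import Mathlib
import Cfsg.Agent.Lib.Helper64.AutStmt

set_option autoImplicit false

/-! Assemblies for S4411 from the pieces of `AutStmt`: the local theorem `LAAll` (induction) and
the global reduction `Final`. -/

namespace Cfsg.Agent.Lib.Helper64.AutAsm

open Cfsg Cfsg.Agent.Lib.Helper64.AutStmt

universe u

section aux

variable {Γ : Type u} [Group Γ]

theorem Z1_le (p : ℕ) (T : Subgroup Γ) : Z1 p T ≤ T ⊓ Subgroup.centralizer (T : Set Γ) := by
  unfold Z1 omegaOne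
  rw [Subgroup.closure_le]
  intro x hx
  exact hx.1

theorem bad_mono {q : ℕ} {X Y R : Subgroup Γ} (h : X ≤ Y) (hb : Bad q X R) : Bad q Y R := by
  obtain ⟨y, hy, hn, hq, hc⟩ := hb
  exact ⟨y, h hy, hn, hq, hc⟩

theorem mem_normalizer_inf {A B : Subgroup Γ} {y : Γ}
    (ha : y ∈ Subgroup.normalizer (A : Set Γ)) (hb : y ∈ Subgroup.normalizer (B : Set Γ)) :
    y ∈ Subgroup.normalizer ((A ⊓ B : Subgroup Γ) : Set Γ) := by
  rw [Subgroup.mem_normalizer_iff] at *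
  intro h
  rw [Subgroup.mem_inf, Subgroup.mem_inf, ← ha h, ← hb h]

theorem conj_mem_sup {A B : Subgroup Γ} {z : Γ}
    (ha : z ∈ Subgroup.normalizer (A : Set Γ)) (hb : z ∈ Subgroup.normalizer (B : Set Γ))
    {h : Γ} (hh : h ∈ A ⊔ B) : z * h * z⁻¹ ∈ A ⊔ B := by
  rw [Subgroup.sup_eq_closure] at hh
  induction hh using Subgroup.closure_induction with
  | mem x hx =>
    rcases hx with hx | hx
    · exact Subgroup.mem_sup_left ((Subgroup.mem_normalizer_iff.mp ha x).mp hx)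
    · exact Subgroup.mem_sup_right ((Subgroup.mem_normalizer_iff.mp hb x).mp hx)
  | one => simp
  | mul a b _ _ iha ihb =>
    have : z * (a * b) * z⁻¹ = (z * a * z⁻¹) * (z * b * z⁻¹) := by group
    rw [this]; exact mul_mem iha ihb
  | inv a _ iha =>
    have : z * a⁻¹ * z⁻¹ = (z * a * z⁻¹)⁻¹ := by group
    rw [this]; exact inv_mem iha

theorem mem_normalizer_sup {A B : Subgroup Γ} {y : Γ}
    (ha : y ∈ Subgroup.normalizer (A : Set Γ)) (hb : y ∈ Subgroup.normalizer (B : Set Γ)) :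
    y ∈ Subgroup.normalizer ((A ⊔ B : Subgroup Γ) : Set Γ) := by
  rw [Subgroup.mem_normalizer_iff]
  intro h
  refine ⟨fun hh => conj_mem_sup ha hb hh, fun hh => ?_⟩
  have := conj_mem_sup (inv_mem ha) (inv_mem hb) hh
  have e : y⁻¹ * (y * h * y⁻¹) * y⁻¹⁻¹ = h := by group
  rwa [e] at this

theorem conj_mem_centralizer {A : Subgroup Γ} {y c : Γ}
    (hy : y ∈ Subgroup.normalizer (A : Set Γ)) (hc : c ∈ Subgroup.centralizer (A : Set Γ)) :
    y * c * y⁻¹ ∈ Subgroup.centralizer (A : Set Γ) := by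
  rw [Subgroup.mem_centralizer_iff] at *
  intro a ha
  have ha' : y⁻¹ * a * y ∈ A := (Subgroup.mem_normalizer_iff''.mp hy a).mp ha
  have h1 := hc (y⁻¹ * a * y) ha'
  calc a * (y * c * y⁻¹) = y * ((y⁻¹ * a * y) * c) * y⁻¹ := by group
    _ = y * (c * (y⁻¹ * a * y)) * y⁻¹ := by rw [h1]
    _ = y * c * y⁻¹ * a := by group

theorem mem_normalizer_centralizer {A : Subgroup Γ} {y : Γ}
    (hy : y ∈ Subgroup.normalizer (A : Set Γ)) :
    y ∈ Subgroup.normalizer ((Subgroup.centralizer (A : Set Γ) : Subgroup Γ) : Set Γ) := by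
  rw [Subgroup.mem_normalizer_iff]
  intro c
  refine ⟨fun hc => conj_mem_centralizer hy hc, fun hc => ?_⟩
  have := conj_mem_centralizer (inv_mem hy) hc
  have e : y⁻¹ * (y * c * y⁻¹) * y⁻¹⁻¹ = c := by group
  rwa [e] at this

end aux

/-- [LAIND] the local theorem, by induction on the order. -/
theorem laAll (hPG : SylPG.{u}) (hSub : SylSub.{u}) (hConj : SylConj.{u})
    (hMaxC : MaxC.{u}) (hSylN : SylN.{u}) (hNGrow : NGrow.{u}) (hBadConj : BadConj.{u})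
    (hStab : Stab.{u}) (hWCent : WCent.{u}) (hPGen : PGen.{u}) (hQIn : QIn.{u})
    (hCharJ : CharJ.{u}) (hCharZ : CharZ.{u}) (hZLeJ : ZLeJ.{u}) (hZNe : ZNe.{u})
    (hTF : TFRel.{u}) (hQStep : QStep.{u}) : LAAll.{u} := by
  intro p q _ _ hpq h23 n
  induction n using Nat.strong_induction_on with
  | _ n ih =>
  intro Γ _ _ X T hcard hPQ hSyl hyp R₁ hR₁X hR₁p hBad₁
  have hTp : IsPGroup p T := hPG p Γ X T hSyl
  have hTX : T ≤ X := hSyl.1
  -- conjugate `R₁` into `T`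
  obtain ⟨x, hxX, hx⟩ := hConj p Γ X T hSyl R₁ hR₁X hR₁p
  have hR₂T : cj x R₁ ≤ T := by
    rintro _ ⟨g, hg, rfl⟩
    simpa [MulAut.conj_apply] using hx g hg
  have hBad₂ : Bad q X (cj x R₁) := hBadConj q Γ X R₁ x hxX hBad₁
  -- maximal choice
  obtain ⟨H₀, hH₀T, hBad₀, hmax⟩ := hMaxC Γ T (fun R => Bad q X R) ⟨cj x R₁, hR₂T, hBad₂⟩
  have hmax' : ∀ R : Subgroup Γ, R ≤ T → Bad q X R →
      Nat.card ↥(T ⊓ Subgroup.normalizer (R : Set Γ)) ≤
        Nat.card ↥(T ⊓ Subgroup.normalizer (H₀ : Set Γ)) := by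
    intro R hR hB
    rcases hmax R hR hB with h | h
    · exact h.le
    · exact h.1.le
  have hSylN' : IsSyl p (X ⊓ Subgroup.normalizer (H₀ : Set Γ))
      (T ⊓ Subgroup.normalizer (H₀ : Set Γ)) :=
    hSylN p Γ X T H₀ (fun R => Bad q X R) hSyl hH₀T hBad₀
      (fun R x hx hB => hBadConj q Γ X R x hx hB) hmax'
  have hBad₀' := hBad₀
  obtain ⟨y₀, hy₀X, hy₀N, hy₀q, hy₀C⟩ := hBad₀
  have hH₀p : IsPGroup p H₀ := hTp.to_le hH₀T
  -- Step 1: `X ≤ N(H₀)`
  have hXN : X ≤ Subgroup.normalizer (H₀ : Set Γ) := by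
    by_contra hXN
    have hNX : X ⊓ Subgroup.normalizer (H₀ : Set Γ) ≤ X := inf_le_left
    have hNne : X ⊓ Subgroup.normalizer (H₀ : Set Γ) ≠ X := fun h => hXN (inf_eq_left.mp h)
    have hNlt : Nat.card ↥(X ⊓ Subgroup.normalizer (H₀ : Set Γ)) < Nat.card X := by
      by_contra hge
      exact hNne (Subgroup.eq_of_le_of_card_ge hNX (not_lt.mp hge))
    have hPQN : IsPQ p q (X ⊓ Subgroup.normalizer (H₀ : Set Γ)) :=
      fun r hr hdvd => hPQ r hr (hdvd.trans (Subgroup.card_dvd_of_le hNX))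
    have hBadN : Bad q (X ⊓ Subgroup.normalizer (H₀ : Set Γ)) H₀ :=
      ⟨y₀, ⟨hy₀X, hy₀N⟩, hy₀N, hy₀q, hy₀C⟩
    have hH₀N : H₀ ≤ X ⊓ Subgroup.normalizer (H₀ : Set Γ) :=
      le_inf (hH₀T.trans hTX) Subgroup.le_normalizer
    have hLA := ih _ (lt_of_lt_of_le hNlt hcard) Γ (X ⊓ Subgroup.normalizer (H₀ : Set Γ))
      (T ⊓ Subgroup.normalizer (H₀ : Set Γ)) le_rfl hPQN hSylN'
    by_cases hhyp : ∀ K : Subgroup Γ, K ≤ T ⊓ Subgroup.normalizer (H₀ : Set Γ) →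
        Subgroup.normalizer ((T ⊓ Subgroup.normalizer (H₀ : Set Γ) : Subgroup Γ) : Set Γ) ≤
          Subgroup.normalizer (K : Set Γ) →
        ¬ Bad q (X ⊓ Subgroup.normalizer (H₀ : Set Γ)) K
    · exact hLA hhyp H₀ hH₀N hH₀p hBadN
    · push Not at hhyp
      obtain ⟨K, hKT₀, hKn, hKbad⟩ := hhyp
      have hKT : K ≤ T := hKT₀.trans inf_le_left
      have hKbadX : Bad q X K := bad_mono hNX hKbad
      by_cases hTT : T ⊓ Subgroup.normalizer (H₀ : Set Γ) = T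
      · rw [hTT] at hKn
        exact hyp K hKT hKn hKbadX
      · obtain ⟨n', hnT, hnN, hnT₀⟩ :=
          hNGrow p Γ T (T ⊓ Subgroup.normalizer (H₀ : Set Γ)) hTp inf_le_left hTT
        have h1 : T ⊓ Subgroup.normalizer (H₀ : Set Γ) ≤ T ⊓ Subgroup.normalizer (K : Set Γ) :=
          le_inf inf_le_left (Subgroup.le_normalizer.trans hKn)
        have h2 : n' ∈ T ⊓ Subgroup.normalizer (K : Set Γ) := ⟨hnT, hKn hnN⟩
        have h3 : Nat.card ↥(T ⊓ Subgroup.normalizer (H₀ : Set Γ)) <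
            Nat.card ↥(T ⊓ Subgroup.normalizer (K : Set Γ)) := by
          by_contra hge
          have := Subgroup.eq_of_le_of_card_ge h1 (not_lt.mp hge)
          exact hnT₀ (this ▸ h2)
        exact absurd (hmax' K hKT hKbadX) (not_le.mpr h3)
  have hH₀X : H₀ ≤ X := hH₀T.trans hTX
  -- Thompson factorization
  obtain ⟨W, hWX, hWq, hWn, hfac⟩ := hTF p q hpq h23 Γ X T hPQ hSyl
  have hWC : W ≤ Subgroup.centralizer (H₀ : Set Γ) :=
    hWCent p q hpq Γ X W H₀ hWq hH₀p hWX hH₀X hWn (fun x hx => hXN hx)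
  have hZle : Z1 p T ≤ T ⊓ Subgroup.centralizer (T : Set Γ) := Z1_le p T
  have hZT : Z1 p T ≤ T := hZle.trans inf_le_left
  have hJT : thompsonSubgroupOf p T ≤ T := Subgroup.map_subtype_le _
  have hNTJ : Subgroup.normalizer (T : Set Γ) ≤
      Subgroup.normalizer (thompsonSubgroupOf p T : Set Γ) := hCharJ p Γ T
  have hNTZ : Subgroup.normalizer (T : Set Γ) ≤ Subgroup.normalizer (Z1 p T : Set Γ) :=
    hCharZ p Γ T
  have hTne : T ≠ ⊥ := by
    intro hT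
    have hH₀ : H₀ = ⊥ := le_bot_iff.mp (hT ▸ hH₀T)
    apply hy₀C
    rw [hH₀, Subgroup.mem_centralizer_iff]
    intro h hh
    have : h = 1 := by simpa using hh
    rw [this]; simp
  have hC₀n : ∀ x ∈ X, x ∈ Subgroup.normalizer
      ((X ⊓ Subgroup.centralizer (H₀ : Set Γ) : Subgroup Γ) : Set Γ) :=
    fun x hx => mem_normalizer_inf (Subgroup.le_normalizer hx)
      (mem_normalizer_centralizer (hXN hx))
  by_cases hCaseC : X ≤ Subgroup.normalizer (Z1 p T : Set Γ)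
  · -- Case C: `Z₁ ⊴ X`
    have hy₀Z : y₀ ∈ Subgroup.centralizer (Z1 p T : Set Γ) := by
      by_contra h
      exact hyp (Z1 p T) hZT hNTZ ⟨y₀, hy₀X, hCaseC hy₀X, hy₀q, h⟩
    have hZne : Z1 p T ≠ ⊥ := hZNe p Γ T hTp hTne
    rcases hQStep p q hpq Γ X T (Z1 p T) hPQ hSyl hZT hZne hCaseC
      (fun m hm => ih m (lt_of_lt_of_le hm hcard)) with ⟨K, hKT, -, hKn, hKbad⟩ | htame
    · exact hyp K hKT (fun n' hn => hKn n' hn (hNTZ hn)) hKbad
    · have hR : H₀ ⊔ Z1 p T ≤ X := sup_le hH₀X (hZT.trans hTX)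
      have hRp : IsPGroup p ↥(H₀ ⊔ Z1 p T) := hTp.to_le (sup_le hH₀T hZT)
      have hyR : y₀ ∈ Subgroup.normalizer ((H₀ ⊔ Z1 p T : Subgroup Γ) : Set Γ) :=
        mem_normalizer_sup hy₀N (hCaseC hy₀X)
      have h1 := htame (H₀ ⊔ Z1 p T) hR hRp le_sup_right y₀ hy₀X hyR hy₀q
      exact hy₀C (hStab p q hpq Γ H₀ (Z1 p T) y₀ (hTp.to_le hZT) hy₀q hy₀Z
        (fun h hh => h1 h (Subgroup.mem_sup_left hh)))
  · by_cases hCaseB : X ≤ Subgroup.normalizer (thompsonSubgroupOf p T : Set Γ)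
    · -- Case B: `J ⊴ X` forces `X ≤ C(Z₁)`
      apply hCaseC
      have hD : ∀ y ∈ X, QElt q y →
          y ∈ X ⊓ Subgroup.centralizer (thompsonSubgroupOf p T : Set Γ) := by
        intro y hy hq'
        refine ⟨hy, ?_⟩
        by_contra h
        exact hyp (thompsonSubgroupOf p T) hJT hNTJ ⟨y, hy, hCaseB hy, hq', h⟩
      have hDn : ∀ y ∈ X, y ∈ Subgroup.normalizer
          ((X ⊓ Subgroup.centralizer (thompsonSubgroupOf p T : Set Γ) : Subgroup Γ) : Set Γ) :=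
        fun y hy => mem_normalizer_inf (Subgroup.le_normalizer hy)
          (mem_normalizer_centralizer (hCaseB hy))
      have hgen := hPGen p q hpq Γ X T
        (X ⊓ Subgroup.centralizer (thompsonSubgroupOf p T : Set Γ)) hPQ hSyl inf_le_left hDn hD
      have hZJ : Z1 p T ≤ thompsonSubgroupOf p T := hZLeJ p Γ T hTp
      intro g hg
      obtain ⟨d, hd, t, ht, rfl⟩ := hgen g hg
      apply Subgroup.centralizer_le_normalizer
      apply Subgroup.mul_mem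
      · exact Subgroup.centralizer_le (SetLike.coe_subset_coe.mpr hZJ) hd.2
      · rw [Subgroup.mem_centralizer_iff]
        intro z hz
        have h1 : z ∈ Subgroup.centralizer (T : Set Γ) := (hZle hz).2
        rw [Subgroup.mem_centralizer_iff] at h1
        exact (h1 t ht).symm
    · -- Case A: induction in `N_X(J)` and `N_X(Z₁)`
      have key : ∀ N' : Subgroup Γ, N' ≤ X → T ≤ N' → N' ≠ X → ∀ g ∈ N',
          ∃ d ∈ X ⊓ Subgroup.centralizer (H₀ : Set Γ), ∃ t ∈ T, g = d * t := by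
        intro N' hN'X hTN' hne g hg
        have hlt : Nat.card N' < Nat.card X := by
          by_contra hge
          exact hne (Subgroup.eq_of_le_of_card_ge hN'X (not_lt.mp hge))
        have hPQN : IsPQ p q N' :=
          fun r hr hdvd => hPQ r hr (hdvd.trans (Subgroup.card_dvd_of_le hN'X))
        have hSylN'' : IsSyl p N' T := hSub p Γ X T hSyl N' hTN' hN'X
        have hLA := ih _ (lt_of_lt_of_le hlt hcard) Γ N' T le_rfl hPQN hSylN''
          (fun K hKT hKn hKbad => hyp K hKT hKn (bad_mono hN'X hKbad))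
        have hnb : ¬ Bad q N' H₀ := hLA H₀ (hH₀T.trans hTN') hH₀p
        have hD : ∀ y ∈ N', QElt q y → y ∈ N' ⊓ Subgroup.centralizer (H₀ : Set Γ) := by
          intro y hy hq'
          refine ⟨hy, ?_⟩
          by_contra h
          exact hnb ⟨y, hy, hXN (hN'X hy), hq', h⟩
        have hDn : ∀ y ∈ N', y ∈ Subgroup.normalizer
            ((N' ⊓ Subgroup.centralizer (H₀ : Set Γ) : Subgroup Γ) : Set Γ) :=
          fun y hy => mem_normalizer_inf (Subgroup.le_normalizer hy)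
            (mem_normalizer_centralizer (hXN (hN'X hy)))
        obtain ⟨d, hd, t, ht, rfl⟩ := hPGen p q hpq Γ N' T
          (N' ⊓ Subgroup.centralizer (H₀ : Set Γ)) hPQN hSylN'' inf_le_left hDn hD g hg
        exact ⟨d, ⟨hN'X hd.1, hd.2⟩, t, ht, rfl⟩
      have hTN₁ : T ≤ X ⊓ Subgroup.normalizer (thompsonSubgroupOf p T : Set Γ) :=
        le_inf hTX (Subgroup.le_normalizer.trans hNTJ)
      have hTN₂ : T ≤ X ⊓ Subgroup.normalizer (Z1 p T : Set Γ) :=
        le_inf hTX (Subgroup.le_normalizer.trans hNTZ)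
      have hN₁ne : X ⊓ Subgroup.normalizer (thompsonSubgroupOf p T : Set Γ) ≠ X :=
        fun h => hCaseB (inf_eq_left.mp h)
      have hN₂ne : X ⊓ Subgroup.normalizer (Z1 p T : Set Γ) ≠ X :=
        fun h => hCaseC (inf_eq_left.mp h)
      obtain ⟨w, hw, c, hcX, n', hnX, hcZ, hnJ, hy₀eq⟩ := hfac y₀ hy₀X
      obtain ⟨d₁, hd₁, t₁, ht₁, hn'eq⟩ := key _ inf_le_left hTN₁ hN₁ne n' ⟨hnX, hnJ⟩
      obtain ⟨d₂, hd₂, t₂, ht₂, hceq⟩ := key _ inf_le_left hTN₂ hN₂ne c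
        ⟨hcX, Subgroup.centralizer_le_normalizer _ hcZ⟩
      have ht₂d₁ : t₂ * d₁ * t₂⁻¹ ∈ X ⊓ Subgroup.centralizer (H₀ : Set Γ) :=
        (Subgroup.mem_normalizer_iff.mp (hC₀n t₂ (hTX ht₂)) d₁).mp hd₁
      have hc' : w * d₂ * (t₂ * d₁ * t₂⁻¹) ∈ X ⊓ Subgroup.centralizer (H₀ : Set Γ) :=
        Subgroup.mul_mem _ (Subgroup.mul_mem _ ⟨hWX hw, hWC hw⟩ hd₂) ht₂d₁
      have heq : y₀ = (w * d₂ * (t₂ * d₁ * t₂⁻¹)) * (t₂ * t₁) := by
        rw [hy₀eq, hn'eq, hceq]; group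
      have hq' : QElt q ((w * d₂ * (t₂ * d₁ * t₂⁻¹)) * (t₂ * t₁)) := by
        rw [← heq]; exact hy₀q
      have hmem := hQIn p q hpq Γ (X ⊓ Subgroup.centralizer (H₀ : Set Γ)) T _ _ hTp
        (fun s hs => hC₀n s (hTX hs)) hc' (T.mul_mem ht₂ ht₁) hq'
      rw [← heq] at hmem
      exact hy₀C hmem.2

/-- [GLOB] the global reduction. -/
theorem final (hSub : SylSub.{u}) (hConj : SylConj.{u}) (hMaxC : MaxC.{u})
    (hSylN : SylN.{u}) (hNGrow : NGrow.{u}) (hAq1 : Aq1.{u}) (hAq2 : Aq2.{u})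
    (hBadConj : BadConj.{u}) (hGC : GC.{u}) (hNPS : NPS.{u}) (hHall : HallRel.{u})
    (hLA : LAAll.{u}) : Final.{u} := by
  intro G _ _ p q _ _ hpq h23 hsol H hH hq Gp
  by_contra hcon
  push Not at hcon
  have hSyl : IsSyl p (⊤ : Subgroup G) (Gp : Subgroup G) :=
    ⟨le_top, by rw [Subgroup.card_top]; exact Gp.card_eq_multiplicity⟩
  have hSp : IsPGroup p (Gp : Subgroup G) := Gp.isPGroup'
  have hBadH : Bad q ⊤ H := hAq1 q G H hq
  obtain ⟨x, -, hx⟩ := hConj p G ⊤ (Gp : Subgroup G) hSyl H le_top hH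
  have hH'S : cj x H ≤ (Gp : Subgroup G) := by
    rintro _ ⟨g, hg, rfl⟩
    simpa [MulAut.conj_apply] using hx g hg
  have hBadH' : Bad q ⊤ (cj x H) := hBadConj q G ⊤ H x (Subgroup.mem_top x) hBadH
  obtain ⟨H₀, hH₀S, hBad₀, hmax⟩ :=
    hMaxC G (Gp : Subgroup G) (fun R => Bad q ⊤ R) ⟨cj x H, hH'S, hBadH'⟩
  have hmax' : ∀ R : Subgroup G, R ≤ (Gp : Subgroup G) → Bad q ⊤ R →
      Nat.card ↥((Gp : Subgroup G) ⊓ Subgroup.normalizer (R : Set G)) ≤
        Nat.card ↥((Gp : Subgroup G) ⊓ Subgroup.normalizer (H₀ : Set G)) := by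
    intro R hR hB
    rcases hmax R hR hB with h | h
    · exact h.le
    · exact h.1.le
  have hSylT : IsSyl p (Subgroup.normalizer (H₀ : Set G))
      ((Gp : Subgroup G) ⊓ Subgroup.normalizer (H₀ : Set G)) := by
    have := hSylN p G ⊤ (Gp : Subgroup G) H₀ (fun R => Bad q ⊤ R) hSyl hH₀S hBad₀
      (fun R x hx hB => hBadConj q G ⊤ R x hx hB) hmax'
    rwa [top_inf_eq] at this
  have hTS : (Gp : Subgroup G) ⊓ Subgroup.normalizer (H₀ : Set G) ≠ (Gp : Subgroup G) := by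
    intro h
    exact hcon H₀ hH₀S (inf_eq_left.mp h) (hAq2 q G H₀ hBad₀)
  obtain ⟨n, hnS, hnT, hnnT⟩ := hNGrow p G (Gp : Subgroup G)
    ((Gp : Subgroup G) ⊓ Subgroup.normalizer (H₀ : Set G)) hSp inf_le_left hTS
  have hb : ∀ K : Subgroup G, K ≤ (Gp : Subgroup G) ⊓ Subgroup.normalizer (H₀ : Set G) →
      Subgroup.normalizer
        (((Gp : Subgroup G) ⊓ Subgroup.normalizer (H₀ : Set G) : Subgroup G) : Set G) ≤
        Subgroup.normalizer (K : Set G) → ¬ Bad q ⊤ K := by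
    intro K hKT hKn hKbad
    have h1 : (Gp : Subgroup G) ⊓ Subgroup.normalizer (H₀ : Set G) ≤
        (Gp : Subgroup G) ⊓ Subgroup.normalizer (K : Set G) :=
      le_inf inf_le_left (Subgroup.le_normalizer.trans hKn)
    have h2 : n ∈ (Gp : Subgroup G) ⊓ Subgroup.normalizer (K : Set G) := ⟨hnS, hKn hnT⟩
    have h3 : Nat.card ↥((Gp : Subgroup G) ⊓ Subgroup.normalizer (H₀ : Set G)) <
        Nat.card ↥((Gp : Subgroup G) ⊓ Subgroup.normalizer (K : Set G)) := by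
      by_contra hge
      have := Subgroup.eq_of_le_of_card_ge h1 (not_lt.mp hge)
      exact hnnT (this ▸ h2)
    exact absurd (hmax' K (hKT.trans inf_le_left) hKbad) (not_le.mpr h3)
  have hH₀T : H₀ ≤ (Gp : Subgroup G) ⊓ Subgroup.normalizer (H₀ : Set G) :=
    le_inf hH₀S Subgroup.le_normalizer
  have hmax2 : ∀ R : Subgroup G, H₀ ≤ R →
      R ≤ (Gp : Subgroup G) ⊓ Subgroup.normalizer (H₀ : Set G) →
      (Gp : Subgroup G) ⊓ Subgroup.normalizer (H₀ : Set G) ≤ Subgroup.normalizer (R : Set G) →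
      Bad q ⊤ R → R = H₀ := by
    intro R hH₀R hRT hTR hRbad
    rcases hmax R (hRT.trans inf_le_left) hRbad with h | ⟨-, h2⟩
    · exfalso
      have : Nat.card ↥((Gp : Subgroup G) ⊓ Subgroup.normalizer (H₀ : Set G)) ≤
          Nat.card ↥((Gp : Subgroup G) ⊓ Subgroup.normalizer (R : Set G)) :=
        Subgroup.card_le_of_le (le_inf inf_le_left hTR)
      omega
    · exact (Subgroup.eq_of_le_of_card_ge hH₀R h2).symm
  have hc := hGC p q hpq G ((Gp : Subgroup G) ⊓ Subgroup.normalizer (H₀ : Set G)) H₀ hSylT hH₀T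
    hBad₀ hmax2
  have hH₀p : IsPGroup p H₀ := hSp.to_le hH₀S
  have hNps : IsPSolvable p ↥(Subgroup.normalizer (H₀ : Set G)) :=
    hNPS p G H₀ hc (hsol H₀ hH₀p)
  have hBadN : Bad q (Subgroup.normalizer (H₀ : Set G)) H₀ := by
    obtain ⟨y, -, hyN, hyq, hyC⟩ := hBad₀
    exact ⟨y, hyN, hyN, hyq, hyC⟩
  obtain ⟨X, hXN, hTX, hXPQ, hXbad⟩ := hHall p q hpq G (Subgroup.normalizer (H₀ : Set G))
    ((Gp : Subgroup G) ⊓ Subgroup.normalizer (H₀ : Set G)) H₀ hSylT le_rfl hNps hBadN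
  have hSylX : IsSyl p X ((Gp : Subgroup G) ⊓ Subgroup.normalizer (H₀ : Set G)) :=
    hSub p G _ _ hSylT X hTX hXN
  exact hLA p q hpq h23 (Nat.card X) G X _ le_rfl hXPQ hSylX
    (fun K hKT hKn hKbad => hb K hKT hKn (bad_mono le_top hKbad)) H₀ (hH₀T.trans hTX) hH₀p hXbad

end Cfsg.Agent.Lib.Helper64.AutAsm
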