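import Mathlib
import Cfsg.Agent.Lib.Helper64.AutStmt
import Cfsg.Agent.Lib.Helper64.Sylow
import Cfsg.Agent.Lib.Helper64.Index
import Cfsg.Agent.Lib.Helper76.PSolv
import Cfsg.Agent.S3744

set_option autoImplicit false

/-! S4411/HALLABS: a `p`-solvable group has a Hall `{p,q}`-subgroup containing a given Sylow
`p`-subgroup. -/

namespace Cfsg.Agent.Lib.Helper64.AutHALLABS

open Cfsg Cfsg.Agent.Lib.Helper64.AutStmt

universe u

/-- `Y` is a `{p,q}`-subgroup of index prime to `p` and `q`. -/
def IsHallPQ (p q : ℕ) {N : Type u} [Group N] (Y : Subgroup N) : Prop :=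
  (∀ r : ℕ, r.Prime → r ∣ Nat.card Y → r = p ∨ r = q) ∧ ¬ p ∣ Y.index ∧ ¬ q ∣ Y.index

theorem card_comap_mk {N : Type u} [Group N] [Finite N] (M : Subgroup N) [M.Normal]
    (K : Subgroup (N ⧸ M)) :
    Nat.card (K.comap (QuotientGroup.mk' M)) = Nat.card K * Nat.card M := by
  have hidx : (K.comap (QuotientGroup.mk' M)).index = K.index :=
    Subgroup.index_comap_of_surjective _ (QuotientGroup.mk'_surjective M)
  have h1 := Subgroup.card_mul_index (K.comap (QuotientGroup.mk' M))
  have h2 := Subgroup.card_mul_index K
  have h3 := Subgroup.card_eq_card_quotient_mul_card_subgroup M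
  have hpos : 0 < K.index := Nat.pos_of_ne_zero Subgroup.index_ne_zero_of_finite
  have h4 : Nat.card (K.comap (QuotientGroup.mk' M)) * K.index =
      (Nat.card K * Nat.card M) * K.index := by
    rw [← hidx, h1, h3, ← h2, hidx]; ring
  exact Nat.eq_of_mul_eq_mul_right hpos h4

theorem card_lt_of_ne_top {N : Type u} [Group N] [Finite N] (K : Subgroup N) (h : K ≠ ⊤) :
    Nat.card K < Nat.card N := by
  have h1 : Nat.card K ≤ Nat.card N := Subgroup.card_le_card_group K
  rcases h1.lt_or_eq with h2 | h2
  · exact h2
  · exact absurd ((Subgroup.card_eq_iff_eq_top K).mp h2) h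

theorem hall_aux (hSub : PSSub.{u}) (p q : ℕ) [Fact p.Prime] [Fact q.Prime] :
    ∀ (n : ℕ) (N : Type u) [Group N] [Finite N], Nat.card N = n → IsPSolvable p N →
      ∃ Y : Subgroup N, IsHallPQ p q Y := by
  have hp : p.Prime := Fact.out
  have hq : q.Prime := Fact.out
  intro n
  induction n using Nat.strong_induction_on with
  | _ n ih =>
  intro N _ _ hn hps
  by_cases htriv : Subsingleton N
  · refine ⟨⊤, ?_, ?_, ?_⟩
    · intro r hr hdvd
      rw [Subgroup.card_top, Nat.card_of_subsingleton (1 : N)] at hdvd
      exact absurd hdvd hr.not_dvd_one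
    · rw [Subgroup.index_top]; exact hp.not_dvd_one
    · rw [Subgroup.index_top]; exact hq.not_dvd_one
  have : Nontrivial N := not_subsingleton_iff_nontrivial.mp htriv
  obtain ⟨M, hMn, hMne, hMcase⟩ := Cfsg.Agent.S3744.exists_normal_of_psolv p hps
  have := hMn
  have hcardN : Nat.card N = Nat.card (N ⧸ M) * Nat.card M :=
    Subgroup.card_eq_card_quotient_mul_card_subgroup M
  have hM2 : 1 < Nat.card M := (Subgroup.one_lt_card_iff_ne_bot M).mpr hMne
  have hQpos : 0 < Nat.card (N ⧸ M) := Nat.card_pos
  have hQlt : Nat.card (N ⧸ M) < n := by rw [← hn, hcardN]; nlinarith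
  obtain ⟨Kb, hKb1, hKb2, hKb3⟩ := ih _ hQlt (N ⧸ M) rfl
    (Cfsg.Agent.Lib.Helper76.PSolv.isPSolvable_quotient p M hps)
  have hKidx : (Kb.comap (QuotientGroup.mk' M)).index = Kb.index :=
    Subgroup.index_comap_of_surjective _ (QuotientGroup.mk'_surjective M)
  have hKcard := card_comap_mk M Kb
  rcases hMcase with ⟨j, hj⟩ | hcop
  · -- `M` a `p`-group
    refine ⟨Kb.comap (QuotientGroup.mk' M), ?_, by rwa [hKidx], by rwa [hKidx]⟩
    intro r hr hdvd
    rw [hKcard, hj] at hdvd
    rcases (Nat.Prime.dvd_mul hr).mp hdvd with h | h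
    · exact hKb1 r hr h
    · exact Or.inl ((Nat.prime_dvd_prime_iff_eq hr hp).mp (hr.dvd_of_dvd_pow h))
  · -- `M` a `p'`-group
    by_cases hK : Kb.comap (QuotientGroup.mk' M) = ⊤
    swap
    · -- induct in `K`
      have hlt := card_lt_of_ne_top _ hK
      obtain ⟨Y₁, hY1, hY2, hY3⟩ := ih _ (hn ▸ hlt) ↥(Kb.comap (QuotientGroup.mk' M)) rfl
        (hSub p N hps _)
      refine ⟨Y₁.map (Subgroup.subtype _), ?_, ?_, ?_⟩
      · intro r hr hdvd
        apply hY1 r hr
        rwa [Nat.card_congr (Y₁.equivMapOfInjective _ (Subgroup.subtype_injective _)).toEquiv]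
      · rw [Subgroup.index_map_subtype, hKidx]
        intro h
        rcases (Nat.Prime.dvd_mul hp).mp h with h | h
        · exact hY2 h
        · exact hKb2 h
      · rw [Subgroup.index_map_subtype, hKidx]
        intro h
        rcases (Nat.Prime.dvd_mul hq).mp h with h | h
        · exact hY3 h
        · exact hKb3 h
    · -- `N/M` is a `{p,q}`-group
      have hKbtop : Kb = ⊤ := by
        apply Subgroup.comap_injective (QuotientGroup.mk'_surjective M)
        rw [hK, Subgroup.comap_top]
      have hNbpq : ∀ r : ℕ, r.Prime → r ∣ Nat.card (N ⧸ M) → r = p ∨ r = q := by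
        intro r hr hdvd
        apply hKb1 r hr
        rwa [hKbtop, Subgroup.card_top]
      obtain ⟨Q₀⟩ : Nonempty (Sylow q ↥M) := inferInstance
      have hfrat := Sylow.normalizer_sup_eq_top Q₀
      by_cases hNQ : Subgroup.normalizer
          (((Q₀ : Subgroup ↥M).map M.subtype : Subgroup N) : Set N) = ⊤
      swap
      · -- induct in the normalizer of `Q₀`
        have hlt := card_lt_of_ne_top _ hNQ
        obtain ⟨Y₁, hY1, hY2, hY3⟩ := ih _ (hn ▸ hlt)
          ↥(Subgroup.normalizer (((Q₀ : Subgroup ↥M).map M.subtype : Subgroup N) : Set N)) rfl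
          (hSub p N hps _)
        have hidx : (Subgroup.normalizer
            (((Q₀ : Subgroup ↥M).map M.subtype : Subgroup N) : Set N)).index =
            (Subgroup.normalizer
              (((Q₀ : Subgroup ↥M).map M.subtype : Subgroup N) : Set N)).relIndex M :=
          Cfsg.Agent.Lib.Helper64.Index.index_eq_relIndex_of_sup_eq_top _ M
            (by rw [sup_comm]; exact hfrat)
        have hidxp : ¬ p ∣ (Subgroup.normalizer
            (((Q₀ : Subgroup ↥M).map M.subtype : Subgroup N) : Set N)).index := by
          rw [hidx]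
          intro h
          have h1 := h.trans (Subgroup.relIndex_dvd_card _ M)
          have h2 : p ∣ Nat.gcd (Nat.card M) p := Nat.dvd_gcd h1 dvd_rfl
          rw [hcop] at h2
          exact hp.not_dvd_one h2
        have hidxq : ¬ q ∣ (Subgroup.normalizer
            (((Q₀ : Subgroup ↥M).map M.subtype : Subgroup N) : Set N)).index := by
          rw [hidx]
          intro h
          have h1 := h.trans (Subgroup.relIndex_dvd_of_le_left M
            (Subgroup.le_normalizer (H := (Q₀ : Subgroup ↥M).map M.subtype)))
          have h2 : ((Q₀ : Subgroup ↥M).map M.subtype).relIndex M = (Q₀ : Subgroup ↥M).index := by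
            unfold Subgroup.relIndex
            congr 1
            ext x
            rw [Subgroup.mem_subgroupOf]
            constructor
            · rintro ⟨y, hy, hyx⟩
              have : y = x := Subtype.ext hyx
              rwa [← this]
            · intro hx
              exact ⟨x, hx, rfl⟩
          rw [h2] at h1
          exact Q₀.not_dvd_index h1
        refine ⟨Y₁.map (Subgroup.subtype _), ?_, ?_, ?_⟩
        · intro r hr hdvd
          apply hY1 r hr
          rwa [Nat.card_congr (Y₁.equivMapOfInjective _ (Subgroup.subtype_injective _)).toEquiv]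
        · rw [Subgroup.index_map_subtype]
          intro h
          rcases (Nat.Prime.dvd_mul hp).mp h with h | h
          · exact hY2 h
          · exact hidxp h
        · rw [Subgroup.index_map_subtype]
          intro h
          rcases (Nat.Prime.dvd_mul hq).mp h with h | h
          · exact hY3 h
          · exact hidxq h
      · -- `Q' := Q₀` is normal in `N`
        have hQ'n : ((Q₀ : Subgroup ↥M).map M.subtype).Normal :=
          Subgroup.normalizer_eq_top_iff.mp hNQ
        by_cases hQ' : (Q₀ : Subgroup ↥M).map M.subtype = ⊥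
        · -- `M` is a `{p,q}'`-group: Schur–Zassenhaus
          have hQ₀ : (Q₀ : Subgroup ↥M) = ⊥ :=
            (Subgroup.map_eq_bot_iff_of_injective _ M.subtype_injective).mp hQ'
          have hqM : ¬ q ∣ Nat.card M := by
            intro h
            have h1 := Q₀.card_eq_multiplicity
            have h2 : 0 < (Nat.card M).factorization q :=
              hq.factorization_pos_of_dvd Nat.card_pos.ne' h
            have h3 : Nat.card (Q₀ : Subgroup ↥M) = 1 := by rw [hQ₀]; exact Subgroup.card_bot
            rw [h3] at h1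
            have h4 : q ∣ q ^ (Nat.card M).factorization q := dvd_pow_self q h2.ne'
            rw [← h1] at h4
            exact hq.not_dvd_one h4
          have hpM : ¬ p ∣ Nat.card M := by
            intro h
            have h2 : p ∣ Nat.gcd (Nat.card M) p := Nat.dvd_gcd h dvd_rfl
            rw [hcop] at h2
            exact hp.not_dvd_one h2
          have hcopr : (Nat.card M).Coprime M.index := by
            apply Nat.coprime_of_dvd
            intro r hr h1 h2
            rw [Subgroup.index_eq_card] at h2
            rcases hNbpq r hr h2 with rfl | rfl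
            · exact hpM h1
            · exact hqM h1
          obtain ⟨Hc, hHc⟩ := Subgroup.exists_right_complement'_of_coprime hcopr
          have hc1 := hHc.card_mul_card
          have hc2 := hHc.index_eq_card
          have hHcard : Nat.card Hc = Nat.card (N ⧸ M) := by
            have h5 : Nat.card M * Nat.card Hc = Nat.card M * Nat.card (N ⧸ M) := by
              rw [hc1, hcardN]; ring
            exact Nat.eq_of_mul_eq_mul_left Nat.card_pos h5
          refine ⟨Hc, ?_, ?_, ?_⟩
          · intro r hr hdvd
            rw [hHcard] at hdvd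
            exact hNbpq r hr hdvd
          · rw [hc2]; exact hpM
          · rw [hc2]; exact hqM
        · -- induct in `N/Q'`
          have := hQ'n
          have hcardN' := Subgroup.card_eq_card_quotient_mul_card_subgroup
            ((Q₀ : Subgroup ↥M).map M.subtype)
          have hQ2 : 1 < Nat.card ((Q₀ : Subgroup ↥M).map M.subtype) :=
            (Subgroup.one_lt_card_iff_ne_bot _).mpr hQ'
          have hQpos' : 0 < Nat.card (N ⧸ (Q₀ : Subgroup ↥M).map M.subtype) := Nat.card_pos
          have hlt : Nat.card (N ⧸ (Q₀ : Subgroup ↥M).map M.subtype) < n := by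
            rw [← hn, hcardN']; nlinarith
          obtain ⟨Kt, hKt1, hKt2, hKt3⟩ := ih _ hlt (N ⧸ (Q₀ : Subgroup ↥M).map M.subtype) rfl
            (Cfsg.Agent.Lib.Helper76.PSolv.isPSolvable_quotient p _ hps)
          have hidx' : (Kt.comap (QuotientGroup.mk' ((Q₀ : Subgroup ↥M).map M.subtype))).index =
              Kt.index :=
            Subgroup.index_comap_of_surjective _ (QuotientGroup.mk'_surjective _)
          have hQ'q : IsPGroup q ((Q₀ : Subgroup ↥M).map M.subtype) := Q₀.isPGroup'.map _
          obtain ⟨j, hj⟩ := (IsPGroup.iff_card).mp hQ'q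
          refine ⟨Kt.comap (QuotientGroup.mk' ((Q₀ : Subgroup ↥M).map M.subtype)), ?_,
            by rwa [hidx'], by rwa [hidx']⟩
          intro r hr hdvd
          rw [card_comap_mk, hj] at hdvd
          rcases (Nat.Prime.dvd_mul hr).mp hdvd with h | h
          · exact hKt1 r hr h
          · exact Or.inr ((Nat.prime_dvd_prime_iff_eq hr hq).mp (hr.dvd_of_dvd_pow h))

theorem main (hSub : PSSub.{u}) : HallAbs.{u} := by
  intro p q _ _ _ N _ _ hps P
  obtain ⟨Y, hY1, hY2, hY3⟩ := hall_aux hSub p q (Nat.card N) N rfl hps
  obtain ⟨g, hg⟩ := Cfsg.Agent.Lib.Helper64.Sylow.exists_le_map_conj_of_not_dvd_index P Y hY2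
  refine ⟨Y.map (MulAut.conj g).toMonoidHom, hg, ?_, ?_⟩
  · intro r hr hdvd
    apply hY1 r hr
    rwa [Nat.card_congr (Y.equivMapOfInjective (MulAut.conj g).toMonoidHom (MulAut.conj g).injective).toEquiv]
  · rw [Cfsg.Agent.Lib.Helper64.Sylow.index_map_conj]; exact hY3

end Cfsg.Agent.Lib.Helper64.AutHALLABS
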