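import Mathlib
import Cfsg.Agent.Lib.Helper64.AutStmt
import Cfsg.Agent.Lib.Helper64.AutAsm
import Cfsg.Agent.Lib.Helper64.Sylow

set_option autoImplicit false

/-! S4411/HALLREL: a `{p,q}`-subgroup `X ⊇ T` of the `p`-solvable `N` with `Bad q X H₀`. -/

namespace Cfsg.Agent.Lib.Helper64.AutHALLREL

open Cfsg Cfsg.Agent.Lib.Helper64.AutStmt

universe u

theorem main (hHall : HallAbs.{u}) : HallRel.{u} := by
  intro p q _ _ hpq G _ _ N T H₀ hSyl hNn hps hBad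
  obtain ⟨hTN, hTcard⟩ := hSyl
  have hcardT' : Nat.card (T.subgroupOf N) = p ^ (Nat.card N).factorization p := by
    rw [Nat.card_congr (Subgroup.subgroupOfEquivOfLe hTN).toEquiv]; exact hTcard
  obtain ⟨Y, hPY, hYpq, hYq⟩ := hHall p q hpq ↥N hps (Sylow.ofCard (T.subgroupOf N) hcardT')
  obtain ⟨y, hyN, hyn, ⟨k, hk⟩, hyC⟩ := hBad
  -- the cyclic `q`-subgroup generated by `y` inside `↥N`
  have hy'q : IsPGroup q (Subgroup.zpowers (⟨y, hyN⟩ : ↥N)) := by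
    rintro ⟨g, hg⟩
    obtain ⟨i, rfl⟩ := Subgroup.mem_zpowers_iff.mp hg
    refine ⟨k, Subtype.ext ?_⟩
    have h1 : (⟨y, hyN⟩ : ↥N) ^ (q ^ k) = 1 := Subtype.ext hk
    show ((⟨y, hyN⟩ : ↥N) ^ i) ^ (q ^ k) = 1
    rw [← zpow_natCast, ← zpow_mul, mul_comm, zpow_mul, zpow_natCast, h1, one_zpow]
  obtain ⟨Q₁, hQ₁⟩ := hy'q.exists_le_sylow
  obtain ⟨g, hg⟩ := Cfsg.Agent.Lib.Helper64.Sylow.exists_le_map_conj_of_not_dvd_index Q₁ Y hYq
  have hzY : g⁻¹ * (⟨y, hyN⟩ : ↥N) * g ∈ Y :=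
    Cfsg.Agent.Lib.Helper64.Sylow.mem_map_conj.mp (hg (hQ₁ (Subgroup.mem_zpowers _)))
  refine ⟨Y.map N.subtype, Subgroup.map_subtype_le _, ?_, ?_, ?_⟩
  · intro t ht
    exact ⟨⟨t, hTN ht⟩, hPY (Subgroup.mem_subgroupOf.mpr ht), rfl⟩
  · intro r hr hdvd
    apply hYpq r hr
    rwa [Nat.card_congr (Y.equivMapOfInjective N.subtype N.subtype_injective).toEquiv]
  · refine ⟨(g : G)⁻¹ * y * (g : G), ⟨_, hzY, rfl⟩, ?_, ⟨k, ?_⟩, ?_⟩
    · exact Subgroup.mul_mem _ (Subgroup.mul_mem _ (Subgroup.inv_mem _ (hNn g.2)) hyn) (hNn g.2)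
    · have e : ((g : G)⁻¹ * y * (g : G)) ^ (q ^ k) = (g : G)⁻¹ * y ^ (q ^ k) * (g : G) := by
        have := conj_pow (a := (g : G)⁻¹) (b := y) (i := q ^ k)
        simpa using this
      rw [e, hk]; simp
    · intro hc
      apply hyC
      have h1 := Cfsg.Agent.Lib.Helper64.AutAsm.conj_mem_centralizer (hNn g.2) hc
      have e : (g : G) * ((g : G)⁻¹ * y * (g : G)) * (g : G)⁻¹ = y := by group
      rwa [e] at h1

end Cfsg.Agent.Lib.Helper64.AutHALLREL
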