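import Mathlib
import Cfsg.Agent.Lib.Helper64.AutStmt

set_option autoImplicit false

/-! S4411/QSTEP: the quotient step through `N_Γ(L)/L`. -/

namespace Cfsg.Agent.Lib.Helper64.AutQSTEP

open Cfsg Cfsg.Agent.Lib.Helper64.AutStmt

universe u

section quot

variable {Γ : Type u} [Group Γ] (L : Subgroup Γ)

/-- the group `N(L)/L` -/
abbrev Qt : Type u :=
  ↥(Subgroup.normalizer (L : Set Γ)) ⧸ L.subgroupOf (Subgroup.normalizer (L : Set Γ))

/-- image of `A` in `N(L)/L` -/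
noncomputable def img (A : Subgroup Γ) : Subgroup (Qt L) :=
  (A.subgroupOf (Subgroup.normalizer (L : Set Γ))).map (QuotientGroup.mk' _)

theorem mem_img {A : Subgroup Γ} {a : Γ} (ha : a ∈ A)
    (hn : a ∈ Subgroup.normalizer (L : Set Γ)) :
    (QuotientGroup.mk' (L.subgroupOf (Subgroup.normalizer (L : Set Γ))) ⟨a, hn⟩) ∈ img L A :=
  ⟨⟨a, hn⟩, Subgroup.mem_subgroupOf.mpr ha, rfl⟩

theorem img_mono {A B : Subgroup Γ} (h : A ≤ B) : img L A ≤ img L B :=
  Subgroup.map_mono (fun _ hx => Subgroup.mem_subgroupOf.mpr (h (Subgroup.mem_subgroupOf.mp hx)))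

theorem card_img [Finite Γ] {A : Subgroup Γ} (hLA : L ≤ A)
    (hAN : A ≤ Subgroup.normalizer (L : Set Γ)) :
    Nat.card (img L A) * Nat.card L = Nat.card A := by
  have hcomap : (img L A).comap (QuotientGroup.mk' (L.subgroupOf (Subgroup.normalizer (L : Set Γ))))
      = A.subgroupOf (Subgroup.normalizer (L : Set Γ)) := by
    unfold img
    rw [Subgroup.comap_map_eq, QuotientGroup.ker_mk']
    exact sup_eq_left.mpr
      (fun x hx => Subgroup.mem_subgroupOf.mpr (hLA (Subgroup.mem_subgroupOf.mp hx)))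
  have hidx : (A.subgroupOf (Subgroup.normalizer (L : Set Γ))).index = (img L A).index := by
    rw [← hcomap]
    exact Subgroup.index_comap_of_surjective _ (QuotientGroup.mk'_surjective _)
  have h1 := Subgroup.card_mul_index (A.subgroupOf (Subgroup.normalizer (L : Set Γ)))
  have h2 := Subgroup.card_mul_index (img L A)
  have h3 := Subgroup.card_eq_card_quotient_mul_card_subgroup
    (L.subgroupOf (Subgroup.normalizer (L : Set Γ)))
  have hL' : Nat.card (L.subgroupOf (Subgroup.normalizer (L : Set Γ))) = Nat.card L :=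
    Nat.card_congr (Subgroup.subgroupOfEquivOfLe Subgroup.le_normalizer).toEquiv
  have hA' : Nat.card (A.subgroupOf (Subgroup.normalizer (L : Set Γ))) = Nat.card A :=
    Nat.card_congr (Subgroup.subgroupOfEquivOfLe hAN).toEquiv
  have hpos : 0 < (A.subgroupOf (Subgroup.normalizer (L : Set Γ))).index :=
    Nat.pos_of_ne_zero Subgroup.index_ne_zero_of_finite
  have h4 : Nat.card (A.subgroupOf (Subgroup.normalizer (L : Set Γ))) *
        (A.subgroupOf (Subgroup.normalizer (L : Set Γ))).index =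
      (Nat.card (img L A) * Nat.card (L.subgroupOf (Subgroup.normalizer (L : Set Γ)))) *
        (A.subgroupOf (Subgroup.normalizer (L : Set Γ))).index := by
    rw [h1, h3, ← h2, hidx]; ring
  have h5 := Nat.eq_of_mul_eq_mul_right hpos h4
  rw [← hA', ← hL']; exact h5.symm

theorem syl_quot {p l cT cX cT' cX' : ℕ} (hp : p.Prime) (h1 : cT' * p ^ l = cT)
    (h2 : cX' * p ^ l = cX) (hT : cT = p ^ cX.factorization p) (hX : cX ≠ 0) :
    cT' = p ^ cX'.factorization p := by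
  have hX' : cX' ≠ 0 := by
    rintro rfl
    simp at h2
    exact hX h2.symm
  have hf : cX.factorization p = cX'.factorization p + l := by
    rw [← h2, Nat.factorization_mul hX' (pow_ne_zero _ hp.ne_zero), hp.factorization_pow]
    simp
  have h3 : cT' * p ^ l = p ^ cX'.factorization p * p ^ l := by
    rw [h1, hT, hf, pow_add]
  exact Nat.eq_of_mul_eq_mul_right (pow_pos hp.pos l) h3

theorem map_mem_normalizer {A : Subgroup Γ} (n : ↥(Subgroup.normalizer (L : Set Γ)))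
    (hn : (n : Γ) ∈ Subgroup.normalizer (A : Set Γ)) :
    QuotientGroup.mk' (L.subgroupOf (Subgroup.normalizer (L : Set Γ))) n ∈
      Subgroup.normalizer ((img L A : Subgroup (Qt L)) : Set (Qt L)) := by
  have key : ∀ m : ↥(Subgroup.normalizer (L : Set Γ)),
      (m : Γ) ∈ Subgroup.normalizer (A : Set Γ) → ∀ h' ∈ img L A,
        QuotientGroup.mk' (L.subgroupOf (Subgroup.normalizer (L : Set Γ))) m * h' *
          (QuotientGroup.mk' (L.subgroupOf (Subgroup.normalizer (L : Set Γ))) m)⁻¹ ∈ img L A := by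
    rintro m hm _ ⟨a, ha, rfl⟩
    refine ⟨m * a * m⁻¹, ?_, by simp⟩
    have ha' : (a : Γ) ∈ A := Subgroup.mem_subgroupOf.mp ha
    show m * a * m⁻¹ ∈ A.subgroupOf (Subgroup.normalizer (L : Set Γ))
    rw [Subgroup.mem_subgroupOf]
    exact (Subgroup.mem_normalizer_iff.mp hm _).mp ha'
  rw [Subgroup.mem_normalizer_iff]
  intro h'
  refine ⟨key n hn h', fun hh => ?_⟩
  have h1 := key n⁻¹ (by simpa using inv_mem hn) _ hh
  simpa [mul_assoc] using h1

end quot

theorem main (hPG : SylPG.{u}) : QStep.{u} := by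
  intro p q _ _ hpq Γ _ _ X T L hPQ hSyl hLT hLne hXN hLA
  have hp : p.Prime := Fact.out
  have hq : q.Prime := Fact.out
  have hTp : IsPGroup p T := hPG p Γ X T hSyl
  have hTX : T ≤ X := hSyl.1
  have hLX : L ≤ X := hLT.trans hTX
  have hTN : T ≤ Subgroup.normalizer (L : Set Γ) := hTX.trans hXN
  have hLp : IsPGroup p L := hTp.to_le hLT
  obtain ⟨l, hl⟩ := (IsPGroup.iff_card).mp hLp
  -- notation
  let π : ↥(Subgroup.normalizer (L : Set Γ)) →* Qt L :=
    QuotientGroup.mk' (L.subgroupOf (Subgroup.normalizer (L : Set Γ)))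
  have hπ : ∀ a b : ↥(Subgroup.normalizer (L : Set Γ)), π a = π b ↔ (a : Γ)⁻¹ * (b : Γ) ∈ L := by
    intro a b
    show (QuotientGroup.mk a : _ ⧸ _) = QuotientGroup.mk b ↔ _
    rw [QuotientGroup.eq, Subgroup.mem_subgroupOf]
    rfl
  have hπ1 : ∀ a : ↥(Subgroup.normalizer (L : Set Γ)), π a = 1 ↔ (a : Γ) ∈ L := by
    intro a
    show (QuotientGroup.mk a : _ ⧸ _) = 1 ↔ _
    rw [QuotientGroup.eq_one_iff, Subgroup.mem_subgroupOf]
  -- cards
  have hcX := card_img L hLX hXN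
  have hcT := card_img L hLT hTN
  have hLcard : 1 < Nat.card L := (Subgroup.one_lt_card_iff_ne_bot L).mpr hLne
  have hXpos : 0 < Nat.card X := Nat.card_pos
  have hX'pos : 0 < Nat.card (img L X) := Nat.card_pos
  have hlt : Nat.card (img L X) < Nat.card X := by
    rw [← hcX]; nlinarith
  have hPQ' : IsPQ p q (img L X) := fun r hr hdvd =>
    hPQ r hr (hdvd.trans (Dvd.intro _ hcX))
  have hSyl' : IsSyl p (img L X) (img L T) := by
    refine ⟨img_mono L hTX, ?_⟩
    rw [hl] at hcX hcT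
    exact syl_quot hp hcT hcX hSyl.2 hXpos.ne'
  have hLA' := hLA (Nat.card (img L X)) hlt (Qt L) (img L X) (img L T) le_rfl hPQ' hSyl'
  by_cases hhyp : ∀ K' : Subgroup (Qt L), K' ≤ img L T →
      Subgroup.normalizer ((img L T : Subgroup (Qt L)) : Set (Qt L)) ≤
        Subgroup.normalizer (K' : Set (Qt L)) →
      ¬ Bad q (img L X) K'
  · -- the right alternative
    right
    intro R hRX hRp hLR y hyX hyR hyq r hr
    have hRN : R ≤ Subgroup.normalizer (L : Set Γ) := hRX.trans hXN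
    have hR'p : IsPGroup p (img L R) := (hRp.comap_subtype).map _
    have hnb := hLA' hhyp (img L R) (img_mono L hRX) hR'p
    by_contra hcon
    apply hnb
    refine ⟨π ⟨y, hXN hyX⟩, mem_img L hyX _, map_mem_normalizer L ⟨y, hXN hyX⟩ hyR, ?_, ?_⟩
    · obtain ⟨k, hk⟩ := hyq
      refine ⟨k, ?_⟩
      rw [← map_pow, hπ1]
      show y ^ (q ^ k) ∈ L
      rw [hk]; exact L.one_mem
    · intro hc
      rw [Subgroup.mem_centralizer_iff] at hc
      have h1 := hc (π ⟨r, hRN hr⟩) (mem_img L hr _)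
      rw [← map_mul, ← map_mul, hπ] at h1
      have h1' : (r * y)⁻¹ * (y * r) ∈ L := h1
      have h4 : y * ((r * y)⁻¹ * (y * r)) * y⁻¹ ∈ L :=
        (Subgroup.mem_normalizer_iff.mp (hXN hyX) _).mp h1'
      have h5 : y * ((r * y)⁻¹ * (y * r)) * y⁻¹ = r⁻¹ * y * r * y⁻¹ := by group
      rw [h5] at h4
      exact hcon h4
  · left
    push Not at hhyp
    obtain ⟨K', hK'T, hK'n, y', hy'X, hy'N, ⟨k, hk⟩, hy'C⟩ := hhyp
    let K : Subgroup Γ := (K'.comap π).map (Subgroup.normalizer (L : Set Γ)).subtype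
    have hmemK : ∀ h : Γ, h ∈ K ↔
        ∃ hh : h ∈ Subgroup.normalizer (L : Set Γ), π ⟨h, hh⟩ ∈ K' := by
      intro h
      constructor
      · rintro ⟨h₀, hh₀, rfl⟩
        exact ⟨h₀.2, hh₀⟩
      · rintro ⟨hh, hK⟩
        exact ⟨⟨h, hh⟩, hK, rfl⟩
    have hM3 : ∀ n₀ : ↥(Subgroup.normalizer (L : Set Γ)),
        π n₀ ∈ Subgroup.normalizer (K' : Set (Qt L)) →
        (n₀ : Γ) ∈ Subgroup.normalizer (K : Set Γ) := by
      intro n₀ hn₀
      rw [Subgroup.mem_normalizer_iff]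
      intro h
      rw [hmemK, hmemK]
      constructor
      · rintro ⟨hh, hK⟩
        refine ⟨Subgroup.mul_mem _ (Subgroup.mul_mem _ n₀.2 hh) (Subgroup.inv_mem _ n₀.2), ?_⟩
        have e : (⟨(n₀ : Γ) * h * (n₀ : Γ)⁻¹,
            Subgroup.mul_mem _ (Subgroup.mul_mem _ n₀.2 hh) (Subgroup.inv_mem _ n₀.2)⟩ :
            ↥(Subgroup.normalizer (L : Set Γ))) = n₀ * ⟨h, hh⟩ * n₀⁻¹ := rfl
        rw [e, map_mul, map_mul, map_inv]
        exact (Subgroup.mem_normalizer_iff.mp hn₀ _).mp hK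
      · rintro ⟨hh, hK⟩
        have hh' : h ∈ Subgroup.normalizer (L : Set Γ) := by
          have := Subgroup.mul_mem _ (Subgroup.mul_mem _ (Subgroup.inv_mem _ n₀.2) hh) n₀.2
          simpa [mul_assoc] using this
        refine ⟨hh', ?_⟩
        have e : (⟨(n₀ : Γ) * h * (n₀ : Γ)⁻¹, hh⟩ : ↥(Subgroup.normalizer (L : Set Γ))) =
            n₀ * ⟨h, hh'⟩ * n₀⁻¹ := rfl
        rw [e, map_mul, map_mul, map_inv] at hK
        exact (Subgroup.mem_normalizer_iff.mp hn₀ _).mpr hK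
    have hM4 : ∀ n₀ : ↥(Subgroup.normalizer (L : Set Γ)),
        (n₀ : Γ) ∈ Subgroup.centralizer (K : Set Γ) →
        π n₀ ∈ Subgroup.centralizer (K' : Set (Qt L)) := by
      intro n₀ hn₀
      rw [Subgroup.mem_centralizer_iff] at hn₀ ⊢
      intro k' hk'
      obtain ⟨t₀, rfl⟩ := QuotientGroup.mk'_surjective _ k'
      have ht₀K : (t₀ : Γ) ∈ K := (hmemK _).mpr ⟨t₀.2, hk'⟩
      have h1 := hn₀ _ ht₀K
      have e : t₀ * n₀ = n₀ * t₀ := Subtype.ext h1
      show π t₀ * π n₀ = π n₀ * π t₀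
      rw [← map_mul, ← map_mul, e]
    refine ⟨K, ?_, ?_, ?_, ?_⟩
    · intro h hh
      obtain ⟨hhN, hK⟩ := (hmemK h).mp hh
      obtain ⟨t₀, ht₀, ht₀eq⟩ := hK'T hK
      have ht₀T : (t₀ : Γ) ∈ T := Subgroup.mem_subgroupOf.mp ht₀
      have h1 : (t₀ : Γ)⁻¹ * h ∈ L := (hπ t₀ ⟨h, hhN⟩).mp ht₀eq
      have h2 : h = (t₀ : Γ) * ((t₀ : Γ)⁻¹ * h) := by group
      rw [h2]; exact T.mul_mem ht₀T (hLT h1)
    · intro l' hl'
      rw [hmemK]
      refine ⟨Subgroup.le_normalizer hl', ?_⟩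
      have h1 : π ⟨l', Subgroup.le_normalizer hl'⟩ = 1 := (hπ1 _).mpr hl'
      rw [h1]; exact K'.one_mem
    · intro n hnT hnL
      exact hM3 ⟨n, hnL⟩ (hK'n (map_mem_normalizer L ⟨n, hnL⟩ hnT))
    · obtain ⟨y₁, hy₁X, rfl⟩ := hy'X
      have hy₁X' : (y₁ : Γ) ∈ X := Subgroup.mem_subgroupOf.mp hy₁X
      have hcop : Nat.Coprime (Nat.card L) (orderOf (π y₁)) := by
        have h1 : orderOf (π y₁) ∣ q ^ k := orderOf_dvd_of_pow_eq_one hk
        rw [hl]
        exact Nat.Coprime.coprime_dvd_right h1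
          (Nat.Coprime.pow _ _ ((Nat.coprime_primes hp hq).mpr hpq))
      obtain ⟨b, hb⟩ := exists_pow_eq_self_of_coprime hcop
      refine ⟨(y₁ : Γ) ^ Nat.card L, X.pow_mem hy₁X' _, ?_, ⟨k, ?_⟩, ?_⟩
      · have h1 : π (y₁ ^ Nat.card L) ∈ Subgroup.normalizer (K' : Set (Qt L)) := by
          rw [map_pow]; exact Subgroup.pow_mem _ hy'N _
        exact hM3 (y₁ ^ Nat.card L) h1
      · have h1 : (y₁ : Γ) ^ (q ^ k) ∈ L := by
          have h0 : π (y₁ ^ (q ^ k)) = 1 := by rw [map_pow]; exact hk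
          exact (hπ1 _).mp h0
        have h2 : ((y₁ : Γ) ^ (q ^ k)) ^ Nat.card L = 1 := by
          have h3 := pow_card_eq_one' (G := L) (x := ⟨_, h1⟩)
          exact congrArg Subtype.val h3
        rw [← pow_mul, mul_comm, pow_mul]; exact h2
      · intro hc
        apply hy'C
        have h1 := hM4 (y₁ ^ Nat.card L) hc
        rw [map_pow] at h1
        rw [← hb]
        exact Subgroup.pow_mem _ h1 _

end Cfsg.Agent.Lib.Helper64.AutQSTEP
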