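import Mathlib
import Cfsg.Agent.Lib.Helper87.FSBasic
import Cfsg.Agent.Lib.Helper87.FSSat
import Cfsg.Agent.Lib.Helper88.CEStmt

/-! Piece JBASE of S5127 (helper64): `J(T)`. -/

set_option autoImplicit false

namespace Cfsg.Agent.Lib.Helper64.CEJBASE

open Cfsg Cfsg.FusionSystem Cfsg.Agent.Lib.Helper88.FCStmt Cfsg.Agent.Lib.Helper88.CEStmt
open scoped commutatorElement

universe u

/-- Elements of `T ⊔ X` are products when `X` centralizes `T`. -/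
theorem exists_mul_of_mem_sup {Ω : Type*} [Group Ω] {T X : Subgroup Ω}
    (hXc : ∀ y ∈ X, ∀ t ∈ T, t * y = y * t) {y : Ω} (hy : y ∈ T ⊔ X) :
    ∃ t ∈ T, ∃ x' ∈ X, y = t * x' := by
  let M : Subgroup Ω :=
    { carrier := {y | ∃ t ∈ T, ∃ x' ∈ X, y = t * x'}
      mul_mem' := by
        rintro _ _ ⟨t1, ht1, x1, hx1, rfl⟩ ⟨t2, ht2, x2, hx2, rfl⟩
        refine ⟨t1 * t2, T.mul_mem ht1 ht2, x1 * x2, X.mul_mem hx1 hx2, ?_⟩
        have := hXc x1 hx1 t2 ht2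
        calc t1 * x1 * (t2 * x2) = t1 * (x1 * t2) * x2 := by group
          _ = t1 * (t2 * x1) * x2 := by rw [this]
          _ = t1 * t2 * (x1 * x2) := by group
      one_mem' := ⟨1, T.one_mem, 1, X.one_mem, by simp⟩
      inv_mem' := by
        rintro _ ⟨t1, ht1, x1, hx1, rfl⟩
        refine ⟨t1⁻¹, T.inv_mem ht1, x1⁻¹, X.inv_mem hx1, ?_⟩
        have := hXc x1⁻¹ (X.inv_mem hx1) t1⁻¹ (T.inv_mem ht1)
        rw [mul_inv_rev]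
        exact this.symm }
  have hle : T ⊔ X ≤ M := sup_le (fun t ht => ⟨t, ht, 1, X.one_mem, by simp⟩)
    (fun x' hx' => ⟨1, T.one_mem, x', hx', by simp⟩)
  exact hle hy

theorem main (hKC : KConjS.{u}) (hKM : KMem.{u}) (hCOMM : CommCentral.{u}) : JBase.{u} := by
  intro Ω _ S _ p _ hS F hF T E hE X hX hXE κ hκ α hα x hx z hz
  have hE' := hE
  obtain ⟨⟨hEsat, -, hEF, hTcl, hinv, -⟩, -⟩ := hE
  have hTS : T ≤ S := hTcl.1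
  have hXS : X ≤ S := fun y hy => (hX hy).1
  have hXc : ∀ y ∈ X, ∀ t ∈ T, t * y = y * t := fun y hy t ht =>
    Subgroup.mem_centralizer_iff.mp (hX hy).2 t ht
  have hRS : T ⊔ X ≤ S := sup_le hTS hXS
  have hκR : κ ∈ F.autGroup (T ⊔ X) := hκ.1
  have hκT : ∀ u : ↥(T ⊔ X), (u : Ω) ∈ T → κ u = u := hκ.2.1
  have hdisp : ∀ (y : ↥(T ⊔ X)), ∃ x' : ↥(T ⊔ X), (x' : Ω) ∈ X ∧
      (y : Ω)⁻¹ * ((κ y : ↥(T ⊔ X)) : Ω) = (x' : Ω)⁻¹ * ((κ x' : ↥(T ⊔ X)) : Ω) := by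
    intro y
    obtain ⟨t, ht, x', hx', hy⟩ := exists_mul_of_mem_sup hXc y.2
    refine ⟨⟨x', Subgroup.mem_sup_right hx'⟩, hx', ?_⟩
    have hy' : y = (⟨t, Subgroup.mem_sup_left ht⟩ : ↥(T ⊔ X)) *
        ⟨x', Subgroup.mem_sup_right hx'⟩ := Subtype.ext hy
    rw [hy', map_mul, hκT ⟨t, Subgroup.mem_sup_left ht⟩ ht]
    simp only [Subgroup.coe_mul, mul_inv_rev]
    group
  have hcenTT : centralizerIn T T ≤ T := inf_le_left
  have hKM' : ∀ x' : ↥(T ⊔ X), (x' : Ω) ∈ X →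
      (x' : Ω)⁻¹ * ((κ x' : ↥(T ⊔ X)) : Ω) ∈ T ∧
      ∀ u ∈ T, u * ((x' : Ω)⁻¹ * ((κ x' : ↥(T ⊔ X)) : Ω)) =
        (x' : Ω)⁻¹ * ((κ x' : ↥(T ⊔ X)) : Ω) * u :=
    fun x' hx' => hKM F T hTS T le_rfl hcenTT X hX κ hκ x' hx'
  obtain ⟨χ, hχ, h, hhS, hχh⟩ := hKC p hS F hF T hTcl (T ⊔ X) hRS κ hκR hκT (by
    intro y
    obtain ⟨x', hx', e⟩ := hdisp y
    rw [e]
    obtain ⟨h1, h2⟩ := hKM' x' hx'
    exact ⟨h1, fun u hu => (h2 u hu).symm⟩)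
  have hRN : T ⊔ X ≤ normalizerIn S (T ⊔ X) := Cfsg.Agent.Lib.Helper87.FSSat.le_normalizerIn hRS
  have hTN : T ≤ normalizerIn S (T ⊔ X) := le_sup_left.trans hRN
  have hχh' : ∀ (y : ↥(T ⊔ X)) (ky : Ω), ky = ((κ y : ↥(T ⊔ X)) : Ω) →
      ∀ (hy : (y : Ω) ∈ normalizerIn S (T ⊔ X)) (hky : ky ∈ normalizerIn S (T ⊔ X)),
      χ ⟨ky, hky⟩ = h * χ ⟨y, hy⟩ * h⁻¹ := by
    intro y ky e hy hky
    subst e
    exact hχh y hy hky
  -- the automorphism of `T` induced by `χ`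
  let f : T →* Ω := χ.comp (Subgroup.inclusion hTN)
  have hf : f ∈ F.Hom T := Cfsg.Agent.H85.restrict_mem F hχ hTN
  have hfT : ∀ t : T, f t ∈ T := fun t => hTcl.2 T le_rfl f hf t
  have hfinT : Finite T := Cfsg.Agent.Lib.Helper87.FSSat.finite_of_le hTS
  have hfr : f.range = T := by
    apply Subgroup.eq_of_le_of_card_ge
    · rintro _ ⟨t, rfl⟩
      exact hfT t
    · rw [Cfsg.Agent.Lib.Helper87.FSSat.card_range F hf]
  let β : MulAut T := Cfsg.Agent.Lib.Helper87.FSBasic.autOfMap f (F.injective_of_mem hf) hfr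
  have hβ : β ∈ F.autGroup T := Cfsg.Agent.Lib.Helper87.FSBasic.autOfMap_mem F hf hfr
  have hβc : ∀ t : T, ((β t : T) : Ω) = χ ⟨t, hTN t.2⟩ := fun t => rfl
  -- `h` centralizes `T`
  have hhT : ∀ t' ∈ T, t' * h = h * t' := by
    intro t' ht'
    obtain ⟨t, ht⟩ := β.surjective ⟨t', ht'⟩
    have e1 : χ ⟨t, hTN t.2⟩ = t' := by rw [← hβc, ht]
    have hkt := hκT ⟨t, Subgroup.mem_sup_left t.2⟩ t.2
    have h2 := hχh' ⟨t, Subgroup.mem_sup_left t.2⟩ (t : Ω) (by rw [hkt]) (hTN t.2) (hTN t.2)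
    rw [e1] at h2
    calc t' * h = h * t' * h⁻¹ * h := by rw [← h2]
      _ = h * t' := by group
  have hh : h ∈ centralizerIn S T := ⟨hhS, Subgroup.mem_centralizer_iff.mpr hhT⟩
  -- `c = χ(x)` centralizes `T`
  have hcS : χ ⟨x, hRN x.2⟩ ∈ S := (F.le_of_mem hχ).2 _
  have hcT : ∀ t' ∈ T, t' * χ ⟨x, hRN x.2⟩ = χ ⟨x, hRN x.2⟩ * t' := by
    intro t' ht'
    obtain ⟨t, ht⟩ := β.surjective ⟨t', ht'⟩
    have e1 : χ ⟨t, hTN t.2⟩ = t' := by rw [← hβc, ht]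
    have h1 : (⟨t, hTN t.2⟩ : ↥(normalizerIn S (T ⊔ X))) * ⟨x, hRN x.2⟩ =
        ⟨x, hRN x.2⟩ * ⟨t, hTN t.2⟩ := Subtype.ext (hXc x hx t t.2)
    have h2 := congrArg χ h1
    rw [map_mul, map_mul, e1] at h2
    exact h2
  have hc : χ ⟨x, hRN x.2⟩ ∈ centralizerIn S T := ⟨hcS, Subgroup.mem_centralizer_iff.mpr hcT⟩
  -- the image of the displacement is a commutator
  have hχκ := hχh' x _ rfl (hRN x.2) (hRN (κ x).2)
  have hzN : (⟨z, hTN z.2⟩ : ↥(normalizerIn S (T ⊔ X))) =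
      (⟨x, hRN x.2⟩ : ↥(normalizerIn S (T ⊔ X)))⁻¹ * ⟨_, hRN (κ x).2⟩ := Subtype.ext hz
  have hβz : ((β z : T) : Ω) = ⁅(χ ⟨x, hRN x.2⟩)⁻¹, h⁆ := by
    rw [hβc, hzN, map_mul, map_inv, hχκ, commutatorElement_def]
    group
  have hwQ : ((β z : T) : Ω) ∈ ⁅centralizerIn S T, centralizerIn S T⁆ := by
    rw [hβz]
    exact Subgroup.commutator_mem_commutator ((centralizerIn S T).inv_mem hc) hh
  -- invariance
  have hαE : T.subtype.comp α.toMonoidHom ∈ E.Hom T :=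
    (Cfsg.Agent.H85.mem_autGroup_iff E le_rfl α).mp hα
  obtain ⟨χ', hχ', hχ'e⟩ := hinv T le_rfl _ hαE β hβ
  have hQ := hCOMM p hS F hF E hE'
  obtain ⟨-, -, -, ψ, hψ, hψ1, hψ2⟩ := hQ _ hχ'
  have hw1 : ((β z : T) : Ω) ∈ (T.subgroupOf T).map (T.subtype.comp β.toMonoidHom) :=
    ⟨z, Subgroup.mem_subgroupOf.mpr z.2, rfl⟩
  have e1 := hψ1 ⟨_, hw1⟩
  have e2 := hψ2 ⟨_, hwQ⟩
  have e3 : χ' ⟨_, hw1⟩ = ((β z : T) : Ω) := e1.symm.trans e2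
  have e4 := hχ'e z (α z).2 hw1
  have e5 : ((β (α z) : T) : Ω) = ((β z : T) : Ω) := e4.symm.trans e3
  exact β.injective (Subtype.ext e5)

end Cfsg.Agent.Lib.Helper64.CEJBASE
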