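import Mathlib
import Cfsg.Agent.Lib.Helper87.FSBasic
import Cfsg.Agent.Lib.Helper87.FSSat
import Cfsg.Agent.Lib.Helper88.CEStmt
import Cfsg.Agent.Lib.Helper64.CEJBASE

/-! Piece JEXT of S5127 (helper64): for `P` `E`-centric and fully normalized in `E`, every
`κ ∈ K_X(P)` extends to an element of `Aut_F(N_T(P) X)`. -/

set_option autoImplicit false

namespace Cfsg.Agent.Lib.Helper64.CEJEXT

open Cfsg Cfsg.FusionSystem Cfsg.Agent.Lib.Helper88.FCStmt Cfsg.Agent.Lib.Helper88.CEStmt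

universe u

/-- Conjugation by `n` preserves `P ⊔ X` if it preserves `P` and `X`. -/
theorem conj_mem_sup {Ω : Type*} [Group Ω] {P X : Subgroup Ω} {n : Ω}
    (hP : ∀ u ∈ P, n * u * n⁻¹ ∈ P) (hX : ∀ x ∈ X, n * x * n⁻¹ ∈ X) {g : Ω} (hg : g ∈ P ⊔ X) :
    n * g * n⁻¹ ∈ P ⊔ X := by
  have hle : P ⊔ X ≤ (P ⊔ X).comap (MulAut.conj n).toMonoidHom :=
    sup_le (fun u hu => Subgroup.mem_comap.mpr (by simpa using Subgroup.mem_sup_left (hP u hu)))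
      (fun x hx => Subgroup.mem_comap.mpr (by simpa using Subgroup.mem_sup_right (hX x hx)))
  have := hle hg
  simpa using this

theorem main (hKC : KConjS.{u}) (hJC : JCard.{u}) (hKM : KMem.{u}) : JExt.{u} := by
  intro Ω _ S _ p _ hS F hF T E hE P hPc hPfn X hX κ hκ
  obtain ⟨⟨hEsat, -, hEinv⟩, -⟩ := hE
  have hTcl : F.StronglyClosed T := hEinv.2.1
  have hTS : T ≤ S := hTcl.1
  have hPT : P ≤ T := hPc.1
  have hPS : P ≤ S := hPT.trans hTS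
  have hXS : X ≤ S := fun y hy => (hX hy).1
  have hXc : ∀ y ∈ X, ∀ t ∈ T, t * y = y * t := fun y hy t ht =>
    Subgroup.mem_centralizer_iff.mp (hX hy).2 t ht
  have hXcP : ∀ y ∈ X, ∀ t ∈ P, t * y = y * t := fun y hy t ht => hXc y hy t (hPT ht)
  have hCP : centralizerIn T P ≤ P := hPc.2 P (Cfsg.Agent.H85.isConj_refl E hPT)
  have hRS : P ⊔ X ≤ S := sup_le hPS hXS
  have hκR : κ ∈ F.autGroup (P ⊔ X) := hκ.1
  have hκP : ∀ u : ↥(P ⊔ X), (u : Ω) ∈ P → κ u = u := hκ.2.1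
  -- `(P X) ∩ T = P`
  have hRT : ∀ y ∈ P ⊔ X, y ∈ T → y ∈ P := by
    intro y hy hyT
    obtain ⟨t, ht, x', hx', rfl⟩ := CEJBASE.exists_mul_of_mem_sup hXcP hy
    have hx'T : x' ∈ T := by
      have : x' = t⁻¹ * (t * x') := by group
      rw [this]
      exact T.mul_mem (T.inv_mem (hPT ht)) hyT
    have hx'P : x' ∈ P :=
      hCP ⟨hx'T, Subgroup.mem_centralizer_iff.mpr (fun u hu => hXcP x' hx' u hu)⟩
    exact P.mul_mem ht hx'P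
  have hdisp : ∀ (y : ↥(P ⊔ X)), ∃ x' : ↥(P ⊔ X), (x' : Ω) ∈ X ∧
      (y : Ω)⁻¹ * ((κ y : ↥(P ⊔ X)) : Ω) = (x' : Ω)⁻¹ * ((κ x' : ↥(P ⊔ X)) : Ω) := by
    intro y
    obtain ⟨t, ht, x', hx', hy⟩ := CEJBASE.exists_mul_of_mem_sup hXcP y.2
    refine ⟨⟨x', Subgroup.mem_sup_right hx'⟩, hx', ?_⟩
    have hy' : y = (⟨t, Subgroup.mem_sup_left ht⟩ : ↥(P ⊔ X)) *
        ⟨x', Subgroup.mem_sup_right hx'⟩ := Subtype.ext hy
    rw [hy', map_mul, hκP ⟨t, Subgroup.mem_sup_left ht⟩ ht]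
    simp only [Subgroup.coe_mul, mul_inv_rev]
    group
  have hKM' : ∀ x' : ↥(P ⊔ X), (x' : Ω) ∈ X →
      (x' : Ω)⁻¹ * ((κ x' : ↥(P ⊔ X)) : Ω) ∈ P ∧
      ∀ u ∈ P, u * ((x' : Ω)⁻¹ * ((κ x' : ↥(P ⊔ X)) : Ω)) =
        (x' : Ω)⁻¹ * ((κ x' : ↥(P ⊔ X)) : Ω) * u :=
    fun x' hx' => hKM F T hTS P hPT hCP X hX κ hκ x' hx'
  obtain ⟨χ, hχ, h, hhS, hχh⟩ := hKC p hS F hF T hTcl (P ⊔ X) hRS κ hκR
    (fun y hyT => hκP y (hRT y y.2 hyT)) (by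
    intro y
    obtain ⟨x', hx', e⟩ := hdisp y
    rw [e]
    obtain ⟨h1, h2⟩ := hKM' x' hx'
    exact ⟨hPT h1, fun u hu => (h2 u (hRT u u.2 hu)).symm⟩)
  have hRN : P ⊔ X ≤ normalizerIn S (P ⊔ X) := Cfsg.Agent.Lib.Helper87.FSSat.le_normalizerIn hRS
  have hN₁T : normalizerIn T P ≤ T := inf_le_left
  have hPN₁ : P ≤ normalizerIn T P := fun u hu => ⟨hPT hu, Subgroup.le_normalizer hu⟩
  have hN₁conj : ∀ n ∈ normalizerIn T P, ∀ u ∈ P, n * u * n⁻¹ ∈ P := fun n hn u hu =>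
    (Subgroup.mem_normalizer_iff.mp hn.2 u).mp hu
  have hN₁X : ∀ n ∈ normalizerIn T P, ∀ x ∈ X, n * x * n⁻¹ = x := by
    intro n hn x hx
    rw [hXc x hx n hn.1]
    group
  have hAN : normalizerIn T P ⊔ X ≤ normalizerIn S (P ⊔ X) := by
    refine sup_le (fun n hn => ⟨hTS hn.1, ?_⟩) (le_sup_right.trans hRN)
    refine Subgroup.mem_normalizer_iff.mpr (fun g => ⟨fun hg => ?_, fun hg => ?_⟩)
    · exact conj_mem_sup (hN₁conj n hn) (fun x hx => by rw [hN₁X n hn x hx]; exact hx) hg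
    · have hn' := (normalizerIn T P).inv_mem hn
      have := conj_mem_sup (hN₁conj n⁻¹ hn')
        (fun x hx => by rw [hN₁X n⁻¹ hn' x hx]; exact hx) hg
      have e : n⁻¹ * (n * g * n⁻¹) * n⁻¹⁻¹ = g := by group
      rw [e] at this
      exact this
  have hAS : normalizerIn T P ⊔ X ≤ S := sup_le (hN₁T.trans hTS) hXS
  have hRA : P ⊔ X ≤ normalizerIn T P ⊔ X := sup_le_sup_right hPN₁ X
  have hfinA : Finite ↥(normalizerIn T P ⊔ X) := Cfsg.Agent.Lib.Helper87.FSSat.finite_of_le hAS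
  have hχh' : ∀ (y : ↥(P ⊔ X)) (ky : Ω), ky = ((κ y : ↥(P ⊔ X)) : Ω) →
      ∀ (hy : (y : Ω) ∈ normalizerIn S (P ⊔ X)) (hky : ky ∈ normalizerIn S (P ⊔ X)),
      χ ⟨ky, hky⟩ = h * χ ⟨y, hy⟩ * h⁻¹ := by
    intro y ky e hy hky
    subst e
    exact hχh y hy hky
  -- the image of `P`
  have hPN : P ≤ normalizerIn S (P ⊔ X) := le_sup_left.trans hRN
  let ψP : P →* Ω := χ.comp (Subgroup.inclusion hPN)
  have hψP : ψP ∈ F.Hom P := Cfsg.Agent.H85.restrict_mem F hχ hPN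
  have hhP' : h ∈ Subgroup.centralizer (ψP.range : Set Ω) := by
    rw [Subgroup.mem_centralizer_iff]
    rintro _ ⟨u, rfl⟩
    have hku := hκP ⟨u, Subgroup.mem_sup_left u.2⟩ u.2
    have h2 := hχh' ⟨u, Subgroup.mem_sup_left u.2⟩ (u : Ω) (by rw [hku]) (hPN u.2) (hPN u.2)
    have h3 : ψP u = h * ψP u * h⁻¹ := h2
    calc ψP u * h = h * ψP u * h⁻¹ * h := by rw [← h3]
      _ = h * ψP u := by group
  -- the image of `N_T(P)`
  have hN₁N : normalizerIn T P ≤ normalizerIn S (P ⊔ X) := le_sup_left.trans hAN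
  let ψN : ↥(normalizerIn T P) →* Ω := χ.comp (Subgroup.inclusion hN₁N)
  have hψN : ψN ∈ F.Hom (normalizerIn T P) := Cfsg.Agent.H85.restrict_mem F hχ hN₁N
  have hconj : ∀ (n : ↥(normalizerIn T P)), ∀ g ∈ ψP.range, ψN n * g * (ψN n)⁻¹ ∈ ψP.range := by
    rintro n _ ⟨u, rfl⟩
    refine ⟨⟨(n : Ω) * u * (n : Ω)⁻¹, hN₁conj n n.2 u u.2⟩, ?_⟩
    have e : (⟨(n : Ω) * u * (n : Ω)⁻¹, hPN (hN₁conj n n.2 u u.2)⟩ :
        ↥(normalizerIn S (P ⊔ X))) =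
        ⟨n, hN₁N n.2⟩ * ⟨u, hPN u.2⟩ * (⟨n, hN₁N n.2⟩ : ↥(normalizerIn S (P ⊔ X)))⁻¹ :=
      Subtype.ext rfl
    show χ ⟨(n : Ω) * u * (n : Ω)⁻¹, hPN (hN₁conj n n.2 u u.2)⟩ =
      χ ⟨n, hN₁N n.2⟩ * χ ⟨u, hPN u.2⟩ * (χ ⟨n, hN₁N n.2⟩)⁻¹
    rw [e, map_mul, map_mul, map_inv]
  have hψNle : ψN.range ≤ normalizerIn T ψP.range := by
    rintro _ ⟨n, rfl⟩
    refine ⟨hTcl.2 _ hN₁T ψN hψN n, ?_⟩
    refine Subgroup.mem_normalizer_iff.mpr (fun g => ⟨fun hg => hconj n g hg, fun hg => ?_⟩)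
    have := hconj n⁻¹ _ hg
    have e : ψN n⁻¹ * (ψN n * g * (ψN n)⁻¹) * (ψN n⁻¹)⁻¹ = g := by
      rw [map_inv]
      group
    rw [e] at this
    exact this
  have hfinNP' : Finite ↥(normalizerIn T ψP.range) :=
    Cfsg.Agent.Lib.Helper87.FSSat.finite_of_le ((inf_le_left : normalizerIn T ψP.range ≤ T).trans hTS)
  have hψNeq : ψN.range = normalizerIn T ψP.range := by
    apply Subgroup.eq_of_le_of_card_ge hψNle
    rw [Cfsg.Agent.Lib.Helper87.FSSat.card_range F hψN]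
    exact hJC F E hEinv P hPfn ψP hψP
  have hhN : ∀ m ∈ normalizerIn T ψP.range, h * m * h⁻¹ ∈ normalizerIn T ψP.range := by
    intro m hm
    refine ⟨?_, ?_⟩
    · exact hTcl.2 T le_rfl _ (F.conj_mem hTS hhS) ⟨m, hm.1⟩
    · have hh' := Subgroup.centralizer_le_normalizer _ hhP'
      exact Subgroup.mul_mem _ (Subgroup.mul_mem _ hh' hm.2) (Subgroup.inv_mem _ hh')
  -- the restriction of `χ` to `N_T(P) X`
  let χA : ↥(normalizerIn T P ⊔ X) →* Ω := χ.comp (Subgroup.inclusion hAN)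
  have hχA : χA ∈ F.Hom (normalizerIn T P ⊔ X) := Cfsg.Agent.H85.restrict_mem F hχ hAN
  have hB : ∀ b ∈ χA.range, h * b * h⁻¹ ∈ χA.range := by
    rintro _ ⟨a, rfl⟩
    obtain ⟨n, hn, x', hx', ha⟩ := CEJBASE.exists_mul_of_mem_sup
      (fun y hy t ht => hXc y hy t (hN₁T ht)) a.2
    have ha' : a = (⟨n, Subgroup.mem_sup_left hn⟩ : ↥(normalizerIn T P ⊔ X)) *
        ⟨x', Subgroup.mem_sup_right hx'⟩ := Subtype.ext ha
    rw [ha', map_mul]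
    have e : h * (χA ⟨n, Subgroup.mem_sup_left hn⟩ * χA ⟨x', Subgroup.mem_sup_right hx'⟩) * h⁻¹ =
        (h * χA ⟨n, Subgroup.mem_sup_left hn⟩ * h⁻¹) *
          (h * χA ⟨x', Subgroup.mem_sup_right hx'⟩ * h⁻¹) := by group
    rw [e]
    refine Subgroup.mul_mem _ ?_ ?_
    · have h1 : χA ⟨n, Subgroup.mem_sup_left hn⟩ ∈ ψN.range := ⟨⟨n, hn⟩, rfl⟩
      rw [hψNeq] at h1
      have h2 := hhN _ h1
      rw [← hψNeq] at h2
      obtain ⟨n', hn'⟩ := h2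
      exact ⟨⟨n', Subgroup.mem_sup_left n'.2⟩, hn'⟩
    · have h1 := hχh' ⟨x', Subgroup.mem_sup_right hx'⟩ _ rfl (hRN (Subgroup.mem_sup_right hx'))
        (hRN (κ ⟨x', Subgroup.mem_sup_right hx'⟩).2)
      refine ⟨⟨_, hRA (κ ⟨x', Subgroup.mem_sup_right hx'⟩).2⟩, ?_⟩
      exact h1
  -- the automorphism `χ⁻¹ c_h χ`
  obtain ⟨ψ, hψ, hψinv⟩ := F.inv_mem hχA
  have hψval : ∀ (b : Ω) (hb : b ∈ χA.range) (a : ↥(normalizerIn T P ⊔ X)), b = χA a →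
      ψ ⟨b, hb⟩ = (a : Ω) := by
    intro b hb a e
    subst e
    exact hψinv a
  have hBS : χA.range ≤ S := by
    rintro _ ⟨a, rfl⟩
    exact (F.le_of_mem hχA).2 a
  have hcB : conjHom χA.range h ∈ F.Hom χA.range := F.conj_mem hBS hhS
  have hθ := F.comp_mem hχA hcB (fun a => ⟨a, rfl⟩)
  have hθB : ∀ a : ↥(normalizerIn T P ⊔ X),
      ((conjHom χA.range h).comp (χA.codRestrict χA.range (fun a => ⟨a, rfl⟩))) a ∈ χA.range :=
    fun a => hB _ ⟨a, rfl⟩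
  have hg := F.comp_mem hθ hψ hθB
  have hgval : ∀ a : ↥(normalizerIn T P ⊔ X),
      (ψ.comp (((conjHom χA.range h).comp
        (χA.codRestrict χA.range (fun a => ⟨a, rfl⟩))).codRestrict χA.range hθB)) a =
      ψ ⟨h * χA a * h⁻¹, hB _ ⟨a, rfl⟩⟩ := fun a => rfl
  have hgr : (ψ.comp (((conjHom χA.range h).comp
        (χA.codRestrict χA.range (fun a => ⟨a, rfl⟩))).codRestrict χA.range hθB)).range =
      normalizerIn T P ⊔ X := by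
    apply Subgroup.eq_of_le_of_card_ge
    · rintro _ ⟨a, rfl⟩
      obtain ⟨a', ha'⟩ := hB _ ⟨a, rfl⟩
      have e1 : ψ ⟨h * χA a * h⁻¹, hB _ ⟨a, rfl⟩⟩ = (a' : Ω) := hψval _ _ a' ha'.symm
      have e2 := (hgval a).trans e1
      rw [e2]
      exact a'.2
    · rw [Cfsg.Agent.Lib.Helper87.FSSat.card_range F hg]
  refine ⟨Cfsg.Agent.Lib.Helper87.FSBasic.autOfMap _ (F.injective_of_mem hg) hgr,
    Cfsg.Agent.Lib.Helper87.FSBasic.autOfMap_mem F hg hgr, ?_⟩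
  intro u hu
  have h1 := hχh' u _ rfl (hRN u.2) (hRN (κ u).2)
  have e1 : ψ ⟨h * χA ⟨u, hu⟩ * h⁻¹, hB _ ⟨⟨u, hu⟩, rfl⟩⟩ = ((κ u : ↥(P ⊔ X)) : Ω) :=
    hψval _ _ ⟨_, hRA (κ u).2⟩ h1.symm
  exact (hgval ⟨u, hu⟩).trans e1

end Cfsg.Agent.Lib.Helper64.CEJEXT
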