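import Mathlib
import Cfsg.Agent.Lib.Lead.MaxStmt

/-!
# Piece TCS of S2245: the square of the product of two double transpositions with exactly one
common point is a 3-cycle.
-/

set_option autoImplicit false

namespace Cfsg.Agent.Lib.Helper64.MaxTCS

open Equiv MulAction Cfsg.Agent.Lib.Lead.MaxStmt Cfsg.Agent.Lib.Lead.SylTwoSym
open scoped Pointwise

theorem sq_eq {Ω : Type} [DecidableEq Ω] (z p q₁ q₂ c d₁ d₂ : Ω)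

    (h_z_p : z ≠ p)
    (h_z_q1 : z ≠ q₁)
    (h_z_q2 : z ≠ q₂)
    (h_z_c : z ≠ c)
    (h_z_d1 : z ≠ d₁)
    (h_z_d2 : z ≠ d₂)
    (h_p_z : p ≠ z)
    (h_p_q1 : p ≠ q₁)
    (h_p_q2 : p ≠ q₂)
    (h_p_c : p ≠ c)
    (h_p_d1 : p ≠ d₁)
    (h_p_d2 : p ≠ d₂)
    (h_q1_z : q₁ ≠ z)
    (h_q1_p : q₁ ≠ p)
    (h_q1_q2 : q₁ ≠ q₂)
    (h_q1_c : q₁ ≠ c)
    (h_q1_d1 : q₁ ≠ d₁)
    (h_q1_d2 : q₁ ≠ d₂)
    (h_q2_z : q₂ ≠ z)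
    (h_q2_p : q₂ ≠ p)
    (h_q2_q1 : q₂ ≠ q₁)
    (h_q2_c : q₂ ≠ c)
    (h_q2_d1 : q₂ ≠ d₁)
    (h_q2_d2 : q₂ ≠ d₂)
    (h_c_z : c ≠ z)
    (h_c_p : c ≠ p)
    (h_c_q1 : c ≠ q₁)
    (h_c_q2 : c ≠ q₂)
    (h_c_d1 : c ≠ d₁)
    (h_c_d2 : c ≠ d₂)
    (h_d1_z : d₁ ≠ z)
    (h_d1_p : d₁ ≠ p)
    (h_d1_q1 : d₁ ≠ q₁)
    (h_d1_q2 : d₁ ≠ q₂)
    (h_d1_c : d₁ ≠ c)
    (h_d1_d2 : d₁ ≠ d₂)
    (h_d2_z : d₂ ≠ z)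
    (h_d2_p : d₂ ≠ p)
    (h_d2_q1 : d₂ ≠ q₁)
    (h_d2_q2 : d₂ ≠ q₂)
    (h_d2_c : d₂ ≠ c)
    (h_d2_d1 : d₂ ≠ d₁)
    : ((swap z p * swap q₁ q₂) * (swap z c * swap d₁ d₂)) ^ 2 = swap z c * swap z p := by
  ext x
  simp only [pow_two, Perm.mul_apply]
  by_cases hx_z : x = z
  · subst hx_z
    simp [swap_apply_of_ne_of_ne, *]
  by_cases hx_p : x = p
  · subst hx_p
    simp [swap_apply_of_ne_of_ne, *]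
  by_cases hx_q1 : x = q₁
  · subst hx_q1
    simp [swap_apply_of_ne_of_ne, *]
  by_cases hx_q2 : x = q₂
  · subst hx_q2
    simp [swap_apply_of_ne_of_ne, *]
  by_cases hx_c : x = c
  · subst hx_c
    simp [swap_apply_of_ne_of_ne, *]
  by_cases hx_d1 : x = d₁
  · subst hx_d1
    simp [swap_apply_of_ne_of_ne, *]
  by_cases hx_d2 : x = d₂
  · subst hx_d2
    simp [swap_apply_of_ne_of_ne, *]
  simp [swap_apply_of_ne_of_ne, *]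

theorem main : Cfsg.Agent.Lib.Lead.MaxStmt.ThreeCycleSq := by
  intro Ω _ _ z p q₁ q₂ c d₁ d₂ hnd
  simp only [List.nodup_cons, List.mem_cons, List.not_mem_nil, or_false, not_or,
    List.nodup_nil, and_true, not_false_eq_true] at hnd
  obtain ⟨⟨h1, h2, h3, h4, h5, h6⟩, ⟨h7, h8, h9, h10, h11⟩, ⟨h12, h13, h14, h15⟩,
    ⟨h16, h17, h18⟩, ⟨h19, h20⟩, h21⟩ := hnd
  rw [sq_eq z p q₁ q₂ c d₁ d₂ h1 h2 h3 h4 h5 h6 (Ne.symm h1) h7 h8 h9 h10 h11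
    (Ne.symm h2) (Ne.symm h7) h12 h13 h14 h15 (Ne.symm h3) (Ne.symm h8) (Ne.symm h12) h16 h17 h18
    (Ne.symm h4) (Ne.symm h9) (Ne.symm h13) (Ne.symm h16) h19 h20
    (Ne.symm h5) (Ne.symm h10) (Ne.symm h14) (Ne.symm h17) (Ne.symm h19) h21
    (Ne.symm h6) (Ne.symm h11) (Ne.symm h15) (Ne.symm h18) (Ne.symm h20) (Ne.symm h21)]
  exact Equiv.Perm.isThreeCycle_swap_mul_swap_same h4 h1 (Ne.symm h9)

end Cfsg.Agent.Lib.Helper64.MaxTCS
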