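import Cfsg.Agent.Lib.Helper83.MclStmt

/-!
# Piece LIN of S5075 (McLaughlin): a relation additive off a hyperplane is the graph of a
linear map.
-/

set_option autoImplicit false

namespace Cfsg.Agent.Lib.Helper64.MclLIN

universe u v w

section
variable {F : Type u} [Field F] {X : Type v} [AddCommGroup X] [Module F X]
  {Y : Type w} [AddCommGroup Y] [Module F Y]

/-- Normal form of an element of the span of the graph of `P`. -/
def NF (χ : X →ₗ[F] F) (P : X → Y → Prop) (g : X × Y) : Prop :=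
  g = 0 ∨ P g.1 g.2 ∨
    ∃ x₁ ξ₁ x₂ ξ₂, P x₁ ξ₁ ∧ P x₂ ξ₂ ∧ χ (x₁ + x₂) = 0 ∧ g = (x₁ + x₂, ξ₁ + ξ₂)

theorem nf_add_gen (χ : X →ₗ[F] F) (P : X → Y → Prop) (h2 : (2 : F) ≠ 0)
    (hχ : ∀ x ξ, P x ξ → χ x ≠ 0)
    (hadd : ∀ x ξ x' ξ', P x ξ → P x' ξ' → χ (x + x') ≠ 0 → P (x + x') (ξ + ξ'))
    (g : X × Y) (hg : NF χ P g) (x : X) (ξ : Y) (hx : P x ξ) : NF χ P (g + (x, ξ)) := by
  rcases hg with rfl | hg | ⟨x₁, ξ₁, x₂, ξ₂, h₁, h₂, h0, rfl⟩
  · right; left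
    rw [zero_add]; exact hx
  · by_cases hc : χ (g.1 + x) = 0
    · right; right
      exact ⟨g.1, g.2, x, ξ, hg, hx, hc, rfl⟩
    · right; left
      exact hadd _ _ _ _ hg hx hc
  · have key : χ (x₁ + x) ≠ 0 ∨ χ (x₂ + x) ≠ 0 := by
      by_contra hcon
      push Not at hcon
      obtain ⟨ha, hb⟩ := hcon
      have h1 := hχ x₁ ξ₁ h₁
      rw [map_add] at ha hb h0
      apply h1
      have h3 : (2 : F) * χ x₁ = 0 := by linear_combination ha - hb + h0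
      rcases mul_eq_zero.1 h3 with h | h
      · exact absurd h h2
      · exact h
    rcases key with hk | hk
    · have hP := hadd _ _ _ _ h₁ hx hk
      have e : ((x₁ + x₂, ξ₁ + ξ₂) : X × Y) + (x, ξ) = (x₁ + x + x₂, ξ₁ + ξ + ξ₂) := by
        rw [Prod.mk_add_mk, add_right_comm x₁ x₂ x, add_right_comm ξ₁ ξ₂ ξ]
      rw [e]
      by_cases hc : χ ((x₁ + x) + x₂) = 0
      · right; right
        exact ⟨x₁ + x, ξ₁ + ξ, x₂, ξ₂, hP, h₂, hc, rfl⟩
      · right; left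
        exact hadd _ _ _ _ hP h₂ hc
    · have hP := hadd _ _ _ _ h₂ hx hk
      have e : ((x₁ + x₂, ξ₁ + ξ₂) : X × Y) + (x, ξ) = (x₂ + x + x₁, ξ₂ + ξ + ξ₁) := by
        rw [Prod.mk_add_mk, add_comm x₁ x₂, add_comm ξ₁ ξ₂, add_right_comm x₂ x₁ x,
          add_right_comm ξ₂ ξ₁ ξ]
      rw [e]
      by_cases hc : χ ((x₂ + x) + x₁) = 0
      · right; right
        exact ⟨x₂ + x, ξ₂ + ξ, x₁, ξ₁, hP, h₁, hc, rfl⟩
      · right; left
        exact hadd _ _ _ _ hP h₁ hc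

theorem nf_add (χ : X →ₗ[F] F) (P : X → Y → Prop) (h2 : (2 : F) ≠ 0)
    (hχ : ∀ x ξ, P x ξ → χ x ≠ 0)
    (hadd : ∀ x ξ x' ξ', P x ξ → P x' ξ' → χ (x + x') ≠ 0 → P (x + x') (ξ + ξ'))
    (g g' : X × Y) (hg : NF χ P g) (hg' : NF χ P g') : NF χ P (g + g') := by
  rcases hg' with rfl | hP | ⟨x₁, ξ₁, x₂, ξ₂, h₁, h₂, h0, rfl⟩
  · rw [add_zero]; exact hg
  · exact nf_add_gen χ P h2 hχ hadd g hg g'.1 g'.2 hP
  · have e : g + ((x₁ + x₂, ξ₁ + ξ₂) : X × Y) = (g + (x₁, ξ₁)) + (x₂, ξ₂) := by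
      rw [add_assoc]; rfl
    rw [e]
    exact nf_add_gen χ P h2 hχ hadd _ (nf_add_gen χ P h2 hχ hadd g hg x₁ ξ₁ h₁) x₂ ξ₂ h₂

theorem nf_smul (χ : X →ₗ[F] F) (P : X → Y → Prop)
    (hsmul : ∀ x ξ (c : F), c ≠ 0 → P x ξ → P (c • x) (c • ξ))
    (c : F) (g : X × Y) (hg : NF χ P g) : NF χ P (c • g) := by
  by_cases hc : c = 0
  · left; rw [hc, zero_smul]
  rcases hg with rfl | hP | ⟨x₁, ξ₁, x₂, ξ₂, h₁, h₂, h0, rfl⟩
  · left; rw [smul_zero]
  · right; left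
    exact hsmul _ _ c hc hP
  · right; right
    refine ⟨c • x₁, c • ξ₁, c • x₂, c • ξ₂, hsmul _ _ c hc h₁, hsmul _ _ c hc h₂, ?_, ?_⟩
    · rw [← smul_add, map_smul, h0, smul_zero]
    · rw [Prod.smul_mk, smul_add, smul_add]

end

theorem main : Cfsg.Agent.Lib.Helper83.MclStmt.LIN.{u, v, w} := by
  intro F _ X _ _ Y _ _ χ P h2 hχ hadd hsmul huniq
  obtain ⟨G, hG⟩ : ∃ G : Submodule F (X × Y),
      G = Submodule.span F {g : X × Y | P g.1 g.2} := ⟨_, rfl⟩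
  have hnf : ∀ g ∈ G, NF χ P g := by
    intro g hg
    rw [hG] at hg
    induction hg using Submodule.span_induction with
    | mem g hg => exact Or.inr (Or.inl hg)
    | zero => exact Or.inl rfl
    | add g g' _ _ ih ih' => exact nf_add χ P h2 hχ hadd g g' ih ih'
    | smul c g _ ih => exact nf_smul χ P hsmul c g ih
  have hgraph : ∀ (x : X × Y) (_ : x ∈ G) (_ : x.fst = 0), x.snd = 0 := by
    intro g hg h0
    rcases hnf g hg with rfl | hP | ⟨x₁, ξ₁, x₂, ξ₂, h₁, h₂, hc, rfl⟩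
    · rfl
    · exfalso; apply hχ _ _ hP; rw [h0, map_zero]
    · have h0' : x₁ + x₂ = 0 := h0
      have hx2 : x₂ = -x₁ := by rw [eq_neg_iff_add_eq_zero, add_comm]; exact h0'
      have h3 := hsmul x₁ ξ₁ (-1) (by simp) h₁
      rw [neg_one_smul, neg_one_smul] at h3
      rw [hx2] at h₂
      have h4 := huniq _ _ _ h₂ h3
      show ξ₁ + ξ₂ = 0
      rw [h4, add_neg_cancel]
  obtain ⟨β, hβ⟩ := LinearMap.exists_extend (G.toLinearPMapAux hgraph)
  have hmem : ∀ x (_ : x ∈ G.map (LinearMap.fst F X Y)), (x, β x) ∈ G := by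
    intro x hx
    have h1 := Submodule.valFromGraph_mem hgraph hx
    have h2 : β x = Submodule.valFromGraph hgraph hx := by
      have h5 := congrArg (fun f => f ⟨x, hx⟩) hβ
      exact h5
    rw [h2]; exact h1
  refine ⟨β, ?_, ?_⟩
  · intro x ξ hP
    have hxG : (x, ξ) ∈ G := by rw [hG]; exact Submodule.subset_span hP
    have hx : x ∈ G.map (LinearMap.fst F X Y) := ⟨(x, ξ), hxG, rfl⟩
    have h1 := hmem x hx
    have h3 := hgraph _ (G.sub_mem h1 hxG) (by simp)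
    have h4 : β x - ξ = 0 := h3
    exact sub_eq_zero.1 h4
  · intro x hx hc
    have hx' : x ∈ G.map (LinearMap.fst F X Y) := by
      rw [hG, Submodule.map_span]
      refine Submodule.span_mono ?_ hx
      rintro y ⟨ξ, hP⟩
      exact ⟨(y, ξ), hP, rfl⟩
    rcases hnf _ (hmem x hx') with h0 | hP | ⟨x₁, ξ₁, x₂, ξ₂, h₁, h₂, hc', he⟩
    · exfalso; apply hc
      have h6 : x = 0 := congrArg Prod.fst h0
      rw [h6, map_zero]
    · exact hP
    · exfalso; apply hc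
      have h6 : x = x₁ + x₂ := congrArg Prod.fst he
      rw [h6]; exact hc'

end Cfsg.Agent.Lib.Helper64.MclLIN
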