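import Cfsg.Agent.Lib.Helper64.OffMain

/-!
Quadratic 2-subnormal offenders (helper64, S1935): potential argument, the group-theoretic
"dagger" step, Timmesfeld replacement, and the abstract core theorem.
-/

set_option autoImplicit false
set_option linter.unusedSimpArgs false

namespace Cfsg.Agent.Lib.Helper64.OffCore

open Cfsg.Agent.Lib.Helper64.OffId Cfsg.Agent.Lib.Helper64.OffLim
  Cfsg.Agent.Lib.Helper64.OffReal Cfsg.Agent.Lib.Helper64.OffMain

variable {Γ R : Type*} [Group Γ] [Ring R]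

/-- The depth filtration of `R` relative to a nilpotency bound `N`. -/
def fil (ρ : Γ →* R) (N k : ℕ) : AddSubgroup R where
  carrier := {x | ∀ l1 l2 : List Γ, N ≤ l1.length + l2.length + k + 1 →
    (l1.map (fun g => ρ g - 1)).prod * x * (l2.map (fun g => ρ g - 1)).prod = 0}
  zero_mem' := by intro l1 l2 _; rw [mul_zero, zero_mul]
  add_mem' := by
    intro a b ha hb l1 l2 h; rw [mul_add, add_mul, ha l1 l2 h, hb l1 l2 h, add_zero]
  neg_mem' := by intro a ha l1 l2 h; rw [mul_neg, neg_mul, ha l1 l2 h, neg_zero]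

lemma prod_zero_of_le {ρ : Γ →* R} {N : ℕ}
    (hN : ∀ l : List Γ, l.length = N → (l.map (fun g => ρ g - 1)).prod = 0)
    (l : List Γ) (h : N ≤ l.length) : (l.map (fun g => ρ g - 1)).prod = 0 := by
  have e : l = l.take N ++ l.drop N := (List.take_append_drop N l).symm
  rw [e, List.map_append, List.prod_append,
    hN (l.take N) (by rw [List.length_take]; omega), zero_mul]

lemma fil_anti (ρ : Γ →* R) (N k : ℕ) : fil ρ N (k + 1) ≤ fil ρ N k :=
  fun _ hx l1 l2 h => hx l1 l2 (by omega)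

lemma fil_N (ρ : Γ →* R) (N : ℕ) : fil ρ N N = ⊥ := by
  rw [eq_bot_iff]; intro x hx
  have := hx [] [] (by simp)
  simpa using this

lemma sub_one_mem_fil {ρ : Γ →* R} {N : ℕ}
    (hN : ∀ l : List Γ, l.length = N → (l.map (fun g => ρ g - 1)).prod = 0) (g : Γ) :
    ρ g - 1 ∈ fil ρ N 0 := by
  intro l1 l2 h
  have := prod_zero_of_le hN (l1 ++ g :: l2) (by simp only [List.length_append, List.length_cons]; omega)
  rw [List.map_append, List.prod_append, List.map_cons, List.prod_cons, ← mul_assoc] at this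
  exact this

lemma fil_mul_right (ρ : Γ →* R) (N k : ℕ) (g : Γ) {x : R} (hx : x ∈ fil ρ N k) :
    x * (ρ g - 1) ∈ fil ρ N (k + 1) := by
  intro l1 l2 h
  have := hx l1 (g :: l2) (by simp only [List.length_cons]; omega)
  rw [List.map_cons, List.prod_cons] at this
  rw [← this]; simp only [mul_assoc]

lemma fil_mul_left (ρ : Γ →* R) (N k : ℕ) (g : Γ) {x : R} (hx : x ∈ fil ρ N k) :
    (ρ g - 1) * x ∈ fil ρ N (k + 1) := by
  intro l1 l2 h
  have := hx (l1 ++ [g]) l2 (by simp only [List.length_append, List.length_cons, List.length_nil]; omega)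
  rw [List.map_append, List.prod_append, List.map_singleton, List.prod_singleton] at this
  rw [← this]; simp only [mul_assoc]

lemma dsub_le_fil {ρ : Γ →* R} {N : ℕ}
    (hN : ∀ l : List Γ, l.length = N → (l.map (fun g => ρ g - 1)).prod = 0) (A : Subgroup Γ) :
    dsub ρ A ≤ fil ρ N 0 := by
  refine (AddSubgroup.closure_le _).2 ?_
  rintro _ ⟨a, _, rfl⟩
  exact sub_one_mem_fil hN a

/-- The potential. -/
noncomputable def Phi (ρ : Γ →* R) (N : ℕ) (c : AddSubgroup R) : ℕ :=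
  ∑ k ∈ Finset.range N, Nat.card ↥(c ⊓ fil ρ N k)

/-- The group-theoretic step: a non-2-subnormal `A` admits a conjugate element `b` not
normalizing `A` with `A^b` and `A^(b⁻¹)` normalizing `A`. -/
theorem dagger {Γ : Type*} [Group Γ] [Finite Γ] [Group.IsNilpotent Γ] (A : Subgroup Γ)
    (hnot : ¬ ∀ g : Γ, ∀ a ∈ A, g * a * g⁻¹ ∈ Subgroup.normalizer (A : Set Γ)) :
    ∃ b : Γ, (∃ g : Γ, ∃ a₀ ∈ A, b = g * a₀ * g⁻¹) ∧ b ∉ Subgroup.normalizer (A : Set Γ) ∧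
      (∀ a' ∈ A, b * a' * b⁻¹ ∈ Subgroup.normalizer (A : Set Γ)) ∧
      (∀ a' ∈ A, b⁻¹ * a' * b ∈ Subgroup.normalizer (A : Set Γ)) := by
  classical
  obtain ⟨S, hSdef⟩ : ∃ S : Set (Subgroup Γ), S = {H | A ≤ H ∧ ∀ g : Γ,
      (∀ a ∈ A, g * a * g⁻¹ ∈ H) → ∀ a ∈ A, g * a * g⁻¹ ∈ Subgroup.normalizer (A : Set Γ)} :=
    ⟨_, rfl⟩
  have hS : S.Nonempty := by
    refine ⟨Subgroup.normalizer (A : Set Γ), ?_⟩
    rw [hSdef]
    exact ⟨Subgroup.le_normalizer, fun g hg => hg⟩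
  obtain ⟨H, hH, hHmax⟩ := Set.exists_max_image S (fun H => Nat.card ↥H) (Set.toFinite S) hS
  have hH' : A ≤ H ∧ ∀ g : Γ, (∀ a ∈ A, g * a * g⁻¹ ∈ H) →
      ∀ a ∈ A, g * a * g⁻¹ ∈ Subgroup.normalizer (A : Set Γ) := by
    rw [hSdef] at hH; exact hH
  have hHtop : H ≠ ⊤ := by
    rintro rfl
    exact hnot (fun g => hH'.2 g (fun a _ => Subgroup.mem_top _))
  have hlt : H < Subgroup.normalizer (H : Set Γ) :=
    Group.normalizerCondition_of_isNilpotent H (lt_top_iff_ne_top.2 hHtop)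
  have hK : Subgroup.normalizer (H : Set Γ) ∉ S := by
    intro hK
    have h1 := hHmax _ hK
    have : H = Subgroup.normalizer (H : Set Γ) := Subgroup.eq_of_le_of_card_ge hlt.le h1
    exact hlt.ne this
  have hAK : A ≤ Subgroup.normalizer (H : Set Γ) := hH'.1.trans hlt.le
  have hex : ∃ g : Γ, (∀ a ∈ A, g * a * g⁻¹ ∈ Subgroup.normalizer (H : Set Γ)) ∧
      ∃ a₀ ∈ A, g * a₀ * g⁻¹ ∉ Subgroup.normalizer (A : Set Γ) := by
    by_contra hcon
    push Not at hcon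
    apply hK
    rw [hSdef]
    exact ⟨hAK, hcon⟩
  obtain ⟨g, hg, a₀, ha₀, hb⟩ := hex
  have hbK := hg a₀ ha₀
  refine ⟨g * a₀ * g⁻¹, ⟨g, a₀, ha₀, rfl⟩, hb, ?_, ?_⟩
  · intro a' ha'
    refine hH'.2 (g * a₀ * g⁻¹) ?_ a' ha'
    intro a ha
    exact (Subgroup.mem_normalizer_iff.1 hbK a).1 (hH'.1 ha)
  · intro a' ha'
    have hbK' := (Subgroup.normalizer (H : Set Γ)).inv_mem hbK
    have := hH'.2 (g * a₀ * g⁻¹)⁻¹
      (fun a ha => (Subgroup.mem_normalizer_iff.1 hbK' a).1 (hH'.1 ha)) a' ha'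
    rwa [inv_inv] at this

lemma conj_mem_of_stable {ρ : Γ →* R} (hinj : Function.Injective ρ) {A : Subgroup Γ}
    (hA : Quad ρ A) {b : Γ} (hb : (ρ b - 1) * (ρ b - 1) = 0)
    (hst : ∀ x ∈ dsub ρ A, x * (ρ b - 1) - (ρ b - 1) * x ∈ dsub ρ A ∧
      (ρ b - 1) * x * (ρ b - 1) ∈ dsub ρ A) {x : Γ} (hx : x ∈ A) :
    b * x * b⁻¹ ∈ A ∧ b⁻¹ * x * b ∈ A := by
  have hβp : 1 + (ρ b - 1) = ρ b := by abel
  have hβm : 1 - (ρ b - 1) = ρ b⁻¹ := by
    have := rho_inv_of_sq ρ b hb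
    rw [sub_eq_iff_eq_add] at this; rw [this]; abel
  have hαp : 1 + (ρ x - 1) = ρ x := by abel
  have hα : ρ x - 1 ∈ dsub ρ A := sub_one_mem_dsub ρ hx
  obtain ⟨hg, he⟩ := hst _ hα
  constructor
  · have e : ρ (b * x * b⁻¹) - 1 = (ρ x - 1) - ((ρ x - 1) * (ρ b - 1) - (ρ b - 1) * (ρ x - 1))
        - (ρ b - 1) * (ρ x - 1) * (ρ b - 1) := by
      have := id_conjp (ρ x - 1) (ρ b - 1) hb
      rw [hβp, hβm, hαp] at this
      rw [map_mul, map_mul, this]; abel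
    have hmem : ρ (b * x * b⁻¹) - 1 ∈ dsub ρ A := by
      rw [e]; exact (dsub ρ A).sub_mem ((dsub ρ A).sub_mem hα hg) he
    obtain ⟨a, ha, hae⟩ := (mem_dsub hA).1 hmem
    have : a = b * x * b⁻¹ := hinj (sub_left_injective hae)
    rw [← this]; exact ha
  · have e : ρ (b⁻¹ * x * b) - 1 = (ρ x - 1) + ((ρ x - 1) * (ρ b - 1) - (ρ b - 1) * (ρ x - 1))
        - (ρ b - 1) * (ρ x - 1) * (ρ b - 1) := by
      have := id_conjm (ρ x - 1) (ρ b - 1) hb
      rw [hβp, hβm, hαp] at this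
      rw [map_mul, map_mul, this]; abel
    have hmem : ρ (b⁻¹ * x * b) - 1 ∈ dsub ρ A := by
      rw [e]; exact (dsub ρ A).sub_mem ((dsub ρ A).add_mem hα hg) he
    obtain ⟨a, ha, hae⟩ := (mem_dsub hA).1 hmem
    have : a = b⁻¹ * x * b := hinj (sub_left_injective hae)
    rw [← this]; exact ha

/-- A potential-maximal quadratic offender is normalized by all its conjugates. -/
theorem norm_of_max (W : Type*) [AddCommGroup W] [Module R W] [Finite W] [Finite Γ] [Finite R]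
    [Group.IsNilpotent Γ] (ρ : Γ →* R) (hinj : Function.Injective ρ)
    (m : ℕ) (hm : ∀ x : R, m • (x + x) = x)
    (N : ℕ) (hN : ∀ l : List Γ, l.length = N → (l.map (fun g => ρ g - 1)).prod = 0)
    (A : Subgroup Γ) (hA1 : A ≠ ⊥) (hAq : Quad ρ A)
    (hAoff : Nat.card W ≤ Nat.card ↥A * Nat.card ↥(annS W (dsub ρ A)))
    (hmax : ∀ B : Subgroup Γ, B ≠ ⊥ → Quad ρ B →
      Nat.card W ≤ Nat.card ↥B * Nat.card ↥(annS W (dsub ρ B)) →
      Phi ρ N (dsub ρ B) ≤ Phi ρ N (dsub ρ A)) :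
    ∀ g : Γ, ∀ a ∈ A, g * a * g⁻¹ ∈ Subgroup.normalizer (A : Set Γ) := by
  by_contra hnot
  obtain ⟨b, ⟨g, a₀, ha₀, hbdef⟩, hbn, hb1, hb2⟩ := dagger A hnot
  have hbq : (ρ b - 1) * (ρ b - 1) = 0 := by
    have e : ρ b - 1 = ρ g * (ρ a₀ - 1) * ρ g⁻¹ := by
      have e2' : ρ g * ρ g⁻¹ = 1 := by rw [← map_mul, mul_inv_cancel, map_one]
      rw [hbdef, map_mul, map_mul, mul_sub, sub_mul, mul_one, e2']
    have e2 : ρ g⁻¹ * ρ g = 1 := by rw [← map_mul, inv_mul_cancel, map_one]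
    rw [e]
    calc ρ g * (ρ a₀ - 1) * ρ g⁻¹ * (ρ g * (ρ a₀ - 1) * ρ g⁻¹)
        = ρ g * (ρ a₀ - 1) * (ρ g⁻¹ * ρ g) * (ρ a₀ - 1) * ρ g⁻¹ := by simp only [mul_assoc]
      _ = ρ g * ((ρ a₀ - 1) * (ρ a₀ - 1)) * ρ g⁻¹ := by rw [e2, mul_one]; simp only [mul_assoc]
      _ = 0 := by rw [hAq a₀ ha₀ a₀ ha₀, mul_zero, zero_mul]
  have h1 : ∀ a ∈ A, ∀ a' ∈ A, (b⁻¹ * a' * b) * a * (b⁻¹ * a' * b)⁻¹ ∈ A :=
    fun a ha a' ha' => (Subgroup.mem_normalizer_iff.1 (hb2 a' ha') a).1 ha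
  have h2 : ∀ a ∈ A, ∀ a' ∈ A, (b * a' * b⁻¹) * a * (b * a' * b⁻¹)⁻¹ ∈ A :=
    fun a ha a' ha' => (Subgroup.mem_normalizer_iff.1 (hb1 a' ha') a).1 ha
  obtain ⟨A', hA'q, hA'd, hA'ann⟩ := exists_star W ρ m hm A hAq b hbq h1 h2
  have hcard : Nat.card ↥A ≤ Nat.card ↥A' := by
    rw [← card_dsub hinj hAq, ← card_dsub hinj hA'q, hA'd]
    exact card_le_card_Lim hbq _
  have hA'1 : A' ≠ ⊥ := by
    rw [← Subgroup.one_lt_card_iff_ne_bot]
    exact lt_of_lt_of_le ((Subgroup.one_lt_card_iff_ne_bot _).2 hA1) hcard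
  have hA'off : Nat.card W ≤ Nat.card ↥A' * Nat.card ↥(annS W (dsub ρ A')) :=
    hAoff.trans (Nat.mul_le_mul hcard hA'ann)
  have hle := hmax A' hA'1 hA'q hA'off
  rw [hA'd] at hle
  have hst := stable_of_sum_le hbq (dsub ρ A) (fil ρ N) N (fil_anti ρ N) (fil_N ρ N)
    (dsub_le_fil hN A) (fun k x hx => fil_mul_right ρ N k b hx)
    (fun k x hx => fil_mul_left ρ N k b hx) hle
  apply hbn
  rw [Subgroup.mem_normalizer_iff]
  intro x
  constructor
  · intro hx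
    exact (conj_mem_of_stable hinj hAq hbq hst hx).1
  · intro hx
    have := (conj_mem_of_stable hinj hAq hbq hst hx).2
    have e : b⁻¹ * (b * x * b⁻¹) * b = x := by group
    rwa [e] at this

section timm

variable (W : Type*) [AddCommGroup W] [Module R W]

/-- The subgroup `A_u` of Timmesfeld's replacement argument. -/
def AuSub (ρ : Γ →* R) (E : Subgroup Γ) (u : W) : Subgroup Γ where
  carrier := {x | x ∈ E ∧ ∀ c ∈ E, ρ x • ((ρ c - 1) • u) = (ρ c - 1) • u}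
  one_mem' := ⟨E.one_mem, fun c _ => by rw [map_one, one_smul]⟩
  mul_mem' := by
    rintro x y ⟨hx, hx'⟩ ⟨hy, hy'⟩
    exact ⟨E.mul_mem hx hy, fun c hc => by rw [map_mul, mul_smul, hy' c hc, hx' c hc]⟩
  inv_mem' := by
    rintro x ⟨hx, hx'⟩
    refine ⟨E.inv_mem hx, fun c hc => ?_⟩
    have h1 : ρ x⁻¹ * ρ x = 1 := by rw [← map_mul, inv_mul_cancel, map_one]
    calc ρ x⁻¹ • ((ρ c - 1) • u) = ρ x⁻¹ • (ρ x • ((ρ c - 1) • u)) := by rw [hx' c hc]
      _ = (ρ c - 1) • u := by rw [← mul_smul, h1, one_smul]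

lemma exists_j (ρ : Γ →* R) (E : Subgroup Γ)
    (hEc : ∀ x ∈ E, ∀ y ∈ E, x * y = y * x) (u : W) :
    ∃ j : (↥E ⧸ (AuSub W ρ E u).subgroupOf E) × ↥(annS W (dsub ρ E)) →
        ↥(annS W (dsub ρ (AuSub W ρ E u))),
      Function.Injective j ∧
      ∀ q w, (j (q, w)).1 = (ρ ((q.out : ↥E) : Γ) - 1) • u + w.1 := by
  classical
  have hmem : ∀ (e : Γ) (_ : e ∈ E) (w : W) (_ : w ∈ annS W (dsub ρ E)),
      (ρ e - 1) • u + w ∈ annS W (dsub ρ (AuSub W ρ E u)) := by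
    intro e he w hw
    rw [mem_annS_dsub]
    intro x hx
    have hwx : ρ x • w = w := (mem_annS_dsub.1 hw) x hx.1
    rw [smul_add, hx.2 e he, hwx]
  refine ⟨fun z => ⟨(ρ ((z.1.out : ↥E) : Γ) - 1) • u + z.2.1,
    hmem _ (z.1.out : ↥E).2 _ z.2.2⟩, ?_, fun q w => rfl⟩
  rintro ⟨q, w⟩ ⟨q', w'⟩ h
  have h' : (ρ ((q.out : ↥E) : Γ) - 1) • u + w.1 = (ρ ((q'.out : ↥E) : Γ) - 1) • u + w'.1 :=
    congrArg Subtype.val h
  obtain ⟨e, hedef⟩ : ∃ e : ↥E, e = q.out := ⟨_, rfl⟩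
  obtain ⟨e', he'def⟩ : ∃ e' : ↥E, e' = q'.out := ⟨_, rfl⟩
  rw [← hedef, ← he'def] at h'
  have hdiff : (ρ (e' : Γ) - ρ (e : Γ)) • u = w.1 - w'.1 := by
    have : (ρ (e' : Γ) - ρ (e : Γ)) • u =
        ((ρ (e' : Γ) - 1) • u + w'.1) - ((ρ (e : Γ) - 1) • u + w.1) + (w.1 - w'.1) := by
      simp only [sub_smul, one_smul]; abel
    rw [this, h', sub_self, zero_add]
  have hdiffmem : (ρ (e' : Γ) - ρ (e : Γ)) • u ∈ annS W (dsub ρ E) := by
    rw [hdiff]; exact sub_mem w.2 w'.2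
  have hAu : (e : Γ)⁻¹ * (e' : Γ) ∈ AuSub W ρ E u := by
    refine ⟨E.mul_mem (E.inv_mem e.2) e'.2, fun c hc => ?_⟩
    have hcomm : ∀ x ∈ E, ρ x * (ρ c - 1) = (ρ c - 1) * ρ x := by
      intro x hx
      rw [mul_sub, sub_mul, mul_one, one_mul, ← map_mul, ← map_mul, hEc x hx c hc]
    have hfix : (ρ c - 1) • ((ρ (e' : Γ) - ρ (e : Γ)) • u) = 0 := by
      have := mem_annS_dsub.1 hdiffmem c hc
      rw [sub_smul, one_smul, this, sub_self]
    have key : ρ (e' : Γ) • ((ρ c - 1) • u) = ρ (e : Γ) • ((ρ c - 1) • u) := by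
      have : (ρ (e' : Γ) - ρ (e : Γ)) • ((ρ c - 1) • u) = 0 := by
        rw [← mul_smul, sub_mul, hcomm _ e'.2, hcomm _ e.2, ← mul_sub, mul_smul]; exact hfix
      rw [sub_smul, sub_eq_zero] at this; exact this
    have h1 : ρ (e : Γ)⁻¹ * ρ (e : Γ) = 1 := by rw [← map_mul, inv_mul_cancel, map_one]
    rw [map_mul, mul_smul, key, ← mul_smul, h1, one_smul]
  have hq : q = q' := by
    have h1 : ((e : ↥E) : ↥E ⧸ (AuSub W ρ E u).subgroupOf E) = (e' : ↥E) := by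
      rw [QuotientGroup.eq, Subgroup.mem_subgroupOf]
      exact hAu
    rw [hedef, he'def, QuotientGroup.out_eq', QuotientGroup.out_eq'] at h1
    exact h1
  subst hq
  have hee : e = e' := by rw [hedef, he'def]
  subst hee
  have hw : w = w' := Subtype.ext (add_left_cancel h')
  rw [hw]

lemma card_E_ann_le [Finite Γ] [Finite W] (ρ : Γ →* R) (E : Subgroup Γ)
    (hEc : ∀ x ∈ E, ∀ y ∈ E, x * y = y * x) (u : W) :
    Nat.card ↥E * Nat.card ↥(annS W (dsub ρ E)) ≤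
      Nat.card ↥(AuSub W ρ E u) * Nat.card ↥(annS W (dsub ρ (AuSub W ρ E u))) := by
  obtain ⟨j, hj, _⟩ := exists_j W ρ E hEc u
  have h1 := Nat.card_le_card_of_injective j hj
  rw [Nat.card_prod] at h1
  have hle : AuSub W ρ E u ≤ E := fun x hx => hx.1
  have h2 : Nat.card ↥E = Nat.card (↥E ⧸ (AuSub W ρ E u).subgroupOf E) *
      Nat.card ↥((AuSub W ρ E u).subgroupOf E) :=
    Subgroup.card_eq_card_quotient_mul_card_subgroup _
  have h3 : Nat.card ↥((AuSub W ρ E u).subgroupOf E) = Nat.card ↥(AuSub W ρ E u) :=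
    Nat.card_congr (Subgroup.subgroupOfEquivOfLe hle).toEquiv
  rw [h2, h3]
  calc Nat.card (↥E ⧸ (AuSub W ρ E u).subgroupOf E) * Nat.card ↥(AuSub W ρ E u) *
        Nat.card ↥(annS W (dsub ρ E))
      = Nat.card ↥(AuSub W ρ E u) * (Nat.card (↥E ⧸ (AuSub W ρ E u).subgroupOf E) *
        Nat.card ↥(annS W (dsub ρ E))) := by ring
    _ ≤ _ := Nat.mul_le_mul_left _ h1

/-- Timmesfeld replacement: an abelian offender yields a quadratic offender. -/
theorem timmesfeld [Finite Γ] [Finite W] (ρ : Γ →* R)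
    (hfaith : ∀ x : R, (∀ w : W, x • w = 0) → x = 0)
    (N : ℕ) (hN : ∀ l : List Γ, l.length = N → (l.map (fun g => ρ g - 1)).prod = 0) :
    ∀ n : ℕ, ∀ E : Subgroup Γ, Nat.card ↥E = n → E ≠ ⊥ →
      (∀ x ∈ E, ∀ y ∈ E, x * y = y * x) →
      Nat.card W ≤ Nat.card ↥E * Nat.card ↥(annS W (dsub ρ E)) →
      ∃ A : Subgroup Γ, A ≠ ⊥ ∧ Quad ρ A ∧
        Nat.card W ≤ Nat.card ↥A * Nat.card ↥(annS W (dsub ρ A)) := by
  intro n
  induction n using Nat.strong_induction_on with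
  | _ n ih =>
  intro E hn hE1 hEc hEoff
  by_cases hq : Quad ρ E
  · exact ⟨E, hE1, hq, hEoff⟩
  have hq' : ∃ a ∈ E, ∃ a' ∈ E, (ρ a - 1) * (ρ a' - 1) ≠ 0 := by
    by_contra hcon
    push Not at hcon
    exact hq hcon
  obtain ⟨a, ha, a', ha', hne⟩ := hq'
  have hexu : ∃ u : W, ((ρ a - 1) * (ρ a' - 1)) • u ≠ 0 := by
    by_contra hcon
    push Not at hcon
    exact hne (hfaith _ hcon)
  obtain ⟨u, hu⟩ := hexu
  have hAuE : AuSub W ρ E u ≤ E := fun x hx => hx.1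
  have haAu : a ∉ AuSub W ρ E u := by
    intro h
    have := h.2 a' ha'
    apply hu
    rw [mul_smul, sub_smul, one_smul, this, sub_self]
  have hlt : Nat.card ↥(AuSub W ρ E u) < n := by
    rw [← hn]
    have hne' : AuSub W ρ E u ≠ E := fun h => haAu (by rw [h]; exact ha)
    by_contra hge
    push Not at hge
    exact hne' (Subgroup.eq_of_le_of_card_ge hAuE hge)
  have hcount := card_E_ann_le W ρ E hEc u
  by_cases hAu1 : AuSub W ρ E u = ⊥
  · exfalso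
    obtain ⟨j, hj, hjval⟩ := exists_j W ρ E hEc u
    have hcardQ : Nat.card (↥E ⧸ (AuSub W ρ E u).subgroupOf E) = Nat.card ↥E := by
      have h2 := Subgroup.card_eq_card_quotient_mul_card_subgroup
        ((AuSub W ρ E u).subgroupOf E)
      have h3 : Nat.card ↥((AuSub W ρ E u).subgroupOf E) = 1 := by
        rw [Nat.card_congr (Subgroup.subgroupOfEquivOfLe hAuE).toEquiv, hAu1]
        exact Subgroup.card_bot
      rw [h3, mul_one] at h2; exact h2.symm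
    have hbij : Function.Bijective j := by
      apply hj.bijective_of_nat_card_le
      rw [Nat.card_prod, hcardQ]
      exact (Nat.card_le_card_of_injective _ Subtype.coe_injective).trans hEoff
    have hu_mem : u ∈ annS W (dsub ρ (AuSub W ρ E u)) := by
      rw [mem_annS_dsub, hAu1]
      intro x hx
      rw [Subgroup.mem_bot.1 hx, map_one, one_smul]
    obtain ⟨⟨q, w⟩, hqw⟩ := hbij.2 ⟨u, hu_mem⟩
    have hval : (ρ ((q.out : ↥E) : Γ) - 1) • u + w.1 = u := by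
      rw [← hjval q w, hqw]
    obtain ⟨e, hedef⟩ : ∃ e : ↥E, e = q.out := ⟨_, rfl⟩
    rw [← hedef] at hval
    have hv : ∀ c ∈ E, (ρ c - 1) • u = (ρ (e : Γ) - 1) • ((ρ c - 1) • u) := by
      intro c hc
      have hcw : (ρ c - 1) • w.1 = 0 := by
        have := mem_annS_dsub.1 w.2 c hc
        rw [sub_smul, one_smul, this, sub_self]
      have hcomm : (ρ c - 1) * (ρ (e : Γ) - 1) = (ρ (e : Γ) - 1) * (ρ c - 1) := by
        have hce : ρ c * ρ (e : Γ) = ρ (e : Γ) * ρ c := by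
          rw [← map_mul, ← map_mul, hEc c hc e e.2]
        have e1 : (ρ c - 1) * (ρ (e : Γ) - 1) = ρ c * ρ (e : Γ) - ρ c - ρ (e : Γ) + 1 := by
          noncomm_ring
        have e2 : (ρ (e : Γ) - 1) * (ρ c - 1) = ρ (e : Γ) * ρ c - ρ c - ρ (e : Γ) + 1 := by
          noncomm_ring
        rw [e1, e2, hce]
      calc (ρ c - 1) • u = (ρ c - 1) • ((ρ (e : Γ) - 1) • u + w.1) := by rw [hval]
        _ = (ρ (e : Γ) - 1) • ((ρ c - 1) • u) := by
          rw [smul_add, hcw, add_zero, ← mul_smul, hcomm, mul_smul]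
    have hpow : ∀ (k : ℕ) (c : Γ), c ∈ E → (ρ c - 1) • u =
        ((List.replicate k (e : Γ)).map (fun g => ρ g - 1)).prod • ((ρ c - 1) • u) := by
      intro k
      induction k with
      | zero => intro c hc; simp
      | succ k ihk =>
        intro c hc
        rw [List.replicate_succ, List.map_cons, List.prod_cons, mul_smul, ← ihk c hc]
        exact hv c hc
    have hzero : ∀ c ∈ E, (ρ c - 1) • u = 0 := by
      intro c hc
      rw [hpow N c hc, hN _ (List.length_replicate ..), zero_smul]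
    apply hu
    rw [mul_smul, hzero a' ha', smul_zero]
  · exact ih _ hlt (AuSub W ρ E u) rfl hAu1
      (fun x hx y hy => hEc x (hAuE hx) y (hAuE hy)) (hEoff.trans hcount)

/-- The abstract core theorem: existence of a quadratic offender normalized by all its
conjugates. -/
theorem core [Finite W] [Finite Γ] [Finite R] [Group.IsNilpotent Γ]
    (ρ : Γ →* R) (hinj : Function.Injective ρ)
    (hfaith : ∀ x : R, (∀ w : W, x • w = 0) → x = 0)
    (m : ℕ) (hm : ∀ x : R, m • (x + x) = x)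
    (N : ℕ) (hN : ∀ l : List Γ, l.length = N → (l.map (fun g => ρ g - 1)).prod = 0)
    (E : Subgroup Γ) (hE1 : E ≠ ⊥) (hEc : ∀ x ∈ E, ∀ y ∈ E, x * y = y * x)
    (hEoff : Nat.card W ≤ Nat.card ↥E * Nat.card ↥(annS W (dsub ρ E))) :
    ∃ A : Subgroup Γ, A ≠ ⊥ ∧ Quad ρ A ∧
      Nat.card W ≤ Nat.card ↥A * Nat.card ↥(annS W (dsub ρ A)) ∧
      ∀ g : Γ, ∀ a ∈ A, g * a * g⁻¹ ∈ Subgroup.normalizer (A : Set Γ) := by
  obtain ⟨A₁, h1, h2, h3⟩ := timmesfeld W ρ hfaith N hN _ E rfl hE1 hEc hEoff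
  obtain ⟨S, hSdef⟩ : ∃ S : Set (Subgroup Γ), S = {A | A ≠ ⊥ ∧ Quad ρ A ∧
      Nat.card W ≤ Nat.card ↥A * Nat.card ↥(annS W (dsub ρ A))} := ⟨_, rfl⟩
  have hS : S.Nonempty := ⟨A₁, by rw [hSdef]; exact ⟨h1, h2, h3⟩⟩
  obtain ⟨A, hA, hmax⟩ :=
    Set.exists_max_image S (fun A => Phi ρ N (dsub ρ A)) (Set.toFinite S) hS
  rw [hSdef] at hA
  obtain ⟨hA1, hAq, hAoff⟩ := hA
  refine ⟨A, hA1, hAq, hAoff, norm_of_max W ρ hinj m hm N hN A hA1 hAq hAoff ?_⟩
  intro B hB1 hBq hBoff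
  exact hmax B (by rw [hSdef]; exact ⟨hB1, hBq, hBoff⟩)

end timm

end Cfsg.Agent.Lib.Helper64.OffCore
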