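import Cfsg.Agent.Lib.Helper64.OffId

/-!
The "limit" construction for quadratic offenders (helper64, S1935), abstract ring part.

For `β` with `β * β = 0` and an additive subgroup `c` of a ring, `Lim β c` is the set of
`a + (a' β - β a') - β a'' β` with `a, a', a'' ∈ c`, `β a β ∈ c`, `a β - β a - β a' β ∈ c`.
-/

set_option autoImplicit false
set_option linter.unusedSimpArgs false

namespace Cfsg.Agent.Lib.Helper64.OffLim

open Cfsg.Agent.Lib.Helper64.OffId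

variable {R : Type*} [Ring R]

/-- The subgroup of triples over which the limit is parametrized. -/
def LimT (β : R) (c : AddSubgroup R) : AddSubgroup (R × R × R) where
  carrier := {t | t.1 ∈ c ∧ t.2.1 ∈ c ∧ t.2.2 ∈ c ∧ β * t.1 * β ∈ c ∧
    t.1 * β - β * t.1 - β * t.2.1 * β ∈ c}
  zero_mem' := by
    refine ⟨c.zero_mem, c.zero_mem, c.zero_mem, ?_, ?_⟩
    · simp
    · simp
  add_mem' := by
    rintro x y ⟨h1, h2, h3, h4, h5⟩ ⟨k1, k2, k3, k4, k5⟩
    refine ⟨c.add_mem h1 k1, c.add_mem h2 k2, c.add_mem h3 k3, ?_, ?_⟩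
    · have := c.add_mem h4 k4
      have e : β * (x + y).1 * β = β * x.1 * β + β * y.1 * β := by
        simp [mul_add, add_mul]
      rw [e]; exact this
    · have := c.add_mem h5 k5
      have e : (x + y).1 * β - β * (x + y).1 - β * (x + y).2.1 * β =
          (x.1 * β - β * x.1 - β * x.2.1 * β) + (y.1 * β - β * y.1 - β * y.2.1 * β) := by
        simp only [Prod.fst_add, Prod.snd_add, mul_add, add_mul]; abel
      rw [e]; exact this
  neg_mem' := by
    rintro x ⟨h1, h2, h3, h4, h5⟩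
    refine ⟨c.neg_mem h1, c.neg_mem h2, c.neg_mem h3, ?_, ?_⟩
    · have := c.neg_mem h4
      have e : β * (-x).1 * β = -(β * x.1 * β) := by simp
      rw [e]; exact this
    · have := c.neg_mem h5
      have e : (-x).1 * β - β * (-x).1 - β * (-x).2.1 * β =
          -(x.1 * β - β * x.1 - β * x.2.1 * β) := by
        simp only [Prod.fst_neg, Prod.snd_neg, mul_neg, neg_mul]; abel
      rw [e]; exact this

lemma mem_LimT {β : R} {c : AddSubgroup R} {a a' a'' : R} :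
    (a, a', a'') ∈ LimT β c ↔ a ∈ c ∧ a' ∈ c ∧ a'' ∈ c ∧ β * a * β ∈ c ∧
      a * β - β * a - β * a' * β ∈ c := Iff.rfl

/-- The parametrizing additive map. -/
def LimPsi (β : R) : R × R × R →+ R :=
  AddMonoidHom.mk' (fun t => t.1 + (t.2.1 * β - β * t.2.1) - β * t.2.2 * β)
    (by intro x y; simp only [Prod.fst_add, Prod.snd_add, mul_add, add_mul]; abel)

lemma LimPsi_apply (β : R) (a a' a'' : R) :
    LimPsi β (a, a', a'') = a + (a' * β - β * a') - β * a'' * β := rfl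

/-- The limit subgroup. -/
def Lim (β : R) (c : AddSubgroup R) : AddSubgroup R := (LimT β c).map (LimPsi β)

lemma mem_Lim {β : R} {c : AddSubgroup R} {x : R} :
    x ∈ Lim β c ↔ ∃ a a' a'', a ∈ c ∧ a' ∈ c ∧ a'' ∈ c ∧ β * a * β ∈ c ∧
      a * β - β * a - β * a' * β ∈ c ∧ a + (a' * β - β * a') - β * a'' * β = x := by
  constructor
  · rintro ⟨⟨a, a', a''⟩, ⟨h1, h2, h3, h4, h5⟩, rfl⟩
    exact ⟨a, a', a'', h1, h2, h3, h4, h5, rfl⟩
  · rintro ⟨a, a', a'', h1, h2, h3, h4, h5, rfl⟩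
    exact ⟨(a, a', a''), ⟨h1, h2, h3, h4, h5⟩, rfl⟩

lemma Lim_mono (β : R) {c c' : AddSubgroup R} (h : c ≤ c') : Lim β c ≤ Lim β c' := by
  intro x hx
  obtain ⟨a, a', a'', h1, h2, h3, h4, h5, rfl⟩ := mem_Lim.1 hx
  exact mem_Lim.2 ⟨a, a', a'', h h1, h h2, h h3, h h4, h h5, rfl⟩

lemma Lim_le_of_le (β : R) {c n : AddSubgroup R} (h : c ≤ n)
    (hg : ∀ x ∈ c, x * β - β * x ∈ n) (he : ∀ x ∈ c, β * x * β ∈ n) : Lim β c ≤ n := by
  intro x hx
  obtain ⟨a, a', a'', h1, h2, h3, h4, h5, rfl⟩ := mem_Lim.1 hx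
  exact n.sub_mem (n.add_mem (h h1) (hg a' h2)) (he a'' h3)

lemma eps_mem_Lim (β : R) {c : AddSubgroup R} {x : R} (hx : x ∈ c) : β * x * β ∈ Lim β c := by
  refine mem_Lim.2 ⟨0, 0, -x, c.zero_mem, c.zero_mem, c.neg_mem hx, ?_, ?_, ?_⟩
  · simp
  · simp
  · simp

lemma gam_mem_Lim (β : R) {c : AddSubgroup R} {x : R} (hx : x ∈ c) (hex : β * x * β ∈ c) :
    x * β - β * x ∈ Lim β c := by
  refine mem_Lim.2 ⟨0, x, 0, c.zero_mem, hx, c.zero_mem, ?_, ?_, ?_⟩
  · simp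
  · have := c.neg_mem hex; simpa using this
  · simp

lemma Lim_mul_Lim {β : R} (hβ : β * β = 0) {c : AddSubgroup R}
    (hcc : ∀ x ∈ c, ∀ y ∈ c, x * y = 0) :
    ∀ x ∈ Lim β c, ∀ y ∈ Lim β c, x * y = 0 := by
  intro x hx y hy
  obtain ⟨a, a', a'', h1, h2, h3, h4, h5, rfl⟩ := mem_Lim.1 hx
  obtain ⟨c0, c', c'', k1, k2, k3, k4, k5, rfl⟩ := mem_Lim.1 hy
  exact id_LL a a' a'' c0 c' c'' β (hcc a h1 c0 k1) (hcc a h1 c' k2) (hcc a' h2 c0 k1)
    (hcc a' h2 _ k5) hβ (hcc a' h2 c' k2) (hcc _ h5 c' k2) (hcc a h1 c'' k3) (hcc _ h5 c'' k3)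
    (hcc a'' h3 c0 k1) (hcc a'' h3 _ k5)

/-- General counting lemma: an injection `C × ker ↪ T` gives `|C| ≤ |f(T)|`. -/
lemma card_le_card_map_of_inj {M N C : Type*} [AddGroup M] [AddGroup N] [Finite M]
    (T : AddSubgroup M) (f : M →+ N) (j : C × ↥((f.domRestrict T).ker) → ↥T)
    (hj : Function.Injective j) : Nat.card C ≤ Nat.card ↥(T.map f) := by
  have h1 : Nat.card (C × ↥((f.domRestrict T).ker)) ≤ Nat.card ↥T :=
    Nat.card_le_card_of_injective j hj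
  rw [Nat.card_prod] at h1
  have h2 : Nat.card ↥((f.domRestrict T).ker) * (f.domRestrict T).ker.index = Nat.card ↥T :=
    AddSubgroup.card_mul_index _
  have h3 : (f.domRestrict T).ker.index = Nat.card ↥((f.domRestrict T).range) :=
    AddSubgroup.index_ker _
  have h4 : (f.domRestrict T).range = T.map f := AddMonoidHom.domRestrict_range ..
  have hpos : 0 < Nat.card ↥((f.domRestrict T).ker) := Nat.card_pos
  rw [h3, h4] at h2
  have h5 : Nat.card ↥((f.domRestrict T).ker) * Nat.card C ≤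
      Nat.card ↥((f.domRestrict T).ker) * Nat.card ↥(T.map f) := by
    rw [h2, mul_comm]; exact h1
  exact Nat.le_of_mul_le_mul_left h5 hpos

lemma ker_id (a' a'' β : R) (hβ : β * β = 0) :
    (-(a' * β - β * a') + β * a'' * β) * β - β * (-(a' * β - β * a') + β * a'' * β)
      - β * a' * β = β * a' * β := by
  have key : (-(a' * β - β * a') + β * a'' * β) * β - β * (-(a' * β - β * a') + β * a'' * β)
      - β * a' * β - β * a' * β =
      -(a' * (β * β)) + β * a'' * (β * β) - (β * β) * a' - (β * β) * a'' * β := by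
    noncomm_ring
  have h0 : (-(a' * β - β * a') + β * a'' * β) * β - β * (-(a' * β - β * a') + β * a'' * β)
      - β * a' * β - β * a' * β = 0 := by
    rw [key, hβ]; simp
  exact sub_eq_zero.mp h0

lemma LimT_ker_aux {β : R} (hβ : β * β = 0) {c : AddSubgroup R} {a a' a'' z : R}
    (hT : (a, a', a'') ∈ LimT β c) (hk : a + (a' * β - β * a') - β * a'' * β = 0)
    (hz : z ∈ c) : (a', a'', z) ∈ LimT β c := by
  obtain ⟨h1, h2, h3, h4, h5⟩ := mem_LimT.1 hT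
  have ha : a = -(a' * β - β * a') + β * a'' * β := by
    have : a = a + (a' * β - β * a') - β * a'' * β + (-(a' * β - β * a') + β * a'' * β) := by
      abel
    rw [hk, zero_add] at this; exact this
  refine mem_LimT.2 ⟨h2, h3, hz, ?_, ?_⟩
  · have e := ker_id a' a'' β hβ
    rw [← ha] at e
    rw [← e]; exact h5
  · have e : a' * β - β * a' - β * a'' * β = -a := by rw [ha]; abel
    rw [e]; exact c.neg_mem h1

lemma card_le_card_Lim [Finite R] {β : R} (hβ : β * β = 0) (c : AddSubgroup R) :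
    Nat.card ↥c ≤ Nat.card ↥(Lim β c) := by
  have hker : ∀ k : ↥(((LimPsi β).domRestrict (LimT β c)).ker),
      k.1.1.1 + (k.1.1.2.1 * β - β * k.1.1.2.1) - β * k.1.1.2.2 * β = 0 := by
    intro k
    have := (AddMonoidHom.mem_ker).1 k.2
    exact this
  refine card_le_card_map_of_inj (LimT β c) (LimPsi β)
    (fun z => ⟨(z.2.1.1.2.1, z.2.1.1.2.2, z.1.1),
      LimT_ker_aux hβ (a := z.2.1.1.1) z.2.1.2 (hker z.2) z.1.2⟩) ?_
  rintro ⟨z, k⟩ ⟨z', k'⟩ h
  have h' := congrArg Subtype.val h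
  simp only [Prod.mk.injEq] at h'
  obtain ⟨e1, e2, e3⟩ := h'
  have k1 := hker k
  have k2 := hker k'
  have e0 : k.1.1.1 = k'.1.1.1 := by
    have : k.1.1.1 = k.1.1.1 + (k.1.1.2.1 * β - β * k.1.1.2.1) - β * k.1.1.2.2 * β
        - ((k.1.1.2.1 * β - β * k.1.1.2.1) - β * k.1.1.2.2 * β) := by abel
    rw [this, k1, e1, e2, ← k2]; abel
  have hz : z = z' := Subtype.ext e3
  have hk : k = k' := by
    apply Subtype.ext; apply Subtype.ext
    exact Prod.ext e0 (Prod.ext e1 e2)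
  rw [hz, hk]

/-- The stability theorem: if the filtered potential of `Lim β 𝔞` does not exceed that of `𝔞`
then `𝔞` is stable under `x ↦ xβ - βx` and `x ↦ βxβ`. -/
theorem stable_of_sum_le [Finite R] {β : R} (hβ : β * β = 0) (𝔞 : AddSubgroup R)
    (fil : ℕ → AddSubgroup R) (N : ℕ)
    (hanti : ∀ k, fil (k + 1) ≤ fil k) (hN : fil N = ⊥) (h0 : 𝔞 ≤ fil 0)
    (hr : ∀ k, ∀ x ∈ fil k, x * β ∈ fil (k + 1)) (hl : ∀ k, ∀ x ∈ fil k, β * x ∈ fil (k + 1))
    (hle : ∑ k ∈ Finset.range N, Nat.card ↥(Lim β 𝔞 ⊓ fil k) ≤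
      ∑ k ∈ Finset.range N, Nat.card ↥(𝔞 ⊓ fil k)) :
    ∀ x ∈ 𝔞, x * β - β * x ∈ 𝔞 ∧ β * x * β ∈ 𝔞 := by
  have hmono : ∀ k j, k ≤ j → fil j ≤ fil k := fun k j h => antitone_nat_of_succ_le hanti h
  have hgam : ∀ k, ∀ x ∈ fil k, x * β - β * x ∈ fil (k + 1) := fun k x hx =>
    (fil (k + 1)).sub_mem (hr k x hx) (hl k x hx)
  have heps : ∀ k, ∀ x ∈ fil k, β * x * β ∈ fil (k + 1) := fun k x hx =>
    hanti (k + 1) (hr (k + 1) _ (hl k x hx))
  have hincl : ∀ k, Lim β (𝔞 ⊓ fil k) ≤ Lim β 𝔞 ⊓ fil k := by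
    intro k
    refine le_inf (Lim_mono β inf_le_left) (Lim_le_of_le β inf_le_right ?_ ?_)
    · intro x hx
      exact hanti k (hgam k x (AddSubgroup.mem_inf.1 hx).2)
    · intro x hx
      exact hanti k (heps k x (AddSubgroup.mem_inf.1 hx).2)
  have hterm : ∀ k, Nat.card ↥(𝔞 ⊓ fil k) ≤ Nat.card ↥(Lim β 𝔞 ⊓ fil k) := fun k =>
    (card_le_card_Lim hβ _).trans (AddSubgroup.card_le_of_le (hincl k))
  have heq : ∀ k ∈ Finset.range N,
      Nat.card ↥(𝔞 ⊓ fil k) = Nat.card ↥(Lim β 𝔞 ⊓ fil k) := by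
    have hsum : ∑ k ∈ Finset.range N, Nat.card ↥(𝔞 ⊓ fil k) =
        ∑ k ∈ Finset.range N, Nat.card ↥(Lim β 𝔞 ⊓ fil k) :=
      le_antisymm (Finset.sum_le_sum fun k _ => hterm k) hle
    exact (Finset.sum_eq_sum_iff_of_le fun k _ => hterm k).1 hsum
  have hLeq : ∀ k, k < N → Lim β (𝔞 ⊓ fil k) = Lim β 𝔞 ⊓ fil k := by
    intro k hk
    refine AddSubgroup.eq_of_le_of_card_ge (hincl k) ?_
    rw [← heq k (Finset.mem_range.2 hk)]
    exact card_le_card_Lim hβ _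
  have hbot : ∀ k, N ≤ k → ∀ x ∈ fil k, x = 0 := by
    intro k hk x hx
    have : x ∈ fil N := hmono N k hk hx
    rw [hN] at this
    exact (AddSubgroup.mem_bot).1 this
  have hQ : ∀ k, (∀ x ∈ 𝔞 ⊓ fil k, x * β - β * x ∈ 𝔞 ∧ β * x * β ∈ 𝔞) →
      Lim β 𝔞 ⊓ fil k ≤ 𝔞 := by
    intro k hP
    by_cases hk : k < N
    · rw [← hLeq k hk]
      refine (Lim_le_of_le β le_rfl ?_ ?_).trans inf_le_left
      · intro x hx
        exact AddSubgroup.mem_inf.2 ⟨(hP x hx).1, hanti k (hgam k x (AddSubgroup.mem_inf.1 hx).2)⟩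
      · intro x hx
        exact AddSubgroup.mem_inf.2 ⟨(hP x hx).2, hanti k (heps k x (AddSubgroup.mem_inf.1 hx).2)⟩
    · intro x hx
      have : x = 0 := hbot k (not_lt.1 hk) x (AddSubgroup.mem_inf.1 hx).2
      rw [this]; exact 𝔞.zero_mem
  have hP : ∀ n k, N ≤ k + n → ∀ x ∈ 𝔞 ⊓ fil k, x * β - β * x ∈ 𝔞 ∧ β * x * β ∈ 𝔞 := by
    intro n
    induction n with
    | zero =>
      intro k hk x hx
      have hx0 : x = 0 := hbot k (by omega) x (AddSubgroup.mem_inf.1 hx).2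
      subst hx0
      simp [𝔞.zero_mem]
    | succ n ih =>
      intro k hk x hx
      have hQ1 := hQ (k + 1) (ih (k + 1) (by omega))
      have hxa : x ∈ 𝔞 := (AddSubgroup.mem_inf.1 hx).1
      have hxk : x ∈ fil k := (AddSubgroup.mem_inf.1 hx).2
      have he : β * x * β ∈ 𝔞 :=
        hQ1 (AddSubgroup.mem_inf.2 ⟨eps_mem_Lim β hxa, heps k x hxk⟩)
      exact ⟨hQ1 (AddSubgroup.mem_inf.2 ⟨gam_mem_Lim β hxa he, hgam k x hxk⟩), he⟩
  intro x hx
  exact hP N 0 (by omega) x (AddSubgroup.mem_inf.2 ⟨hx, h0 hx⟩)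

end Cfsg.Agent.Lib.Helper64.OffLim
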