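import Cfsg.Agent.Lib.Helper64.OffReal

/-!
Quadratic 2-subnormal offenders (helper64, S1935), group level in an abstract
representation `ρ : Γ →* R` with `R` acting on a module `W`.
-/

set_option autoImplicit false
set_option linter.unusedSimpArgs false

namespace Cfsg.Agent.Lib.Helper64.OffMain

open Cfsg.Agent.Lib.Helper64.OffId Cfsg.Agent.Lib.Helper64.OffLim
  Cfsg.Agent.Lib.Helper64.OffReal

variable {Γ R : Type*} [Group Γ] [Ring R]

/-- Quadratic action: products of two `ρ x - 1` vanish. -/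
def Quad (ρ : Γ →* R) (A : Subgroup Γ) : Prop :=
  ∀ x ∈ A, ∀ y ∈ A, (ρ x - 1) * (ρ y - 1) = 0

/-- The additive subgroup generated by the `ρ a - 1`, `a ∈ A`. -/
def dsub (ρ : Γ →* R) (A : Subgroup Γ) : AddSubgroup R :=
  AddSubgroup.closure {x | ∃ a ∈ A, ρ a - 1 = x}

lemma sub_one_mem_dsub (ρ : Γ →* R) {A : Subgroup Γ} {a : Γ} (ha : a ∈ A) :
    ρ a - 1 ∈ dsub ρ A := AddSubgroup.subset_closure ⟨a, ha, rfl⟩

lemma rho_inv_of_sq (ρ : Γ →* R) (g : Γ) (h : (ρ g - 1) * (ρ g - 1) = 0) :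
    ρ g⁻¹ - 1 = -(ρ g - 1) := by
  have h1 : ρ g⁻¹ * ρ g = 1 := by rw [← map_mul, inv_mul_cancel, map_one]
  have h2 : ρ g * (1 - (ρ g - 1)) = 1 := by
    have : ρ g * (1 - (ρ g - 1)) = 1 - (ρ g - 1) * (ρ g - 1) := by noncomm_ring
    rw [this, h, sub_zero]
  have : ρ g⁻¹ = 1 - (ρ g - 1) := by
    calc ρ g⁻¹ = ρ g⁻¹ * (ρ g * (1 - (ρ g - 1))) := by rw [h2, mul_one]
      _ = (ρ g⁻¹ * ρ g) * (1 - (ρ g - 1)) := by rw [mul_assoc]
      _ = 1 - (ρ g - 1) := by rw [h1, one_mul]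
  rw [this]; abel

lemma rho_mul_sub_one (ρ : Γ →* R) (a b : Γ) :
    ρ (a * b) - 1 = (ρ a - 1) + (ρ b - 1) + (ρ a - 1) * (ρ b - 1) := by
  rw [map_mul]; noncomm_ring

lemma mem_dsub {ρ : Γ →* R} {A : Subgroup Γ} (hA : Quad ρ A) {x : R} :
    x ∈ dsub ρ A ↔ ∃ a ∈ A, ρ a - 1 = x := by
  constructor
  · intro hx
    induction hx using AddSubgroup.closure_induction with
    | mem x hx => exact hx
    | zero => exact ⟨1, A.one_mem, by simp⟩
    | add _ _ _ _ hx hy =>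
      obtain ⟨a, ha, rfl⟩ := hx
      obtain ⟨b, hb, rfl⟩ := hy
      refine ⟨a * b, A.mul_mem ha hb, ?_⟩
      rw [rho_mul_sub_one, hA a ha b hb, add_zero]
    | neg x _ hx =>
      obtain ⟨a, ha, rfl⟩ := hx
      exact ⟨a⁻¹, A.inv_mem ha, rho_inv_of_sq ρ a (hA a ha a ha)⟩
  · intro hx
    exact AddSubgroup.subset_closure hx

lemma dsub_mul_zero {ρ : Γ →* R} {A : Subgroup Γ} (hA : Quad ρ A) :
    ∀ x ∈ dsub ρ A, ∀ y ∈ dsub ρ A, x * y = 0 := by
  intro x hx y hy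
  obtain ⟨a, ha, rfl⟩ := (mem_dsub hA).1 hx
  obtain ⟨b, hb, rfl⟩ := (mem_dsub hA).1 hy
  exact hA a ha b hb

lemma card_dsub [Finite Γ] {ρ : Γ →* R} (hinj : Function.Injective ρ) {A : Subgroup Γ}
    (hA : Quad ρ A) : Nat.card ↥(dsub ρ A) = Nat.card ↥A := by
  symm
  refine Nat.card_eq_of_bijective
    (fun a : ↥A => (⟨ρ a.1 - 1, sub_one_mem_dsub ρ a.2⟩ : ↥(dsub ρ A))) ⟨?_, ?_⟩
  · intro a b h
    have h' : ρ a.1 - 1 = ρ b.1 - 1 := congrArg Subtype.val h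
    exact Subtype.ext (hinj (sub_left_injective h'))
  · rintro ⟨x, hx⟩
    obtain ⟨a, ha, rfl⟩ := (mem_dsub hA).1 hx
    exact ⟨⟨a, ha⟩, rfl⟩

/-- The subgroup of elements `g` with `ρ g - 1 ∈ L`, for `L` with zero products. -/
def starSub (ρ : Γ →* R) (L : AddSubgroup R) (hL : ∀ x ∈ L, ∀ y ∈ L, x * y = 0) :
    Subgroup Γ where
  carrier := {g | ρ g - 1 ∈ L}
  one_mem' := by
    show ρ 1 - 1 ∈ L
    rw [map_one, sub_self]; exact L.zero_mem
  mul_mem' := by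
    intro a b ha hb
    show ρ (a * b) - 1 ∈ L
    rw [rho_mul_sub_one, hL _ ha _ hb, add_zero]; exact L.add_mem ha hb
  inv_mem' := by
    intro a ha
    show ρ a⁻¹ - 1 ∈ L
    rw [rho_inv_of_sq ρ a (hL _ ha _ ha)]; exact L.neg_mem ha

lemma mem_starSub {ρ : Γ →* R} {L : AddSubgroup R} {hL : ∀ x ∈ L, ∀ y ∈ L, x * y = 0} {g : Γ} :
    g ∈ starSub ρ L hL ↔ ρ g - 1 ∈ L := Iff.rfl

lemma quad_starSub (ρ : Γ →* R) (L : AddSubgroup R) (hL : ∀ x ∈ L, ∀ y ∈ L, x * y = 0) :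
    Quad ρ (starSub ρ L hL) := fun _ hx _ hy => hL _ hx _ hy

lemma dsub_starSub (ρ : Γ →* R) (L : AddSubgroup R) (hL : ∀ x ∈ L, ∀ y ∈ L, x * y = 0)
    (hreal : ∀ x ∈ L, 1 + x ∈ MonoidHom.mrange ρ) : dsub ρ (starSub ρ L hL) = L := by
  ext x
  rw [mem_dsub (quad_starSub ρ L hL)]
  constructor
  · rintro ⟨g, hg, rfl⟩; exact hg
  · intro hx
    obtain ⟨g, hg⟩ := MonoidHom.mem_mrange.1 (hreal x hx)
    have e : ρ g - 1 = x := by rw [hg]; abel
    exact ⟨g, by rw [mem_starSub, e]; exact hx, e⟩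

section module

variable (W : Type*) [AddCommGroup W] [Module R W]

/-- Annihilator in `W` of an additive subgroup of `R`. -/
def annS (c : AddSubgroup R) : AddSubgroup W where
  carrier := {w | ∀ x ∈ c, x • w = 0}
  zero_mem' := by intro x _; exact smul_zero x
  add_mem' := by intro a b ha hb x hx; rw [smul_add, ha x hx, hb x hx, add_zero]
  neg_mem' := by intro a ha x hx; rw [smul_neg, ha x hx, neg_zero]

variable {W}

lemma mem_annS {c : AddSubgroup R} {w : W} : w ∈ annS W c ↔ ∀ x ∈ c, x • w = 0 := Iff.rfl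

lemma mem_annS_dsub {ρ : Γ →* R} {A : Subgroup Γ} {w : W} :
    w ∈ annS W (dsub ρ A) ↔ ∀ a ∈ A, ρ a • w = w := by
  constructor
  · intro h a ha
    have := h _ (sub_one_mem_dsub ρ ha)
    rw [sub_smul, one_smul, sub_eq_zero] at this
    exact this
  · intro h x hx
    induction hx using AddSubgroup.closure_induction with
    | mem x hx =>
      obtain ⟨a, ha, rfl⟩ := hx
      rw [sub_smul, one_smul, sub_eq_zero]; exact h a ha
    | zero => exact zero_smul _ _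
    | add x y _ _ hx hy => rw [add_smul, hx, hy, add_zero]
    | neg x _ hx => rw [neg_smul, hx, neg_zero]

variable (W)

/-- Parametrizing subgroup for the annihilator of the limit. -/
def AnnT (β : R) (c : AddSubgroup R) : AddSubgroup (W × W) where
  carrier := {t | t.1 ∈ annS W c ∧ t.2 ∈ annS W c ∧ β • t.2 ∈ annS W c}
  zero_mem' := by
    refine ⟨zero_mem _, zero_mem _, ?_⟩
    show β • (0 : W) ∈ annS W c
    rw [smul_zero]; exact zero_mem _
  add_mem' := by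
    rintro x y ⟨h1, h2, h3⟩ ⟨k1, k2, k3⟩
    refine ⟨add_mem h1 k1, add_mem h2 k2, ?_⟩
    have := add_mem h3 k3
    rw [← smul_add] at this; exact this
  neg_mem' := by
    rintro x ⟨h1, h2, h3⟩
    refine ⟨neg_mem h1, neg_mem h2, ?_⟩
    have := neg_mem h3
    rw [← smul_neg] at this; exact this

/-- Parametrizing map for the annihilator of the limit. -/
def AnnPhi (β : R) : W × W →+ W :=
  AddMonoidHom.mk' (fun t => β • t.1 + t.2)
    (by intro x y; simp only [Prod.fst_add, Prod.snd_add, smul_add]; abel)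

variable {W}

lemma mem_AnnT {β : R} {c : AddSubgroup R} {w w' : W} :
    (w, w') ∈ AnnT W β c ↔ w ∈ annS W c ∧ w' ∈ annS W c ∧ β • w' ∈ annS W c := Iff.rfl

lemma AnnPhi_apply (β : R) (w w' : W) : AnnPhi W β (w, w') = β • w + w' := rfl

lemma map_AnnT_le {β : R} (hβ : β * β = 0) (c : AddSubgroup R) :
    (AnnT W β c).map (AnnPhi W β) ≤ annS W (Lim β c) := by
  rintro _ ⟨⟨w, w'⟩, ⟨hw, hw', hbw'⟩, rfl⟩
  intro x hx
  obtain ⟨a, a', a'', h1, h2, h3, h4, h5, rfl⟩ := mem_Lim.1 hx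
  have hbb : ∀ v : W, β • β • v = 0 := fun v => by rw [← mul_smul, hβ, zero_smul]
  have e1 : a • w' = 0 := hw' a h1
  have e2 : a' • w' = 0 := hw' a' h2
  have e3 : a' • β • w' = 0 := hbw' a' h2
  have e4 : a'' • β • w' = 0 := hbw' a'' h3
  have e5 : a • β • w = β • a' • β • w := by
    have := hw _ h5
    rw [sub_smul, sub_smul, mul_smul, mul_smul, mul_smul, mul_smul, hw a h1, smul_zero,
      sub_zero, sub_eq_zero] at this
    exact this
  show (a + (a' * β - β * a') - β * a'' * β) • (β • w + w') = 0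
  simp only [sub_smul, add_smul, mul_smul, smul_add, smul_sub, e1, e2, e3, e4, e5, hbb,
    smul_zero, add_zero, sub_zero, zero_add, sub_self]
  abel

lemma card_annS_le [Finite W] {β : R} (hβ : β * β = 0) (c : AddSubgroup R) :
    Nat.card ↥(annS W c) ≤ Nat.card ↥(annS W (Lim β c)) := by
  have hker : ∀ k : ↥(((AnnPhi W β).domRestrict (AnnT W β c)).ker),
      β • k.1.1.1 + k.1.1.2 = 0 := by
    intro k
    have := (AddMonoidHom.mem_ker).1 k.2
    exact this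
  have h1 : Nat.card ↥(annS W c) ≤ Nat.card ↥((AnnT W β c).map (AnnPhi W β)) := by
    refine card_le_card_map_of_inj (AnnT W β c) (AnnPhi W β)
      (fun z => ⟨(z.1.1, z.2.1.1.1), ?_⟩) ?_
    · have hk := hker z.2
      have hT : (z.2.1.1.1, z.2.1.1.2) ∈ AnnT W β c := z.2.1.2
      obtain ⟨t1, t2, t3⟩ := mem_AnnT.1 hT
      refine mem_AnnT.2 ⟨z.1.2, t1, ?_⟩
      have e : β • z.2.1.1.1 = -z.2.1.1.2 := eq_neg_of_add_eq_zero_left hk
      rw [e]; exact neg_mem t2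
    · rintro ⟨z, k⟩ ⟨z', k'⟩ h
      have h' := congrArg Subtype.val h
      simp only [Prod.mk.injEq] at h'
      obtain ⟨e1, e2⟩ := h'
      have k1 := hker k
      have k2 := hker k'
      have e0 : k.1.1.2 = k'.1.1.2 := by
        have a1 : k.1.1.2 = -(β • k.1.1.1) := eq_neg_of_add_eq_zero_right k1
        have a2 : k'.1.1.2 = -(β • k'.1.1.1) := eq_neg_of_add_eq_zero_right k2
        rw [a1, a2, e2]
      have hz : z = z' := Subtype.ext e1
      have hk : k = k' := by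
        apply Subtype.ext; apply Subtype.ext
        exact Prod.ext e2 e0
      rw [hz, hk]
  exact h1.trans (AddSubgroup.card_le_of_le (map_AnnT_le hβ c))

end module

/-- Existence of the starred subgroup. -/
theorem exists_star (W : Type*) [AddCommGroup W] [Module R W] [Finite W]
    (ρ : Γ →* R) (m : ℕ) (hm : ∀ x : R, m • (x + x) = x)
    (A : Subgroup Γ) (hA : Quad ρ A) (b : Γ) (hb : (ρ b - 1) * (ρ b - 1) = 0)
    (h1 : ∀ a ∈ A, ∀ a' ∈ A, (b⁻¹ * a' * b) * a * (b⁻¹ * a' * b)⁻¹ ∈ A)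
    (h2 : ∀ a ∈ A, ∀ a' ∈ A, (b * a' * b⁻¹) * a * (b * a' * b⁻¹)⁻¹ ∈ A) :
    ∃ A' : Subgroup Γ, Quad ρ A' ∧ dsub ρ A' = Lim (ρ b - 1) (dsub ρ A) ∧
      Nat.card ↥(annS W (dsub ρ A)) ≤ Nat.card ↥(annS W (dsub ρ A')) := by
  have haa := dsub_mul_zero hA
  have hβp : 1 + (ρ b - 1) = ρ b := by abel
  have hβm : 1 - (ρ b - 1) = ρ b⁻¹ := by
    have := rho_inv_of_sq ρ b hb
    rw [sub_eq_iff_eq_add] at this; rw [this]; abel
  have hαp : ∀ a : Γ, 1 + (ρ a - 1) = ρ a := fun a => by abel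
  have hαm : ∀ a ∈ A, 1 - (ρ a - 1) = ρ a⁻¹ := fun a ha => by
    have := rho_inv_of_sq ρ a (hA a ha a ha)
    rw [sub_eq_iff_eq_add] at this; rw [this]; abel
  have h1' : ∀ α ∈ dsub ρ A, ∀ α' ∈ dsub ρ A,
      (1 - (ρ b - 1)) * (1 + α') * (1 + (ρ b - 1)) * (1 + α) *
        ((1 - (ρ b - 1)) * (1 - α') * (1 + (ρ b - 1))) - 1 ∈ dsub ρ A := by
    intro α hα α' hα'
    obtain ⟨a, ha, rfl⟩ := (mem_dsub hA).1 hα
    obtain ⟨a', ha', rfl⟩ := (mem_dsub hA).1 hα'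
    rw [hβp, hβm, hαp, hαp, hαm a' ha']
    have e : ρ b⁻¹ * ρ a' * ρ b * ρ a * (ρ b⁻¹ * ρ a'⁻¹ * ρ b) =
        ρ ((b⁻¹ * a' * b) * a * (b⁻¹ * a' * b)⁻¹) := by
      simp only [← map_mul]
      congr 1; group
    rw [e]
    exact sub_one_mem_dsub ρ (h1 a ha a' ha')
  have h2' : ∀ α ∈ dsub ρ A, ∀ α' ∈ dsub ρ A,
      (1 + (ρ b - 1)) * (1 + α') * (1 - (ρ b - 1)) * (1 + α) *
        ((1 + (ρ b - 1)) * (1 - α') * (1 - (ρ b - 1))) - 1 ∈ dsub ρ A := by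
    intro α hα α' hα'
    obtain ⟨a, ha, rfl⟩ := (mem_dsub hA).1 hα
    obtain ⟨a', ha', rfl⟩ := (mem_dsub hA).1 hα'
    rw [hβp, hβm, hαp, hαp, hαm a' ha']
    have e : ρ b * ρ a' * ρ b⁻¹ * ρ a * (ρ b * ρ a'⁻¹ * ρ b⁻¹) =
        ρ ((b * a' * b⁻¹) * a * (b * a' * b⁻¹)⁻¹) := by
      simp only [← map_mul]
      congr 1; group
    rw [e]
    exact sub_one_mem_dsub ρ (h2 a ha a' ha')
  obtain ⟨hR3, hR1, hR2⟩ := real_rels hb (dsub ρ A) haa m hm h1' h2'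
  have hU : ∀ x ∈ dsub ρ A, 1 + x ∈ MonoidHom.mrange ρ := by
    intro x hx
    obtain ⟨a, ha, rfl⟩ := (mem_dsub hA).1 hx
    rw [hαp]; exact MonoidHom.mem_mrange.2 ⟨a, rfl⟩
  have hUp : 1 + (ρ b - 1) ∈ MonoidHom.mrange ρ := by
    rw [hβp]; exact MonoidHom.mem_mrange.2 ⟨b, rfl⟩
  have hUm : 1 - (ρ b - 1) ∈ MonoidHom.mrange ρ := by
    rw [hβm]; exact MonoidHom.mem_mrange.2 ⟨b⁻¹, rfl⟩
  have hreal := realize hb (dsub ρ A) haa m hm hR3 hR1 hR2 (MonoidHom.mrange ρ) hU hUp hUm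
  have hL := Lim_mul_Lim hb haa
  have hd := dsub_starSub ρ (Lim (ρ b - 1) (dsub ρ A)) hL hreal
  refine ⟨starSub ρ (Lim (ρ b - 1) (dsub ρ A)) hL, quad_starSub ρ _ hL, hd, ?_⟩
  rw [hd]
  exact card_annS_le hb (dsub ρ A)

end Cfsg.Agent.Lib.Helper64.OffMain
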