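import Cfsg.Agent.Lib.Helper64.OffLim

/-!
Realization of the limit subgroup by units `1 + x` (helper64, S1935), abstract ring part.
-/

set_option autoImplicit false
set_option linter.unusedSimpArgs false

namespace Cfsg.Agent.Lib.Helper64.OffReal

open Cfsg.Agent.Lib.Helper64.OffId Cfsg.Agent.Lib.Helper64.OffLim

variable {R : Type*} [Ring R]

/-- Relations (R3), (R1), (R2) forced by mutual normalization. -/
theorem real_rels {β : R} (hβ : β * β = 0) (𝔞 : AddSubgroup R)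
    (haa : ∀ x ∈ 𝔞, ∀ y ∈ 𝔞, x * y = 0)
    (m : ℕ) (hm : ∀ x : R, m • (x + x) = x)
    (h1 : ∀ α ∈ 𝔞, ∀ α' ∈ 𝔞,
      (1 - β) * (1 + α') * (1 + β) * (1 + α) * ((1 - β) * (1 - α') * (1 + β)) - 1 ∈ 𝔞)
    (h2 : ∀ α ∈ 𝔞, ∀ α' ∈ 𝔞,
      (1 + β) * (1 + α') * (1 - β) * (1 + α) * ((1 + β) * (1 - α') * (1 - β)) - 1 ∈ 𝔞) :
    (∀ x ∈ 𝔞, ∀ y ∈ 𝔞, ∀ z ∈ 𝔞, x * β * y * β * z = 0) ∧
    (∀ x ∈ 𝔞, ∀ y ∈ 𝔞, x * β * y + y * β * x ∈ 𝔞) ∧
    (∀ x ∈ 𝔞, ∀ y ∈ 𝔞, x * β * y * β - β * y * β * x ∈ 𝔞) := by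
  have half : ∀ x : R, x + x ∈ 𝔞 → x ∈ 𝔞 := fun x hx => by
    have := 𝔞.nsmul_mem hx m; rwa [hm] at this
  have hZ : ∀ a ∈ 𝔞, ∀ a' ∈ 𝔞,
      (a' * β * a + a * β * a') + a' * β * a * β * a' * β - β * a' * β * a * β * a' ∈ 𝔞 := by
    intro a ha a' ha'
    have e1 := h1 a ha a' ha'
    have e2 := h2 a ha a' ha'
    rw [id_h1 a a' β hβ (haa a ha a' ha') (haa a' ha' a' ha') (haa a' ha' a ha)] at e1
    rw [id_h2 a a' β hβ (haa a ha a' ha') (haa a' ha' a' ha') (haa a' ha' a ha)] at e2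
    apply half
    have := 𝔞.sub_mem e1 e2
    convert this using 1
    abel
  have hY : ∀ a ∈ 𝔞, ∀ a' ∈ 𝔞,
      (a * β * a' * β - β * a' * β * a) + a' * β * a * β * a' - β * a' * β * a * β * a' * β
        ∈ 𝔞 := by
    intro a ha a' ha'
    have e1 := h1 a ha a' ha'
    have e2 := h2 a ha a' ha'
    rw [id_h1 a a' β hβ (haa a ha a' ha') (haa a' ha' a' ha') (haa a' ha' a ha)] at e1
    rw [id_h2 a a' β hβ (haa a ha a' ha') (haa a' ha' a' ha') (haa a' ha' a ha)] at e2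
    apply half
    have := 𝔞.sub_mem (𝔞.sub_mem (𝔞.add_mem e1 e2) ha) ha
    convert this using 1
    abel
  have hstar : ∀ a ∈ 𝔞, ∀ a' ∈ 𝔞, ∀ z ∈ 𝔞, z * β * a' * β * a * β * a' = 0 := by
    intro a ha a' ha' z hz
    have := haa z hz _ (hZ a ha a' ha')
    have key : z * ((a' * β * a + a * β * a') + a' * β * a * β * a' * β
        - β * a' * β * a * β * a') =
        (z * a') * β * a + (z * a) * β * a' + (z * a') * β * a * β * a' * β
          - z * β * a' * β * a * β * a' := by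
      noncomm_ring
    rw [key, haa z hz a' ha', haa z hz a ha] at this
    simpa using this
  have hR3 : ∀ x ∈ 𝔞, ∀ y ∈ 𝔞, ∀ z ∈ 𝔞, x * β * y * β * z = 0 := by
    intro x hx y hy z hz
    have := haa x hx _ (hY z hz y hy)
    have key : x * ((z * β * y * β - β * y * β * z) + y * β * z * β * y
        - β * y * β * z * β * y * β) =
        (x * z) * β * y * β - x * β * y * β * z + (x * y) * β * z * β * y
          - (x * β * y * β * z * β * y) * β := by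
      noncomm_ring
    rw [key, haa x hx z hz, haa x hx y hy, hstar z hz y hy x hx] at this
    simpa using this
  refine ⟨hR3, ?_, ?_⟩
  · intro x hx y hy
    have := hZ y hy x hx
    have key : (x * β * y + y * β * x) + x * β * y * β * x * β - β * x * β * y * β * x =
        (x * β * y + y * β * x) + (x * β * y * β * x) * β - β * (x * β * y * β * x) := by
      noncomm_ring
    rw [key, hR3 x hx y hy x hx] at this
    simpa using this
  · intro x hx y hy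
    have := hY x hx y hy
    have key : (x * β * y * β - β * y * β * x) + y * β * x * β * y
        - β * y * β * x * β * y * β =
        (x * β * y * β - β * y * β * x) + (y * β * x * β * y) - β * (y * β * x * β * y) * β := by
      noncomm_ring
    rw [key, hR3 y hy x hx y hy] at this
    simpa using this

lemma three_mul {x y z : R} (hxy : x * y = 0) (hxz : x * z = 0) (hyz : y * z = 0) :
    (1 + x) * (1 + y) * (1 + z) = 1 + (x + y + z) := by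
  have : (1 + x) * (1 + y) * (1 + z) =
      1 + (x + y + z) + x * y + x * z + y * z + (x * y) * z := by noncomm_ring
  rw [this, hxy, hxz, hyz]; simp

/-- Every element `x` of the limit subgroup has `1 + x` in any submonoid `U` containing
`1 + 𝔞` and `1 ± β`. -/
theorem realize {β : R} (hβ : β * β = 0) (𝔞 : AddSubgroup R)
    (haa : ∀ x ∈ 𝔞, ∀ y ∈ 𝔞, x * y = 0)
    (m : ℕ) (hm : ∀ x : R, m • (x + x) = x)
    (hR3 : ∀ x ∈ 𝔞, ∀ y ∈ 𝔞, ∀ z ∈ 𝔞, x * β * y * β * z = 0)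
    (hR1 : ∀ x ∈ 𝔞, ∀ y ∈ 𝔞, x * β * y + y * β * x ∈ 𝔞)
    (hR2 : ∀ x ∈ 𝔞, ∀ y ∈ 𝔞, x * β * y * β - β * y * β * x ∈ 𝔞)
    (U : Submonoid R) (hU : ∀ x ∈ 𝔞, 1 + x ∈ U) (hUp : 1 + β ∈ U) (hUm : 1 - β ∈ U) :
    ∀ x ∈ Lim β 𝔞, 1 + x ∈ U := by
  have half : ∀ x : R, x + x ∈ 𝔞 → x ∈ 𝔞 := fun x hx => by
    have := 𝔞.nsmul_mem hx m; rwa [hm] at this
  have hxbx : ∀ x ∈ 𝔞, x * β * x ∈ 𝔞 := fun x hx => half _ (hR1 x hx x hx)
  have hUneg : ∀ x ∈ 𝔞, 1 - x ∈ U := fun x hx => by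
    have := hU _ (𝔞.neg_mem hx); rwa [← sub_eq_add_neg] at this
  -- (i)
  have hi0 : ∀ a ∈ 𝔞, 1 - (β * (a - a * β * a) * β + β * (a - a * β * a) * β) ∈ U := by
    intro a ha
    have hν : -(a * β * a) + a * β * a * β - β * a * β * a ∈ 𝔞 := by
      have := 𝔞.add_mem (𝔞.neg_mem (hxbx a ha)) (hR2 a ha a ha)
      convert this using 1; abel
    rw [← id_chk1 a β (haa a ha a ha) hβ (hR3 a ha a ha a ha)]
    refine U.mul_mem (U.mul_mem (U.mul_mem ?_ ?_) ?_) ?_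
    · exact U.mul_mem (U.mul_mem hUm (hU a ha)) hUp
    · exact U.mul_mem (U.mul_mem hUp (hU a ha)) hUm
    · exact hU _ (𝔞.sub_mem (𝔞.neg_mem ha) ha)
    · exact hU _ (𝔞.add_mem hν hν)
  have hi1 : ∀ a ∈ 𝔞, 1 - (β * a * β + β * a * β) ∈ U := by
    intro a ha
    have h := hi0 (a + a * β * a) (𝔞.add_mem ha (hxbx a ha))
    rwa [id_subst a β (hR3 a ha a ha a ha)] at h
  have hi : ∀ a ∈ 𝔞, 1 - β * a * β ∈ U := by
    intro a ha
    have h := hi1 (m • a) (𝔞.nsmul_mem ha m)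
    have e : β * (m • a) * β + β * (m • a) * β = β * a * β := by
      rw [← add_mul, ← mul_add, ← smul_add, hm]
    rwa [e] at h
  -- (ii)
  have hii : ∀ a ∈ 𝔞, β * a * β ∈ 𝔞 → 1 + (a * β - β * a) ∈ U := by
    intro a ha hea
    rw [← id_chk23 a β hβ (haa a ha _ hea) (haa a ha a ha)]
    refine U.mul_mem (U.mul_mem ?_ ?_) ?_
    · exact hUneg a ha
    · exact U.mul_mem (U.mul_mem hUm (hU a ha)) hUp
    · exact hU _ (𝔞.sub_mem hea (hxbx a ha))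
  -- (iii)
  intro x hx
  obtain ⟨a, a', a'', h1, h2, h3, h4, h5, rfl⟩ := mem_Lim.1 hx
  obtain ⟨a₀, ha₀def⟩ : ∃ a₀, a₀ = a + (a * β - β * a - β * a' * β) + a' * β * a' + a * β * a :=
    ⟨_, rfl⟩
  have ha₀ : a₀ ∈ 𝔞 := by
    rw [ha₀def]
    exact 𝔞.add_mem (𝔞.add_mem (𝔞.add_mem h1 h5) (hxbx a' h2)) (hxbx a h1)
  have hc4 : 1 + (a₀ + (a' * β - β * a')) ∈ U := by
    rw [ha₀def, ← id_chk4 a a' β (haa a h1 a h1) (haa a' h2 _ h4) (haa _ h4 a h1) hβ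
      (haa a' h2 a h1) (haa a' h2 a' h2) (haa a' h2 _ h5)]
    refine U.mul_mem (U.mul_mem (U.mul_mem ?_ ?_) ?_) ?_
    · exact hUneg a' h2
    · exact U.mul_mem (U.mul_mem hUm (hU a' h2)) hUp
    · exact hii a h1 h4
    · exact hU a h1
  have he0 : β * a₀ * β ∈ 𝔞 := by
    rw [ha₀def, id_chk6a a a' β hβ (haa a' h2 a h1) (haa a' h2 _ h5) (haa a h1 _ h4)
      (haa a h1 a h1) (haa _ h5 a h1)]
    exact 𝔞.sub_mem h4 (hxbx a h1)
  have hg0 : a₀ * β - β * a₀ - β * a' * β ∈ 𝔞 := by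
    rw [ha₀def, id_chk6b a a' β hβ (haa a h1 _ h4) (haa _ h4 a h1)]
    have h' := 𝔞.add_mem (𝔞.sub_mem h5 (𝔞.add_mem h4 h4)) (hR2 a' h2 a' h2)
    convert h' using 1; abel
  have hL := Lim_mul_Lim hβ haa
  have m1 : a₀ + (a' * β - β * a') ∈ Lim β 𝔞 :=
    mem_Lim.2 ⟨a₀, a', 0, ha₀, h2, 𝔞.zero_mem, he0, hg0, by simp⟩
  have m2 : a - a₀ ∈ Lim β 𝔞 := by
    refine mem_Lim.2 ⟨a - a₀, 0, 0, 𝔞.sub_mem h1 ha₀, 𝔞.zero_mem, 𝔞.zero_mem, ?_, ?_, by simp⟩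
    · have := 𝔞.sub_mem h4 he0; convert this using 1; noncomm_ring
    · have := 𝔞.sub_mem h5 hg0; convert this using 1; noncomm_ring
  have m3 : -(β * a'' * β) ∈ Lim β 𝔞 := (Lim β 𝔞).neg_mem (eps_mem_Lim β h3)
  have u2 : 1 + (a - a₀) ∈ U := hU _ (𝔞.sub_mem h1 ha₀)
  have u3 : 1 + -(β * a'' * β) ∈ U := by have := hi a'' h3; rwa [sub_eq_add_neg] at this
  have hprod := U.mul_mem (U.mul_mem hc4 u2) u3
  rw [three_mul (hL _ m1 _ m2) (hL _ m1 _ m3) (hL _ m2 _ m3)] at hprod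
  convert hprod using 2
  abel

end Cfsg.Agent.Lib.Helper64.OffReal
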