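import Mathlib
import Cfsg.Agent.Lib.Helper45.S9Stmt
import Cfsg.Agent.Lib.Helper60.S8GLEMB
import Cfsg.Agent.Lib.Helper76.S8Glue

/-!
# S3590, piece `AGL`: `GL_k` on `H^k`, with `w = 0`; the rank of `psi A - 1` is even.
-/

set_option autoImplicit false

namespace Cfsg.Agent.Lib.Helper64.S9AGL

open Cfsg.Agent.Lib.Helper45.S9Stmt Matrix

universe u

/-- finrank of a product of submodules -/
theorem finrank_prod_sub {F : Type u} [Field F] {M N : Type*} [AddCommGroup M] [Module F M]
    [AddCommGroup N] [Module F N] [Module.Finite F M] [Module.Finite F N]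
    (p : Submodule F M) (q : Submodule F N) :
    Module.finrank F (p.prod q) = Module.finrank F p + Module.finrank F q := by
  let e : (p.prod q) ≃ₗ[F] (p × q) :=
    { toFun := fun x => (⟨x.1.1, x.2.1⟩, ⟨x.1.2, x.2.2⟩)
      invFun := fun y => ⟨(y.1.1, y.2.1), ⟨y.1.2, y.2.2⟩⟩
      map_add' := fun x y => rfl
      map_smul' := fun c x => rfl
      left_inv := fun x => rfl
      right_inv := fun y => rfl }
  rw [LinearEquiv.finrank_eq e, Module.finrank_prod]

/-- the rank of a block diagonal matrix -/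
theorem rank_fromBlocks_diag {F : Type u} [Field F] {m n : Type} [Fintype m] [Fintype n]
    [DecidableEq m] [DecidableEq n] (B : Matrix m m F) (C : Matrix n n F) :
    (Matrix.fromBlocks B 0 0 C).rank = B.rank + C.rank := by
  have h : (Matrix.fromBlocks B 0 0 C).mulVecLin =
      (LinearEquiv.sumArrowLequivProdArrow m n F F).symm.toLinearMap ∘ₗ
        (LinearMap.prodMap B.mulVecLin C.mulVecLin) ∘ₗ
          (LinearEquiv.sumArrowLequivProdArrow m n F F).toLinearMap := by
    apply LinearMap.ext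
    intro v
    funext i
    cases i <;> simp [Matrix.fromBlocks_mulVec, LinearEquiv.sumArrowLequivProdArrow] <;> rfl
  unfold Matrix.rank
  rw [h, LinearMap.range_comp, LinearMap.range_comp, LinearEquiv.range, Submodule.map_top,
    LinearMap.range_prodMap, LinearEquiv.finrank_map_eq, finrank_prod_sub]

theorem rank_inv_sub_one {F : Type u} [Field F] {m : Type} [Fintype m] [DecidableEq m]
    (A : GL m F) : ((A⁻¹ : GL m F).val - 1).rank = (A.val - 1).rank := by
  have h1 : A.val - 1 = (-A.val) * ((A⁻¹ : GL m F).val - 1) := by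
    have h2 : A.val * (A⁻¹ : GL m F).val = 1 := Units.mul_inv A
    rw [mul_sub, neg_mul, h2, mul_one]
    abel
  have h3 : IsUnit (-A.val).det := by
    rw [← Matrix.isUnit_iff_isUnit_det]
    exact A.isUnit.neg
  rw [h1, Matrix.rank_mul_eq_right_of_isUnit_det _ _ h3]

theorem main : AGL.{u} := by
  intro F _ k A
  have hiso := Cfsg.Agent.Lib.Helper60.S8GLEMB.psi_mem F k A
  have hval := Cfsg.Agent.Lib.Helper60.S8GLEMB.psi_val F k A
  have hinj := Cfsg.Agent.Lib.Helper60.S8GLEMB.psi_injective F k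
  refine ⟨Cfsg.Agent.Lib.Helper76.S8Glue.glEquiv (F := F) (Fin k ⊕ Fin k)
    (Cfsg.Agent.Lib.Helper60.S8GLEMB.psi F k A), 0, ?_, ?_, ?_⟩
  · intro v
    rw [Cfsg.Agent.Lib.Helper76.S8Glue.glEquiv_apply]
    exact (Cfsg.Agent.Lib.Helper76.S8Glue.mem_iso _ _).1 hiso v
  · intro j
    have h1 : (Cfsg.Agent.Lib.Helper76.S8Glue.glEquiv (F := F) (Fin k ⊕ Fin k)
        (Cfsg.Agent.Lib.Helper60.S8GLEMB.psi F k A)) ^ j = 1 ↔ A ^ j = 1 := by
      rw [← map_pow, ← map_pow, MulEquiv.map_eq_one_iff]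
      constructor
      · intro h
        apply hinj
        rw [h, map_one]
      · intro h
        rw [h, map_one]
    constructor
    · rintro ⟨h, -⟩
      exact orderOf_dvd_of_pow_eq_one (h1.1 h)
    · intro h
      refine ⟨h1.2 (orderOf_dvd_iff_pow_eq_one.1 h), ?_⟩
      simp
  · have h2 : (Cfsg.Agent.Lib.Helper76.S8Glue.glEquiv (F := F) (Fin k ⊕ Fin k)
        (Cfsg.Agent.Lib.Helper60.S8GLEMB.psi F k A)).toLinearMap - LinearMap.id =
        (Matrix.fromBlocks (A.val - 1) 0 0 ((A⁻¹ : GL (Fin k) F).val - 1)ᵀ).mulVecLin := by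
      apply LinearMap.ext
      intro v
      have h3 : Matrix.fromBlocks (A.val - 1) 0 0 ((A⁻¹ : GL (Fin k) F).val - 1)ᵀ =
          (Cfsg.Agent.Lib.Helper60.S8GLEMB.psi F k A).val - 1 := by
        rw [hval]
        ext i j
        rcases i with i | i <;> rcases j with j | j <;>
          simp [Matrix.one_apply, Matrix.transpose_apply, eq_comm]
      rw [h3]
      simp only [LinearMap.sub_apply, LinearEquiv.coe_coe, LinearMap.id_coe, id_eq,
        Matrix.mulVecLin_apply, Matrix.sub_mulVec, Matrix.one_mulVec]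
      rw [Cfsg.Agent.Lib.Helper76.S8Glue.glEquiv_apply]
    rw [h2]
    have h4 := rank_fromBlocks_diag (A.val - 1) ((A⁻¹ : GL (Fin k) F).val - 1)ᵀ
    unfold Matrix.rank at h4
    rw [h4]
    have h5 := rank_inv_sub_one A
    have h6 := Matrix.rank_transpose ((A⁻¹ : GL (Fin k) F).val - 1)
    unfold Matrix.rank at h5 h6
    rw [h6, h5, ← two_mul]
    push_cast
    have : (2 : ZMod 2) = 0 := by decide
    rw [this, zero_mul]

end Cfsg.Agent.Lib.Helper64.S9AGL
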