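import Mathlib
import Cfsg.Agent.Lib.Helper45.S9Stmt

/-!
# S3590, piece `SEMI`: the group `V^k ⋊ G` and its element orders
-/

set_option autoImplicit false

namespace Cfsg.Agent.Lib.Helper64.S9SEMI

open Matrix

universe u

section
variable {F : Type u} [Field F] {ι : Type} [Fintype ι] [DecidableEq ι] (G : Subgroup (GL ι F))
  (k : ℕ)

/-- the group `V^k ⋊ G`: pairs `(w, g)` with `(w, g) (w', g') = (w + g w', g g')` -/
@[ext] structure Aff where
  /-- translation part -/
  w : Fin k → ι → F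
  /-- linear part -/
  g : G

instance instMulAff : Mul (Aff G k) :=
  ⟨fun x y => ⟨fun l => x.w l + ((x.g : GL ι F) : Matrix ι ι F) *ᵥ y.w l, x.g * y.g⟩⟩

instance instOneAff : One (Aff G k) := ⟨⟨0, 1⟩⟩

instance instInvAff : Inv (Aff G k) :=
  ⟨fun x => ⟨fun l => -((((x.g⁻¹ : G) : GL ι F) : Matrix ι ι F) *ᵥ x.w l), x.g⁻¹⟩⟩

variable {G k}

theorem mul_w (x y : Aff G k) (l : Fin k) :
    (x * y).w l = x.w l + ((x.g : GL ι F) : Matrix ι ι F) *ᵥ y.w l := rfl

theorem mul_g (x y : Aff G k) : (x * y).g = x.g * y.g := rfl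

theorem one_w : (1 : Aff G k).w = 0 := rfl

theorem one_g : (1 : Aff G k).g = 1 := rfl

theorem inv_w (x : Aff G k) (l : Fin k) :
    (x⁻¹).w l = -((((x.g⁻¹ : G) : GL ι F) : Matrix ι ι F) *ᵥ x.w l) := rfl

theorem inv_g (x : Aff G k) : (x⁻¹).g = x.g⁻¹ := rfl

instance instGroupAff : Group (Aff G k) where
  mul_assoc x y z := by
    apply Aff.ext
    · funext l
      simp only [mul_w, mul_g]
      rw [Matrix.mulVec_add, Subgroup.coe_mul, Units.val_mul, ← Matrix.mulVec_mulVec, add_assoc]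
    · simp only [mul_g, mul_assoc]
  one_mul x := by
    apply Aff.ext
    · funext l
      simp [mul_w, one_w, one_g]
    · simp [mul_g, one_g]
  mul_one x := by
    apply Aff.ext
    · funext l
      simp [mul_w, one_w]
    · simp [mul_g, one_g]
  inv_mul_cancel x := by
    apply Aff.ext
    · funext l
      simp [mul_w, inv_w, inv_g, one_w]
    · simp [mul_g, inv_g, one_g]

theorem pow_g (x : Aff G k) (j : ℕ) : (x ^ j).g = x.g ^ j := by
  induction j with
  | zero => rw [pow_zero, pow_zero]; rfl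
  | succ j ih => rw [pow_succ, pow_succ, mul_g, ih]

theorem pow_w (x : Aff G k) (j : ℕ) (l : Fin k) :
    (x ^ j).w l = (∑ i ∈ Finset.range j, ((x.g : GL ι F) : Matrix ι ι F) ^ i) *ᵥ x.w l := by
  induction j with
  | zero => rw [pow_zero]; simp [one_w]
  | succ j ih =>
    rw [pow_succ, mul_w, ih, pow_g, Finset.sum_range_succ, Matrix.add_mulVec]
    simp

theorem pow_eq_one_iff' (x : Aff G k) (j : ℕ) :
    x ^ j = 1 ↔ (((x.g : GL ι F) : Matrix ι ι F) ^ j = 1 ∧
      ∀ l, (∑ i ∈ Finset.range j, ((x.g : GL ι F) : Matrix ι ι F) ^ i) *ᵥ x.w l = 0) := by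
  constructor
  · intro h
    have h1 : x.g ^ j = 1 := by rw [← pow_g, h]; rfl
    refine ⟨?_, fun l => ?_⟩
    · have h3 := congrArg (fun y : G => ((y : GL ι F) : Matrix ι ι F)) h1
      simpa using h3
    · rw [← pow_w, h]; rfl
  · rintro ⟨h1, h2⟩
    apply Aff.ext
    · funext l
      rw [pow_w, h2]; rfl
    · rw [pow_g, one_g]
      apply Subtype.ext
      apply Units.ext
      simpa using h1

variable (G k) in
/-- the underlying product -/
def affEquiv : Aff G k ≃ (Fin k → ι → F) × G where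
  toFun x := (x.w, x.g)
  invFun p := ⟨p.1, p.2⟩
  left_inv _ := rfl
  right_inv _ := rfl

end

theorem main : Cfsg.Agent.Lib.Helper45.S9Stmt.SEMI.{u} := by
  intro F _ _ ι _ _ G k
  have hfin : Finite (Aff G k) := Finite.of_equiv ((Fin k → ι → F) × G) (affEquiv G k).symm
  refine ⟨Aff G k, inferInstance, hfin, ?_, ?_⟩
  · rw [Nat.card_congr (affEquiv G k), Nat.card_prod, Nat.card_fun, Nat.card_fun]
    simp [pow_mul]
  · intro n
    constructor
    · rintro ⟨x, rfl⟩
      refine ⟨x.g.1, x.g.2, x.w, fun j => ?_⟩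
      rw [← pow_eq_one_iff', orderOf_dvd_iff_pow_eq_one]
    · rintro ⟨g, hg, w, h⟩
      refine ⟨⟨w, ⟨g, hg⟩⟩, ?_⟩
      have h' : ∀ j, (⟨w, ⟨g, hg⟩⟩ : Aff G k) ^ j = 1 ↔ n ∣ j := fun j => by
        rw [pow_eq_one_iff']
        exact h j
      apply Nat.dvd_antisymm
      · exact orderOf_dvd_of_pow_eq_one ((h' n).2 dvd_rfl)
      · exact (h' _).1 (pow_orderOf_eq_one _)

end Cfsg.Agent.Lib.Helper64.S9SEMI
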