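import Mathlib
import Cfsg.Agent.Lib.Helper26.T64Stmt

/-! Piece ZEXP of S3157 (helper64, second seat): the centre of order 4 is elementary abelian
when `ρ` is fixed-point-free. -/

set_option autoImplicit false

namespace Cfsg.Agent.Lib.Helper64.T64ZEXP

open Cfsg.Agent.Lib.Helper26.T64Stmt

universe u

theorem main : ZEXP.{u} := by
  intro T _ _ ρ hρ hfpf hZ z hz
  by_contra hne
  have hdvd : orderOf z ∣ 4 := by
    have := Subgroup.orderOf_dvd_natCard (Subgroup.center T) hz
    rwa [hZ] at this
  have ho : orderOf z = 4 := by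
    have h1 : orderOf z ≠ 1 := by
      intro h
      rw [orderOf_eq_one_iff] at h
      exact hne (by rw [h]; simp)
    have h2 : orderOf z ≠ 2 := by
      intro h
      have := pow_orderOf_eq_one z
      rw [h, pow_two] at this
      exact hne this
    have hle : orderOf z ≤ 4 := Nat.le_of_dvd (by norm_num) hdvd
    have hpos : 0 < orderOf z := Nat.pos_of_dvd_of_pos hdvd (by norm_num)
    have h3 : orderOf z ≠ 3 := by
      intro h
      rw [h] at hdvd
      omega
    omega
  have hzp : Subgroup.zpowers z = Subgroup.center T := by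
    apply Subgroup.eq_of_le_of_card_ge
    · exact (Subgroup.zpowers_le).mpr hz
    · rw [hZ, Nat.card_zpowers, ho]
  have hρz : ρ z ∈ Subgroup.center T := by
    rw [Subgroup.mem_center_iff]
    intro t
    have h1 := (Subgroup.mem_center_iff.mp hz) (ρ.symm t)
    have h2 := congrArg ρ h1
    simpa using h2
  rw [← hzp] at hρz
  obtain ⟨k, hk⟩ := Subgroup.mem_zpowers_iff.mp hρz
  have hk' : z ^ (k % 4) = ρ z := by
    rw [← hk]
    have := zpow_mod_orderOf z k
    rw [ho] at this
    exact_mod_cast this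
  have hz4 : z ^ 4 = 1 := by
    rw [← ho]
    exact pow_orderOf_eq_one z
  have hkr : k % 4 = 0 ∨ k % 4 = 1 ∨ k % 4 = 2 ∨ k % 4 = 3 := by omega
  rcases hkr with h | h | h | h
  · rw [h, zpow_zero] at hk'
    have h1 : z = 1 := (map_eq_one_iff ρ ρ.injective).mp hk'.symm
    exact hne (by rw [h1]; simp)
  · rw [h, zpow_one] at hk'
    have h1 : z = 1 := hfpf z hk'.symm
    exact hne (by rw [h1]; simp)
  · rw [h] at hk'
    have hk2 : z ^ 2 = ρ z := by exact_mod_cast hk'
    have h1 : ρ (z * z) = 1 := by
      rw [map_mul, ← hk2, ← pow_add]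
      exact hz4
    exact hne ((map_eq_one_iff ρ ρ.injective).mp h1)
  · rw [h] at hk'
    have hk3 : z ^ 3 = ρ z := by exact_mod_cast hk'
    have h1 : ρ (z * z) = z * z := by
      rw [map_mul, ← hk3, ← pow_add]
      have : z ^ (3 + 3) = z ^ 4 * z ^ 2 := by rw [← pow_add]
      rw [this, hz4, one_mul, pow_two]
    exact hne (hfpf _ h1)

end Cfsg.Agent.Lib.Helper64.T64ZEXP
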